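import Mathlib
import Cfsg.Prelude.Def_Classical
import Cfsg.Prelude.Def_SporadicB

/-!
Statements of the abstract parts of the proof that the McLaughlin group has an involution whose
centraliser is a non-split double cover of the alternating group of degree 8.

The centraliser `C` of the involution maps to the orthogonal group of plus type in dimension 8
over the field of two elements, and its image stabilises a totally singular subspace `W` of
dimension 4.  The action on `W` is a homomorphism from `C` onto the special linear group of
degree 4 over the field of two elements, which is the alternating group of degree 8; its kernel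
is a 2-group, hence of order 2 because the order of the McLaughlin group is not divisible by
`2 ^ 8`.
-/

set_option autoImplicit false

namespace Cfsg.Agent.Lib.Helper27.McStmt

open Cfsg
open scoped Matrix

/-- the index set of the space of dimension 8 -/
abbrev I8 : Type := Fin 4 ⊕ Fin 4

/-- vectors -/
abbrev V8 : Type := I8 → ZMod 2

/-- matrices -/
abbrev M8 : Type := Matrix I8 I8 (ZMod 2)

/-- matrices of degree 4 -/
abbrev M4 : Type := Matrix (Fin 4) (Fin 4) (ZMod 2)

/-- the special linear group of degree 4 over the field of two elements -/
abbrev SL4 : Type := Matrix.SpecialLinearGroup (Fin 4) (ZMod 2)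

/-- the orthogonal group of plus type in dimension 8 over the field of two elements -/
abbrev O8 : Type := ↥(Cfsg.isometryGroup (ZMod 2) (Cfsg.quadFormPlus 4 (ZMod 2)))

/-- the number of an index -/
def enc (i : I8) : ℕ :=
  match i with
  | Sum.inl a => a.val
  | Sum.inr a => 4 + a.val

/-- the matrix of a code: entry `(i, j)` is bit `8 * enc i + enc j` -/
def matOf (c : ℕ) : M8 :=
  Matrix.of fun i j => if c.testBit (8 * enc i + enc j) = true then 1 else 0

/-- the vector of a code: entry `i` is bit `enc i` -/
def vecOf (m : ℕ) : V8 := fun i => if m.testBit (enc i) = true then 1 else 0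

/-- the matrix of degree 4 of a code: entry `(i, j)` is bit `4 * i + j` -/
def mat4 (c : ℕ) : M4 :=
  Matrix.of fun i j => if c.testBit (4 * i.val + j.val) = true then 1 else 0

/-- the change of basis from the basis of roots to the standard basis of the form -/
def pmat : M8 := matOf 10903322633304995855

/-- its inverse -/
def pinv : M8 := matOf 17426779470398137196

/-- four vectors spanning the totally singular subspace `W`, as the columns of a matrix: entry
`(i, k)` is bit `4 * enc i + k` -/
def Pw : Matrix I8 (Fin 4) (ZMod 2) :=
  Matrix.of fun i k => if (2286031624 : ℕ).testBit (4 * enc i + k.val) = true then 1 else 0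

/-- a left inverse of `Pw`: entry `(l, j)` is bit `8 * l + enc j` -/
def Ew : Matrix (Fin 4) I8 (ZMod 2) :=
  Matrix.of fun l j => if (18877448 : ℕ).testBit (8 * l.val + enc j) = true then 1 else 0

/-! ### The action on the totally singular subspace (piece PSI) -/

/-- A homomorphism to the orthogonal group whose image stabilises the column space `W` of `Pw`
gives a homomorphism to the special linear group of degree 4, the action on `W` in the basis of
the columns; an element acting trivially on `W` has image of square one in the orthogonal group
(because `W` is its own orthogonal complement). -/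
def Psi : Prop :=
  ∀ (C : Type) [Group C] (φ : C →* O8),
    (∀ (g : C) (k : Fin 4), ∃ c : Fin 4 → ZMod 2,
      ((φ g : Matrix.GeneralLinearGroup I8 (ZMod 2)) : M8) *ᵥ (fun i => Pw i k) = Pw *ᵥ c) →
    ∃ ψ : C →* SL4,
      (∀ g : C, ((ψ g : SL4) : M4)
          = Ew * ((φ g : Matrix.GeneralLinearGroup I8 (ZMod 2)) : M8) * Pw) ∧
      (∀ g : C, ψ g = 1 → φ g * φ g = 1)

/-! ### Two matrices generating the special linear group (piece GEN4) -/

/-- A subgroup of the special linear group of degree 4 over the field of two elements containing
the two matrices of codes `39633` and `5092` is the whole group. -/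
def Gen4 : Prop :=
  ∀ H : Subgroup SL4, (∃ h ∈ H, ((h : SL4) : M4) = mat4 39633) →
    (∃ h ∈ H, ((h : SL4) : M4) = mat4 5092) → H = ⊤

/-! ### The double cover (piece NSDC) -/

/-- In a finite group of order not divisible by `2 ^ 8`, an involution `s` whose centraliser maps
onto the special linear group of degree 4 over the field of two elements with a kernel consisting
of 2-elements, and which is the square of an element of its centraliser: the centraliser is a
non-split double cover of the alternating group of degree 8. -/
def Nsdc : Prop :=
  ∀ (G : Type) [Group G] [Finite G] (s : G), ¬ 2 ^ 8 ∣ Nat.card G → s ≠ 1 → s * s = 1 →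
    ∀ ψ : ↥(Subgroup.centralizer ({s} : Set G)) →* SL4, Function.Surjective ψ →
      (∀ g : ↥(Subgroup.centralizer ({s} : Set G)), ψ g = 1 → ∃ k : ℕ, g ^ (2 ^ k) = 1) →
      (∃ y : ↥(Subgroup.centralizer ({s} : Set G)), (y : G) * (y : G) = s) →
      orderOf s = 2 ∧
        Cfsg.IsNonsplitDoubleCover ↥(Subgroup.centralizer ({s} : Set G))
          ↥(alternatingGroup (Fin 8))

/-! ### Transport along an isomorphism (piece TRANSB) -/

/-- The existence of an involution whose centraliser is a non-split double cover of the
alternating group of degree 8 passes to an isomorphic group. -/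
def TransB : Prop :=
  ∀ (A B : Type) [Group A] [Group B], Nonempty (A ≃* B) →
    (∃ t : A, orderOf t = 2 ∧
      Cfsg.IsNonsplitDoubleCover ↥(Subgroup.centralizer ({t} : Set A))
        ↥(alternatingGroup (Fin 8))) →
    ∃ t : B, orderOf t = 2 ∧
      Cfsg.IsNonsplitDoubleCover ↥(Subgroup.centralizer ({t} : Set B))
        ↥(alternatingGroup (Fin 8))

/-! ### The matrix of an element on all of the set (piece EQV) -/

/-- A group acting on a set `R` with an invariant symmetric form `B` with values in the field of
two elements, computed from the values on eight elements `b i` that behave like a symplectic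
basis: the coordinates of `g • x` are the matrix of `g` applied to the coordinates of `x`. -/
def Eqv : Prop :=
  ∀ (C R : Type) [Group C] [MulAction C R] (B : R → R → ZMod 2) (b : I8 → R),
    (∀ (g : C) (x y : R), B (g • x) (g • y) = B x y) →
    (∀ x y : R, B x y = B y x) →
    (∀ x y : R, B x y = ∑ i, ∑ j, B (b i) x * Matrix.J (Fin 4) (ZMod 2) i j * B (b j) y) →
    ∀ (g : C) (x : R) (i : I8),
      B (b i.swap) (g • x) = ∑ j, B (b i.swap) (g • b j) * B (b j.swap) x

/-! ### From the basis of roots to the standard basis (piece BRIDGE) -/

/-- A matrix mapping the four vectors of codes `124, 245, 143, 145` into the set of the fifteen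
vectors of the listed codes: its conjugate by `pmat` maps each column of `Pw` into the column
space of `Pw`. -/
def Bridge : Prop :=
  ∀ R : M8,
    (∀ k : Fin 4, ∃ m ∈ ([6, 24, 30, 98, 100, 122, 124, 137, 143, 145, 151, 235, 237, 243, 245] :
        List ℕ), R *ᵥ vecOf (([124, 245, 143, 145] : List ℕ).getD k.val 0) = vecOf m) →
    ∀ k : Fin 4, ∃ c : Fin 4 → ZMod 2, (pmat * R * pinv) *ᵥ (fun i => Pw i k) = Pw *ᵥ c

end Cfsg.Agent.Lib.Helper27.McStmt
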