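import Mathlib
import Cfsg.Prelude.Def_Spor_Conway
import Cfsg.Prelude.Def_Transfer
import Cfsg.Prelude.Def_CaseTheorems
import Cfsg.Agent.Lib.Helper92.NormalMono
import Cfsg.Agent.Lib.Helper26.OctadStab

/-!
Statements of the parts of the proof that the centraliser of an involution of the second Conway
group has largest normal 2-subgroup extraspecial of order `2 ^ 9` with quotient the symplectic
group of degree 6 over the field of two elements.

The involution changes the signs of the sixteen coordinates outside an octad through the two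
points `∞`, `0`.  Its centraliser acts on the 126 shortest lattice vectors that vanish outside
the octad and are orthogonal to the vector fixed by the group; modulo sign these are the 63
non-zero vectors of a symplectic space of dimension 6.
-/

set_option autoImplicit false

namespace Cfsg.Agent.Lib.Helper27.CzStmt

open Cfsg Cfsg.Agent.Lib.Helper92.LeechCore Cfsg.Agent.Lib.Helper92.MinVec
open Cfsg.Agent.Lib.Helper92.MaxMono Cfsg.Agent.Lib.Helper92.NormalMono
open Cfsg.Agent.Lib.Helper7.GolayBase Cfsg.Agent.Lib.Helper7.GolayCode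
open Cfsg.Agent.Lib.Helper7.M24Main Cfsg.Agent.Lib.Helper26.OctadStab
open scoped Pointwise

/-- the symplectic group of degree 6 over the field of two elements -/
abbrev Sp6 : Type := Matrix.symplecticGroup (Fin 3) (ZMod 2)

/-! ### The homomorphism to the symplectic group -/

/-- A group acting on a set `R` with an invariant form `B` with values in the field of two
elements, for which six elements of `R` behave like a symplectic basis of a space in which all
of `R` lies, maps to the symplectic group; the kernel fixes every value `B (b i) x`. -/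
def SpHom : Prop :=
  ∀ (C R : Type) [Group C] [MulAction C R] (B : R → R → ZMod 2) (b : Fin 3 ⊕ Fin 3 → R),
    (∀ (g : C) (x y : R), B (g • x) (g • y) = B x y) →
    (∀ i j, B (b i) (b j) = Matrix.J (Fin 3) (ZMod 2) i j) →
    (∀ x y, B x y = ∑ i, ∑ j, B (b i) x * Matrix.J (Fin 3) (ZMod 2) i j * B (b j) y) →
    ∃ φ : C →* Sp6,
      (∀ g i j, (φ g : Matrix (Fin 3 ⊕ Fin 3) (Fin 3 ⊕ Fin 3) (ZMod 2)) i j
          = B (b i.swap) (g • b j)) ∧
      (∀ g, φ g = 1 → ∀ x i, B (b i) (g • x) = B (b i) x) ∧
      (∀ g, (∀ j, g • b j = b j) → φ g = 1)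

/-! ### Generators of the symplectic group -/

/-- the number of an index -/
def enc : Fin 3 ⊕ Fin 3 → ℕ
  | Sum.inl a => a.val
  | Sum.inr a => 3 + a.val

/-- codes of ten matrices: entry `(i, j)` is bit `6 * enc i + enc j` -/
def gcode (m : ℕ) : ℕ :=
  [10880773604, 36020122817, 60999334445, 51810224513, 29610783605, 52897601985, 2753636353,
    21745569153, 68265637749, 36489808751].getD m 0

/-- ten matrices -/
def gmat (m : ℕ) : Matrix (Fin 3 ⊕ Fin 3) (Fin 3 ⊕ Fin 3) (ZMod 2) :=
  Matrix.of fun i j => if (gcode m).testBit (6 * enc i + enc j) = true then 1 else 0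

/-- A subgroup of the symplectic group containing the ten matrices is the whole group. -/
def GenSp : Prop :=
  ∀ H : Subgroup Sp6,
    (∀ m < 10, ∃ h ∈ H, (h : Matrix (Fin 3 ⊕ Fin 3) (Fin 3 ⊕ Fin 3) (ZMod 2)) = gmat m) → H = ⊤

/-- The symplectic group has no non-trivial normal 2-subgroup. -/
def O2Sp : Prop := ∀ N : Subgroup Sp6, N.Normal → IsPGroup 2 N → N = ⊥

/-! ### The group-theoretic assembly -/

/-- A finite group `G` mapping onto the symplectic group, whose kernel consists of elements
with square in an extraspecial group `K` of order `2 ^ 9` contained in the kernel, and whose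
order is not divisible by `2 ^ 19`, has `O_2(G)` extraspecial of order `2 ^ 9` with quotient the
symplectic group. -/
def Asm : Prop :=
  ∀ (G A : Type) [Group G] [Finite G] [Group A] (φ : G →* Sp6) (ι : G →* A) (K : Subgroup A),
    Function.Surjective φ → Function.Injective ι → IsExtraspecial 2 ↥K → Nat.card ↥K = 2 ^ 9 →
    (∀ g, φ g = 1 → ι (g * g) ∈ K) → (∀ k ∈ K, ∃ g, ι g = k ∧ φ g = 1) →
    ¬ 2 ^ 19 ∣ Nat.card G → O2Sp →
    IsExtraspecial 2 ↥(pCore 2 G) ∧ Nat.card ↥(pCore 2 G) = 2 ^ 9 ∧
      Nonempty (G ⧸ pCore 2 G ≃* Sp6)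

/-! ### The extraspecial group -/

/-- the octad `{∞, 0, 1, 2, 3, 5, 14, 17}` as a mask (`∞` is bit 23) -/
def OM : ℕ := 0x82402F

/-- its complement as a mask -/
def DM : ℕ := 0x7DBFD0

/-- the octad -/
def Oset : Finset GolayPt := mk OM

/-- its complement -/
def Dset : Finset GolayPt := mk DM

theorem hOcw : IsCW Oset := mk_mem_supports (inCode_sound (by decide +kernel))

theorem hD : IsCW Dset := mk_mem_supports (inCode_sound (by decide +kernel))

theorem hO : Oset ∈ octads := by
  refine ⟨hOcw, ?_⟩
  unfold Oset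
  rw [card_mk]
  decide +kernel

theorem mem_Oset (p : GolayPt) : p ∈ Oset ↔ OM.testBit (idx p) = true := mem_mk

theorem mem_Dset (p : GolayPt) : p ∈ Dset ↔ DM.testBit (idx p) = true := mem_mk

/-- The permutations of the group of the code fixing the octad pointwise and the code words
inside the complement: there are 32 such words, each permutation maps each word to itself or
to its complement in `Dset`, and the pairing is non-degenerate on both sides. -/
def K1Str : Prop :=
  Nat.card {c : Finset GolayPt // IsCW c ∧ c ⊆ Dset} = 32 ∧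
  (∀ σ ∈ fix Oset, ∀ c, IsCW c → c ⊆ Dset → σ • c = c ∨ σ • c = Dset \ c) ∧
  (∀ σ ∈ fix Oset, σ ≠ 1 → ∃ c, IsCW c ∧ c ⊆ Dset ∧ σ • c ≠ c) ∧
  (∀ c, IsCW c → c ⊆ Dset → c ≠ ∅ → c ≠ Dset → ∃ σ ∈ fix Oset, σ • c ≠ c)

/-- The monomial automorphisms `mono σ c` with `σ` fixing the octad pointwise and `c` inside
the complement form an extraspecial group of order `2 ^ 9`. -/
def K1XS : Prop :=
  K1Str →
  ∃ K : Subgroup ↥Co0,
    (∀ g : ↥Co0, g ∈ K ↔ ∃ σ, ∃ hσ : σ ∈ M24, ∃ c, ∃ hc : IsCW c,
        (∀ p ∈ Oset, σ p = p) ∧ c ⊆ Dset ∧ g = mono σ hσ c hc) ∧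
    Nat.card ↥K = 2 ^ 9 ∧ IsExtraspecial 2 ↥K

end Cfsg.Agent.Lib.Helper27.CzStmt
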