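import Mathlib
import Cfsg.Prelude.Def_Sporadic_a
import Cfsg.Agent.Lib.Helper27.SlpLib
import Cfsg.Agent.Lib.Helper27.Chunk
import Cfsg.Agent.Lib.Helper27.CertBase
import Cfsg.Agent.Lib.Helper27.Co1Chk
import Cfsg.Agent.Lib.Helper27.CzStmt
import Cfsg.Agent.Lib.Helper27.CzDat0

/-!
Kernel tests for the centraliser of an involution of the second Conway group, with their
meaning: the test that a code is the code of a root, the value of the form modulo 2 on two
roots, the tests on pairs of roots, on the images of the basis roots under an automorphism, on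
the sign change and on sums of two vectors.
-/

set_option autoImplicit false
set_option maxRecDepth 100000

namespace Cfsg.Agent.Lib.Helper27.CzChk

open Cfsg Cfsg.Agent.Lib.Helper27.Bits Cfsg.Agent.Lib.Helper27.Pk
open Cfsg.Agent.Lib.Helper27.MinTab Cfsg.Agent.Lib.Helper27.MinEnum Cfsg.Agent.Lib.Helper27.MinFast
open Cfsg.Agent.Lib.Helper27.MinAll Cfsg.Agent.Lib.Helper27.LDot Cfsg.Agent.Lib.Helper27.LMat
open Cfsg.Agent.Lib.Helper27.Spread Cfsg.Agent.Lib.Helper27.Co0Act Cfsg.Agent.Lib.Helper27.LApp
open Cfsg.Agent.Lib.Helper27.OrbCert Cfsg.Agent.Lib.Helper27.Chunk Cfsg.Agent.Lib.Helper27.CoGlue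
open Cfsg.Agent.Lib.Helper27.Invol Cfsg.Agent.Lib.Helper27.SlpLib Cfsg.Agent.Lib.Helper27.CertBase
open Cfsg.Agent.Lib.Helper27.CzDat0

/-- the two conventions for the index of a point agree -/
theorem idx_eq (p : GolayPt) : Cfsg.Agent.Lib.Helper7.GolayBase.idx p = idx p := by
  cases p <;> rfl

theorem vecB_apply (X : ℕ) (p : GolayPt) : vecB X p = (lanesB X (idx p) : ℤ) - 8 := rfl

theorem idx_none : idx (none : GolayPt) = 23 := rfl

theorem idx_zero : idx (some 0 : GolayPt) = 0 := rfl

/-! ### Roots -/

/-- the root conditions on an integer vector: sum of squares 32, zero outside the octad,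
orthogonal to the fixed vector -/
def IsRt (v : GolayPt → ℤ) : Prop :=
  sqNorm v = 32 ∧ (∀ p ∈ CzStmt.Dset, v p = 0) ∧ v none + v (some 0) = 0

/-- the test of the last two root conditions on a packed vector -/
noncomputable def rootB (X : ℕ) : Bool :=
  allB 24 (fun i => !(Nat.testBit CzStmt.DM i) || Nat.beq (lanesB X i) 8) &&
    Nat.beq (Nat.add (lanesB X 23) (lanesB X 0)) 16

theorem rootB_iff (X : ℕ) :
    rootB X = true ↔ (∀ p ∈ CzStmt.Dset, vecB X p = 0) ∧ vecB X none + vecB X (some 0) = 0 := by
  unfold rootB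
  rw [Bool.and_eq_true, allB_iff]
  constructor
  · rintro ⟨h1, h2⟩
    refine ⟨fun p hp => ?_, ?_⟩
    · have h := h1 (idx p) (idx_lt p)
      rw [CzStmt.mem_Dset, idx_eq] at hp
      rw [hp] at h
      have h' : lanesB X (idx p) = 8 := Nat.eq_of_beq_eq_true (by simpa using h)
      rw [vecB_apply, h']
      norm_num
    · have e : lanesB X 23 + lanesB X 0 = 16 := Nat.eq_of_beq_eq_true h2
      rw [vecB_apply, vecB_apply, idx_none, idx_zero]
      have e' := congrArg (Nat.cast : ℕ → ℤ) e
      push_cast at e'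
      linarith
  · rintro ⟨h1, h2⟩
    refine ⟨fun i hi => ?_, ?_⟩
    · by_cases hb : Nat.testBit CzStmt.DM i = true
      · have hp : pt i ∈ CzStmt.Dset := by
          rw [CzStmt.mem_Dset, idx_eq, idx_pt i hi]
          exact hb
        have h := h1 (pt i) hp
        rw [vecB_apply, idx_pt i hi] at h
        have h' : lanesB X i = 8 := by omega
        rw [hb, h']
        rfl
      · rw [Bool.not_eq_true] at hb
        rw [hb]
        rfl
    · rw [vecB_apply, vecB_apply, idx_none, idx_zero] at h2
      have e : lanesB X 23 + lanesB X 0 = 16 := by omega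
      show Nat.beq (lanesB X 23 + lanesB X 0) 16 = true
      rw [e]
      rfl

/-- membership in a list of numbers -/
noncomputable def memL (L : List ℕ) (k : ℕ) : Bool := L.any (fun a => Nat.beq a k)

theorem memL_iff (L : List ℕ) (k : ℕ) : memL L k = true ↔ k ∈ L := by
  unfold memL
  rw [List.any_eq_true]
  constructor
  · rintro ⟨a, ha, h⟩
    rw [← Nat.eq_of_beq_eq_true h]
    exact ha
  · intro h
    exact ⟨k, h, Nat.beq_refl k⟩

/-- the test of code `k` in the search for the roots -/
noncomputable def scanRow (k : ℕ) : Bool := !(validKF k) || !(rootB (mvB k)) || memL RL k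

/-- the test of a listed code -/
noncomputable def rlRow (k : ℕ) : Bool :=
  Nat.blt k KTOT && validKF k && validB (mvB k) && rootB (mvB k)

/-- Every root has a listed code. -/
theorem root_code (hscan : allB KTOT scanRow = true) (v : GolayPt → ℤ) (hv : v ∈ leechLattice)
    (hr : IsRt v) : ∃ k ∈ RL, v = vecB (mvB k) := by
  obtain ⟨k, hk, hvk, rfl⟩ := mv_complete hv hr.1
  have e : vecB (mvB k) = vecL (laneRef k) := vecB_mv rfl hk hvk
  have h1 : rootB (mvB k) = true := by
    rw [rootB_iff, e]
    exact ⟨hr.2.1, hr.2.2⟩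
  have h := (allB_iff _ _).mp hscan k hk
  unfold scanRow at h
  rw [validKF_eq, hvk, h1] at h
  exact ⟨k, (memL_iff RL k).mp (by simpa using h), e.symm⟩

/-- A listed code is the code of a root. -/
theorem rl_spec (hrl : RL.all rlRow = true) {k : ℕ} (hk : k ∈ RL) :
    k < KTOT ∧ validK k = true ∧ validB (mvB k) = true ∧ vecB (mvB k) ∈ leechLattice ∧
      IsRt (vecB (mvB k)) := by
  have h := List.all_eq_true.mp hrl k hk
  unfold rlRow at h
  rw [Bool.and_eq_true, Bool.and_eq_true, Bool.and_eq_true] at h
  obtain ⟨⟨⟨h1, h2⟩, h3⟩, h4⟩ := h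
  have hk' : k < KTOT := Nat.blt_eq.mp h1
  have hv : validK k = true := by
    rw [← validKF_eq]
    exact h2
  have e : vecB (mvB k) = vecL (laneRef k) := vecB_mv rfl hk' hv
  have hs := mv_sound hk' hv
  refine ⟨hk', hv, h3, ?_, ?_, (rootB_iff _).mp h4⟩
  · rw [e]
    exact hs.1
  · rw [e]
    exact hs.2

/-! ### The form modulo 2 -/

/-- the form modulo 2 on integer vectors with inner product divisible by 16 -/
noncomputable def Bf (x y : GolayPt → ℤ) : ZMod 2 := ((dotInt x y / 16 : ℤ) : ZMod 2)

/-- the inner product of the vectors of two codes is `16` or `-16` -/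
noncomputable def b1 (a b : ℕ) : Bool :=
  condOK (mvB a) 16 0 (mvB b) || condOK (mvB a) 0 16 (mvB b)

/-- the inner product of the vectors of two codes is `0`, `32` or `-32` -/
noncomputable def b0 (a b : ℕ) : Bool :=
  condOK (mvB a) 0 0 (mvB b) || condOK (mvB a) 32 0 (mvB b) || condOK (mvB a) 0 32 (mvB b)

/-- equality of truth values -/
def beqB (a b : Bool) : Bool := cond a b (!b)

theorem beqB_iff (a b : Bool) : beqB a b = true ↔ a = b := by
  cases a <;> cases b <;> decide

/-- a truth value as an element of the field of two elements -/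
def zb (b : Bool) : ZMod 2 := if b = true then 1 else 0

theorem zb_xor (a b : Bool) : zb (xor a b) = zb a + zb b := by
  cases a <;> cases b <;> decide

theorem zb_and (a b : Bool) : zb (a && b) = zb a * zb b := by
  cases a <;> cases b <;> decide

theorem zb_inj {a b : Bool} (h : zb a = zb b) : a = b := by
  revert h
  cases a <;> cases b <;> decide

theorem Bf_spec {a b : ℕ} (ha : validB (mvB a) = true) (hb : validB (mvB b) = true)
    (h : (b1 a b || b0 a b) = true) : Bf (vecB (mvB a)) (vecB (mvB b)) = zb (b1 a b) := by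
  unfold Bf zb
  by_cases h1 : b1 a b = true
  · rw [if_pos h1]
    unfold b1 at h1
    rw [Bool.or_eq_true] at h1
    rcases h1 with h1 | h1
    · rw [dot_vecB 16 0 ha hb h1]
      decide
    · rw [dot_vecB 0 16 ha hb h1]
      decide
  · rw [if_neg h1]
    rw [Bool.not_eq_true] at h1
    rw [h1, Bool.false_or] at h
    unfold b0 at h
    rw [Bool.or_eq_true, Bool.or_eq_true] at h
    rcases h with (h | h) | h
    · rw [dot_vecB 0 0 ha hb h]
      decide
    · rw [dot_vecB 32 0 ha hb h]
      decide
    · rw [dot_vecB 0 32 ha hb h]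
      decide

/-! ### Pairs of roots -/

/-- the value of the form on two codes from the values on the basis roots -/
noncomputable def hcompV (a b : ℕ) : Bool :=
  xor (xor (xor (b1 (bk 0) a && b1 (bk 3) b) (b1 (bk 3) a && b1 (bk 0) b))
    (xor (b1 (bk 1) a && b1 (bk 4) b) (b1 (bk 4) a && b1 (bk 1) b)))
    (xor (b1 (bk 2) a && b1 (bk 5) b) (b1 (bk 5) a && b1 (bk 2) b))

/-- the test of a pair of root codes: the inner product is a multiple of 16 between `-32` and
`32`, the form is given by the values on the basis roots, and two roots with the same values on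
the basis roots are equal or opposite -/
noncomputable def pairOK (a b : ℕ) : Bool :=
  (b1 a b || b0 a b) && beqB (b1 a b) (hcompV a b) &&
    (!(allB 6 (fun i => beqB (b1 (bk i) a) (b1 (bk i) b))) || Nat.beq a b || Co1Chk.negK a b)

/-- the test of all pairs of root codes -/
noncomputable def pairAll : Bool := RL.all (fun a => RL.all (fun b => pairOK a b))

theorem pair_spec (hp : pairAll = true) {a b : ℕ} (ha : a ∈ RL) (hb : b ∈ RL) :
    (b1 a b || b0 a b) = true ∧ b1 a b = hcompV a b ∧
      ((∀ i < 6, b1 (bk i) a = b1 (bk i) b) → a = b ∨ vecB (mvB a) = -vecB (mvB b)) := by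
  have h := List.all_eq_true.mp (List.all_eq_true.mp hp a ha) b hb
  unfold pairOK at h
  rw [Bool.and_eq_true, Bool.and_eq_true] at h
  obtain ⟨⟨h1, h2⟩, h3⟩ := h
  refine ⟨h1, (beqB_iff _ _).mp h2, fun hi => ?_⟩
  rw [Bool.or_eq_true, Bool.or_eq_true] at h3
  rcases h3 with (h3 | h3) | h3
  · exfalso
    have : allB 6 (fun i => beqB (b1 (bk i) a) (b1 (bk i) b)) = true := by
      rw [allB_iff]
      intro i hi'
      exact (beqB_iff _ _).mpr (hi i hi')
    rw [this] at h3
    exact absurd h3 (by decide)
  · exact Or.inl (Nat.eq_of_beq_eq_true h3)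
  · exact Or.inr (Cfsg.Agent.Lib.Helper27.SimpMcL.vecB_neg h3)

/-! ### Images of the basis roots -/

/-- the test of an automorphism given by a packed matrix: the images of the six basis roots are
the roots of the codes `G j`, and the matrix of the action has code `gc` -/
noncomputable def genOK (N : ℕ × ℕ) (G : ℕ → ℕ) (gc : ℕ) : Bool :=
  allB 6 (fun j => memL RL (G j) && appOK N.1 N.2 (spreadS (mvB (bk j))) (mvB (G j)) &&
    allB 6 (fun i => beqB (b1 (bk ((i + 3) % 6)) (G j)) (Nat.testBit gc (6 * i + j))))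

theorem gen_spec {N : ℕ × ℕ} {G : ℕ → ℕ} {gc : ℕ} (h : genOK N G gc = true) {i j : ℕ} (hi : i < 6)
    (hj : j < 6) : G j ∈ RL ∧ appOK N.1 N.2 (spreadS (mvB (bk j))) (mvB (G j)) = true ∧
      b1 (bk ((i + 3) % 6)) (G j) = Nat.testBit gc (6 * i + j) := by
  have h1 := (allB_iff _ _).mp h j hj
  rw [Bool.and_eq_true, Bool.and_eq_true] at h1
  obtain ⟨⟨h2, h3⟩, h4⟩ := h1
  have h5 := (allB_iff _ _).mp h4 i hi
  exact ⟨(memL_iff _ _).mp h2, h3, (beqB_iff _ _).mp h5⟩

/-! ### The sign change -/

/-- the second packed vector is the first with the signs outside the octad changed -/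
noncomputable def flipOK (a b : ℕ) : Bool :=
  allB 24 (fun j => cond (Nat.testBit CzStmt.DM j) (Nat.beq (Nat.add (lanesB a j) (lanesB b j)) 16)
    (Nat.beq (lanesB a j) (lanesB b j)))

theorem flip_spec {a b : ℕ} (h : flipOK a b = true) :
    signedPerm 1 CzStmt.Dset (vecB a) = vecB b := by
  funext q
  have hq := (allB_iff _ _).mp h (idx q) (idx_lt q)
  show (if q ∈ CzStmt.Dset then -vecB a q else vecB a q) = vecB b q
  by_cases hm : q ∈ CzStmt.Dset
  · rw [if_pos hm]
    rw [CzStmt.mem_Dset, idx_eq] at hm
    rw [hm] at hq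
    have e : lanesB a (idx q) + lanesB b (idx q) = 16 := Nat.eq_of_beq_eq_true hq
    rw [vecB_apply, vecB_apply]
    have e' := congrArg (Nat.cast : ℕ → ℤ) e
    push_cast at e'
    linarith
  · rw [if_neg hm]
    rw [CzStmt.mem_Dset, idx_eq, Bool.not_eq_true] at hm
    rw [hm] at hq
    have e : lanesB a (idx q) = lanesB b (idx q) := Nat.eq_of_beq_eq_true hq
    rw [vecB_apply, vecB_apply, e]

/-- the test of the packed matrix of the sign change on the 24 vectors of the certificate -/
noncomputable def tOK (N : ℕ × ℕ) : Bool :=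
  allB 24 (fun i => validB (CertSpan2.rZ i) && validB (appY N.1 N.2 (spreadS (CertSpan2.rZ i)))
    && appOK N.1 N.2 (spreadS (CertSpan2.rZ i)) (appY N.1 N.2 (spreadS (CertSpan2.rZ i)))
    && flipOK (CertSpan2.rZ i) (appY N.1 N.2 (spreadS (CertSpan2.rZ i))))

/-! ### Sums of two vectors -/

/-- the sum of two packed vectors is eight times coordinate vector `i` -/
noncomputable def eOK (i X Y : ℕ) : Bool :=
  allB 24 (fun j => Nat.beq (Nat.add (lanesB X j) (lanesB Y j)) (cond (Nat.beq j i) 24 16))

theorem e_spec {i X Y : ℕ} (hi : i < 24) (h : eOK i X Y = true) (q : GolayPt) :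
    vecB X q + vecB Y q = if q = pt i then 8 else 0 := by
  have hq := (allB_iff _ _).mp h (idx q) (idx_lt q)
  have e : lanesB X (idx q) + lanesB Y (idx q) = cond (Nat.beq (idx q) i) 24 16 :=
    Nat.eq_of_beq_eq_true hq
  rw [vecB_apply, vecB_apply]
  by_cases hqi : q = pt i
  · rw [if_pos hqi]
    have : Nat.beq (idx q) i = true := by
      rw [hqi, idx_pt i hi]
      exact Nat.beq_refl i
    rw [this] at e
    simp only [cond_true] at e
    omega
  · rw [if_neg hqi]
    have : Nat.beq (idx q) i = false := by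
      rw [← Bool.not_eq_true]
      intro hb
      apply hqi
      rw [← Nat.eq_of_beq_eq_true hb, pt_idx]
    rw [this] at e
    simp only [cond_false] at e
    omega

/-- the packed fixed vector is the fixed vector -/
noncomputable def uOK : Bool :=
  allB 24 (fun j => Nat.beq (lanesB UP j) (cond (Nat.beq j 23 || Nat.beq j 0) 12 8))

end Cfsg.Agent.Lib.Helper27.CzChk
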