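import Mathlib
import Cfsg.Prelude.Def_Sporadic_a
import Cfsg.Agent.Lib.Helper27.SlpLib
import Cfsg.Agent.Lib.Helper27.Chunk
import Cfsg.Agent.Lib.Helper27.CertBase
import Cfsg.Agent.Lib.Helper27.CzChk

/-!
The kernel tests for the centraliser of an involution of the second Conway group, run on the
data: the packed matrices are automorphisms, the ten automorphisms commute with the sign change
and fix the fixed vector, the list of root codes is complete, the pairs of roots pass their
test, and the matrices of the ten automorphisms on the basis roots are the ten given ones.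
-/

set_option autoImplicit false
set_option maxRecDepth 1000000

namespace Cfsg.Agent.Lib.Helper27.CzData

open Cfsg Cfsg.Agent.Lib.Helper27.Bits Cfsg.Agent.Lib.Helper27.Pk
open Cfsg.Agent.Lib.Helper27.MinTab Cfsg.Agent.Lib.Helper27.MinEnum Cfsg.Agent.Lib.Helper27.MinFast
open Cfsg.Agent.Lib.Helper27.MinAll Cfsg.Agent.Lib.Helper27.LDot Cfsg.Agent.Lib.Helper27.LMat
open Cfsg.Agent.Lib.Helper27.Spread Cfsg.Agent.Lib.Helper27.Co0Act Cfsg.Agent.Lib.Helper27.LApp
open Cfsg.Agent.Lib.Helper27.OrbCert Cfsg.Agent.Lib.Helper27.Chunk Cfsg.Agent.Lib.Helper27.CoGlue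
open Cfsg.Agent.Lib.Helper27.Invol Cfsg.Agent.Lib.Helper27.SlpLib Cfsg.Agent.Lib.Helper27.CertBase
open Cfsg.Agent.Lib.Helper27.CzDat0 Cfsg.Agent.Lib.Helper27.CzChk

theorem cT : matChk nT.1 nT.2 = true := by decide +kernel

theorem tok : tOK nT = true := by decide +kernel

theorem validUP : validB UP = true := by decide +kernel

theorem uok : uOK = true := by decide +kernel

theorem rl_ok : RL.all rlRow = true := by decide +kernel

theorem bk_ok : allB 6 (fun i => memL RL (bk i)) = true := by decide +kernel

theorem gram_ok : allB 6 (fun i => allB 6 (fun j =>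
    beqB (b1 (bk i) (bk j)) (Nat.beq (Nat.add i 3) j || Nat.beq (Nat.add j 3) i))) = true := by
  decide +kernel

theorem pair_ok : pairAll = true := by decide +kernel

theorem scan_ok : allB KTOT scanRow = true := by decide +kernel

theorem e_ok : List.all [1, 2, 3, 5, 14, 17] (fun i => memL RL (ea i) && memL RL (eb i) &&
    eOK i (mvB (ea i)) (mvB (eb i))) = true := by decide +kernel

theorem e_inf : (memL RL kr && eOK 23 UP (mvB kr)) = true := by decide +kernel

theorem e_zero : (memL RL krn && eOK 0 UP (mvB krn)) = true := by decide +kernel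

theorem cG0 : matChk nG0.1 nG0.2 = true := by decide +kernel

theorem cP0 : matChk nP0.1 nP0.2 = true := by decide +kernel

theorem pa0 : prodOK nG0 nT nP0 = true := by decide +kernel

theorem pb0 : prodOK nT nG0 nP0 = true := by decide +kernel

theorem fu0 : appOK nG0.1 nG0.2 (spreadS UP) UP = true := by decide +kernel

theorem go0 : genOK nG0 img0 10880773604 = true := by decide +kernel

theorem cG1 : matChk nG1.1 nG1.2 = true := by decide +kernel

theorem cP1 : matChk nP1.1 nP1.2 = true := by decide +kernel

theorem pa1 : prodOK nG1 nT nP1 = true := by decide +kernel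

theorem pb1 : prodOK nT nG1 nP1 = true := by decide +kernel

theorem fu1 : appOK nG1.1 nG1.2 (spreadS UP) UP = true := by decide +kernel

theorem go1 : genOK nG1 img1 36020122817 = true := by decide +kernel

theorem cG2 : matChk nG2.1 nG2.2 = true := by decide +kernel

theorem cP2 : matChk nP2.1 nP2.2 = true := by decide +kernel

theorem pa2 : prodOK nG2 nT nP2 = true := by decide +kernel

theorem pb2 : prodOK nT nG2 nP2 = true := by decide +kernel

theorem fu2 : appOK nG2.1 nG2.2 (spreadS UP) UP = true := by decide +kernel

theorem go2 : genOK nG2 img2 60999334445 = true := by decide +kernel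

theorem cG3 : matChk nG3.1 nG3.2 = true := by decide +kernel

theorem cP3 : matChk nP3.1 nP3.2 = true := by decide +kernel

theorem pa3 : prodOK nG3 nT nP3 = true := by decide +kernel

theorem pb3 : prodOK nT nG3 nP3 = true := by decide +kernel

theorem fu3 : appOK nG3.1 nG3.2 (spreadS UP) UP = true := by decide +kernel

theorem go3 : genOK nG3 img3 51810224513 = true := by decide +kernel

theorem cG4 : matChk nG4.1 nG4.2 = true := by decide +kernel

theorem cP4 : matChk nP4.1 nP4.2 = true := by decide +kernel

theorem pa4 : prodOK nG4 nT nP4 = true := by decide +kernel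

theorem pb4 : prodOK nT nG4 nP4 = true := by decide +kernel

theorem fu4 : appOK nG4.1 nG4.2 (spreadS UP) UP = true := by decide +kernel

theorem go4 : genOK nG4 img4 29610783605 = true := by decide +kernel

theorem cG5 : matChk nG5.1 nG5.2 = true := by decide +kernel

theorem cP5 : matChk nP5.1 nP5.2 = true := by decide +kernel

theorem pa5 : prodOK nG5 nT nP5 = true := by decide +kernel

theorem pb5 : prodOK nT nG5 nP5 = true := by decide +kernel

theorem fu5 : appOK nG5.1 nG5.2 (spreadS UP) UP = true := by decide +kernel

theorem go5 : genOK nG5 img5 52897601985 = true := by decide +kernel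

theorem cG6 : matChk nG6.1 nG6.2 = true := by decide +kernel

theorem cP6 : matChk nP6.1 nP6.2 = true := by decide +kernel

theorem pa6 : prodOK nG6 nT nP6 = true := by decide +kernel

theorem pb6 : prodOK nT nG6 nP6 = true := by decide +kernel

theorem fu6 : appOK nG6.1 nG6.2 (spreadS UP) UP = true := by decide +kernel

theorem go6 : genOK nG6 img6 2753636353 = true := by decide +kernel

theorem cG7 : matChk nG7.1 nG7.2 = true := by decide +kernel

theorem cP7 : matChk nP7.1 nP7.2 = true := by decide +kernel

theorem pa7 : prodOK nG7 nT nP7 = true := by decide +kernel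

theorem pb7 : prodOK nT nG7 nP7 = true := by decide +kernel

theorem fu7 : appOK nG7.1 nG7.2 (spreadS UP) UP = true := by decide +kernel

theorem go7 : genOK nG7 img7 21745569153 = true := by decide +kernel

theorem cG8 : matChk nG8.1 nG8.2 = true := by decide +kernel

theorem cP8 : matChk nP8.1 nP8.2 = true := by decide +kernel

theorem pa8 : prodOK nG8 nT nP8 = true := by decide +kernel

theorem pb8 : prodOK nT nG8 nP8 = true := by decide +kernel

theorem fu8 : appOK nG8.1 nG8.2 (spreadS UP) UP = true := by decide +kernel

theorem go8 : genOK nG8 img8 68265637749 = true := by decide +kernel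

theorem cG9 : matChk nG9.1 nG9.2 = true := by decide +kernel

theorem cP9 : matChk nP9.1 nP9.2 = true := by decide +kernel

theorem pa9 : prodOK nG9 nT nP9 = true := by decide +kernel

theorem pb9 : prodOK nT nG9 nP9 = true := by decide +kernel

theorem fu9 : appOK nG9.1 nG9.2 (spreadS UP) UP = true := by decide +kernel

theorem go9 : genOK nG9 img9 36489808751 = true := by decide +kernel

end Cfsg.Agent.Lib.Helper27.CzData
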