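import Mathlib
import Cfsg.Prelude.Def_Spor_Conway
import Cfsg.Prelude.Def_Transfer
import Cfsg.Prelude.Def_CaseTheorems
import Cfsg.Agent.Lib.Helper27.CzData
import Cfsg.Agent.Lib.Helper27.Co2Out
import Cfsg.Agent.Lib.Helper27.SimpM22
import Cfsg.Agent.S0402

/-!
The centraliser of an involution of the second Conway group: from the six parts stated in
`CzStmt`, its largest normal 2-subgroup is extraspecial of order `2 ^ 9` and the quotient is the
symplectic group of degree 6 over the field of two elements.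

The involution changes the signs of the coordinates outside an octad.  Its centraliser permutes
the 126 roots; the form modulo 2 on them gives the homomorphism to the symplectic group, ten
explicit automorphisms give its surjectivity, and an element of the kernel maps each root to
itself or its opposite, so its square is a monomial automorphism fixing the octad pointwise.
-/

set_option autoImplicit false
set_option maxRecDepth 100000

namespace Cfsg.Agent.Lib.Helper27.CzMain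

open Cfsg Cfsg.Agent.Lib.Helper27.Bits Cfsg.Agent.Lib.Helper27.Pk
open Cfsg.Agent.Lib.Helper27.MinTab Cfsg.Agent.Lib.Helper27.MinEnum Cfsg.Agent.Lib.Helper27.MinFast
open Cfsg.Agent.Lib.Helper27.MinAll Cfsg.Agent.Lib.Helper27.LDot Cfsg.Agent.Lib.Helper27.LMat
open Cfsg.Agent.Lib.Helper27.Spread Cfsg.Agent.Lib.Helper27.Co0Act Cfsg.Agent.Lib.Helper27.LApp
open Cfsg.Agent.Lib.Helper27.OrbCert Cfsg.Agent.Lib.Helper27.Chunk Cfsg.Agent.Lib.Helper27.CoGlue
open Cfsg.Agent.Lib.Helper27.Invol Cfsg.Agent.Lib.Helper27.SlpLib Cfsg.Agent.Lib.Helper27.CertBase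
open Cfsg.Agent.Lib.Helper27.CzDat0 Cfsg.Agent.Lib.Helper27.CzChk Cfsg.Agent.Lib.Helper27.CzData
open Cfsg.Agent.Lib.Helper92.MaxMono Cfsg.Agent.Lib.Helper92.NormalMono
open Cfsg.Agent.Lib.Helper92.MinVec
open MulAction
open scoped Pointwise

/-! ### Small facts about the octad and the fixed vector -/

theorem J_sum (u w : Fin 3 ⊕ Fin 3 → ZMod 2) :
    ∑ i, ∑ j, u i * Matrix.J (Fin 3) (ZMod 2) i j * w j =
      ((u (Sum.inl 0) * w (Sum.inr 0) + u (Sum.inr 0) * w (Sum.inl 0)) +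
        (u (Sum.inl 1) * w (Sum.inr 1) + u (Sum.inr 1) * w (Sum.inl 1))) +
        (u (Sum.inl 2) * w (Sum.inr 2) + u (Sum.inr 2) * w (Sum.inl 2)) := by
  have hneg : (-1 : ZMod 2) = 1 := by decide
  simp only [Fintype.sum_sum_type, Fin.sum_univ_three, Matrix.J, Matrix.fromBlocks_apply₁₁,
    Matrix.fromBlocks_apply₁₂, Matrix.fromBlocks_apply₂₁, Matrix.fromBlocks_apply₂₂,
    Matrix.zero_apply, Matrix.neg_apply, Matrix.one_apply]
  simp [hneg]
  ring

theorem J_gram (i j : Fin 3 ⊕ Fin 3) :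
    zb (Nat.beq (Nat.add (CzStmt.enc i) 3) (CzStmt.enc j) ||
      Nat.beq (Nat.add (CzStmt.enc j) 3) (CzStmt.enc i)) = Matrix.J (Fin 3) (ZMod 2) i j := by
  have hneg : (-1 : ZMod 2) = 1 := by decide
  rcases i with a | a <;> rcases j with b | b <;> fin_cases a <;> fin_cases b <;>
    simp [Matrix.J, CzStmt.enc, zb, hneg]

theorem enc_surj : ∀ j < 6, ∃ i : Fin 3 ⊕ Fin 3, CzStmt.enc i = j := by decide

theorem enc_swap (i : Fin 3 ⊕ Fin 3) : CzStmt.enc i.swap = (CzStmt.enc i + 3) % 6 := by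
  revert i
  decide

theorem enc_lt (i : Fin 3 ⊕ Fin 3) : CzStmt.enc i < 6 := by
  revert i
  decide

theorem U_eq : (Cfsg.Spor.leechU : GolayPt → ℤ) = vecB UP := by
  have h : ∀ q : GolayPt, Cfsg.Spor.vecU q = vecB UP q := by decide +kernel
  funext q
  exact h q

theorem D_U : ∀ p ∈ CzStmt.Dset, Cfsg.Spor.vecU p = 0 := by decide +kernel

theorem O_or_D : ∀ q : GolayPt, q ∉ CzStmt.Oset → q ∈ CzStmt.Dset := by decide +kernel

theorem D_not_O : ∀ q : GolayPt, q ∈ CzStmt.Dset → q ∉ CzStmt.Oset := by decide +kernel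

theorem O_list : ∀ i < 24, Nat.testBit CzStmt.OM i = true →
    (i = 23 ∨ i = 0 ∨ i = 1 ∨ i = 2 ∨ i = 3 ∨ i = 5 ∨ i = 14 ∨ i = 17) := by decide

theorem dot_U (v : GolayPt → ℤ) :
    dotInt (Cfsg.Spor.leechU : GolayPt → ℤ) v = 4 * (v none + v (some 0)) := by
  show dotInt Cfsg.Spor.vecU v = _
  unfold dotInt
  rw [Fintype.sum_option]
  simp [Cfsg.Spor.vecU]
  ring

/-! ### The involution -/

/-- the sign change outside the octad -/
noncomputable def t0 : Co0 := eps CzStmt.Dset CzStmt.hD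

theorem t0_val (v : leechLattice) :
    ((t0 • v : leechLattice) : GolayPt → ℤ) = signedPerm 1 CzStmt.Dset v := rfl

theorem t0_eq : t0 = elt nT cT := by
  apply eq_of_agree
  intro i hi hm
  have htok := tok
  unfold tOK at htok
  have h := (allB_iff _ _).mp htok i hi
  rw [Bool.and_eq_true, Bool.and_eq_true, Bool.and_eq_true] at h
  obtain ⟨⟨⟨h1, h2⟩, h3⟩, h4⟩ := h
  apply Subtype.ext
  rw [t0_val, elt_app cT h1 h2 h3 ⟨vecB (CertSpan2.rZ i), hm⟩ rfl]
  exact flip_spec h4

/-- The sign change fixes the vectors that vanish outside the octad. -/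
theorem t0_fix (v : leechLattice) (hv : ∀ p ∈ CzStmt.Dset, (v : GolayPt → ℤ) p = 0) :
    t0 • v = v := by
  apply Subtype.ext
  rw [t0_val]
  funext q
  show (if q ∈ CzStmt.Dset then -(v : GolayPt → ℤ) q else (v : GolayPt → ℤ) q)
    = (v : GolayPt → ℤ) q
  by_cases hq : q ∈ CzStmt.Dset
  · rw [if_pos hq, hv q hq]
    rfl
  · rw [if_neg hq]

/-- A vector fixed by the sign change vanishes outside the octad. -/
theorem supp_of_fix (v : leechLattice) (h : t0 • v = v) :
    ∀ p ∈ CzStmt.Dset, (v : GolayPt → ℤ) p = 0 := by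
  intro p hp
  have e : signedPerm 1 CzStmt.Dset (v : GolayPt → ℤ) p = (v : GolayPt → ℤ) p := by
    rw [← t0_val, h]
  have e' : (if p ∈ CzStmt.Dset then -(v : GolayPt → ℤ) p else (v : GolayPt → ℤ) p)
      = (v : GolayPt → ℤ) p := e
  rw [if_pos hp] at e'
  omega

theorem t0_U : t0 • Cfsg.Spor.leechU = Cfsg.Spor.leechU := t0_fix _ D_U

theorem eps_congr {c d : Finset GolayPt} (hc : IsCW c) (hd : IsCW d) (h : c = d) :
    eps c hc = eps d hd := by
  subst h
  rfl

theorem t0_sq : t0 * t0 = 1 := by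
  unfold t0
  rw [eps_mul]
  exact (eps_congr _ _ (symmDiff_self _)).trans eps_empty

theorem t0_ne : t0 ≠ 1 := by
  intro h
  have h1 : CzStmt.Dset = ∅ := eps_inj (h.trans eps_empty.symm)
  have h2 : (some 4 : GolayPt) ∈ CzStmt.Dset := by decide +kernel
  rw [h1] at h2
  exact absurd h2 (Finset.notMem_empty _)

/-- the involution as an element of the second Conway group -/
noncomputable def tC : ↥Cfsg.Spor.Co2 := ⟨t0.1, ⟨t0.2, mem_stabilizer_iff.mpr t0_U⟩⟩

theorem order_tC : orderOf tC = 2 := by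
  haveI : Fact (Nat.Prime 2) := ⟨Nat.prime_two⟩
  apply orderOf_eq_prime
  · rw [pow_two]
    apply Subtype.ext
    have h := congrArg Subtype.val t0_sq
    exact h
  · intro h
    apply t0_ne
    apply Subtype.ext
    have h' := congrArg Subtype.val h
    exact h'

/-! ### The centraliser -/

/-- the centraliser of the involution -/
abbrev Ct : Type := ↥(Subgroup.centralizer ({tC} : Set ↥Cfsg.Spor.Co2))

/-- the centraliser inside the automorphism group of the lattice -/
noncomputable def iota : Ct →* Co0 :=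
  (Subgroup.inclusion (inf_le_left : Cfsg.Spor.Co2 ≤ Co0)).comp
    (Subgroup.centralizer ({tC} : Set ↥Cfsg.Spor.Co2)).subtype

theorem iota_val (g : Ct) : (iota g).1 = g.1.1 := rfl

theorem iota_inj : Function.Injective iota := by
  intro a b h
  apply Subtype.ext
  apply Subtype.ext
  have h' := congrArg Subtype.val h
  exact h'

theorem iota_U (g : Ct) : iota g • Cfsg.Spor.leechU = Cfsg.Spor.leechU :=
  mem_stabilizer_iff.mp g.1.2.2

theorem iota_comm (g : Ct) : iota g * t0 = t0 * iota g := by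
  have h := Subgroup.mem_centralizer_iff.mp g.2 tC rfl
  apply Subtype.ext
  exact (congrArg (fun x : ↥Cfsg.Spor.Co2 => x.1) h).symm

/-- an automorphism fixing the fixed vector and commuting with the sign change, as an element of
the centraliser -/
noncomputable def mkC (k : Co0) (hU : k • Cfsg.Spor.leechU = Cfsg.Spor.leechU)
    (hc : k * t0 = t0 * k) : Ct :=
  ⟨⟨k.1, ⟨k.2, mem_stabilizer_iff.mpr hU⟩⟩, Subgroup.mem_centralizer_iff.mpr (by
    intro h hh
    rw [Set.mem_singleton_iff] at hh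
    subst hh
    apply Subtype.ext
    exact (congrArg Subtype.val hc).symm)⟩

theorem iota_mkC (k : Co0) (hU : k • Cfsg.Spor.leechU = Cfsg.Spor.leechU)
    (hc : k * t0 = t0 * k) : iota (mkC k hU hc) = k := rfl

instance finCo0 : Finite Co0 := SimpM22.co0_finite

instance finCo2 : Finite ↥Cfsg.Spor.Co2 := Finite.of_equiv _ Co2Out.co2Equiv.symm.toEquiv

theorem card_Co2 : Nat.card ↥Cfsg.Spor.Co2 = 42305421312000 := by
  rw [Nat.card_congr Co2Out.co2Equiv.toEquiv]
  exact (Cfsg.Agent.S0402.result Cfsg.Spor.leechU Co2Out.leechU_norm).2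

theorem card_Ct : ¬ 2 ^ 19 ∣ Nat.card Ct := by
  intro h
  have h1 : Nat.card Ct ∣ Nat.card ↥Cfsg.Spor.Co2 := Subgroup.card_subgroup_dvd_card _
  rw [card_Co2] at h1
  have h2 := dvd_trans h h1
  norm_num at h2

/-! ### The roots -/

/-- The centraliser permutes the roots. -/
theorem isRt_smul (g : Co0) (hU : g • Cfsg.Spor.leechU = Cfsg.Spor.leechU)
    (hc : g * t0 = t0 * g) (v : leechLattice) (hv : IsRt (v : GolayPt → ℤ)) :
    IsRt ((g • v : leechLattice) : GolayPt → ℤ) := by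
  refine ⟨?_, ?_, ?_⟩
  · rw [smul_norm]
    exact hv.1
  · apply supp_of_fix
    rw [← mul_smul, ← hc, mul_smul, t0_fix v hv.2.1]
  · have h1 := dot_U ((g • v : leechLattice) : GolayPt → ℤ)
    have h2 := dot_U (v : GolayPt → ℤ)
    have h3 := smul_dot g Cfsg.Spor.leechU v
    rw [hU] at h3
    have h4 := hv.2.2
    linarith

/-- the roots -/
def Rt : Type := {v : leechLattice // IsRt (v : GolayPt → ℤ)}

noncomputable instance actRt : MulAction Ct Rt where
  smul g x := ⟨iota g • x.1, isRt_smul (iota g) (iota_U g) (iota_comm g) x.1 x.2⟩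
  one_smul x := Subtype.ext (by
    show iota 1 • x.1 = x.1
    rw [map_one, one_smul])
  mul_smul g h x := Subtype.ext (by
    show iota (g * h) • x.1 = iota g • (iota h • x.1)
    rw [map_mul, mul_smul])

theorem smul_val (g : Ct) (x : Rt) : (g • x).1 = iota g • x.1 := rfl

/-- the form modulo 2 on the roots -/
noncomputable def BR (x y : Rt) : ZMod 2 := Bf (x.1 : GolayPt → ℤ) (y.1 : GolayPt → ℤ)

theorem BR_inv (g : Ct) (x y : Rt) : BR (g • x) (g • y) = BR x y := by
  unfold BR Bf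
  rw [smul_val, smul_val, smul_dot]

/-- the root of a listed code -/
noncomputable def rt (k : ℕ) (hk : k ∈ RL) : Rt :=
  ⟨⟨vecB (mvB k), (rl_spec rl_ok hk).2.2.2.1⟩, (rl_spec rl_ok hk).2.2.2.2⟩

theorem rt_val (k : ℕ) (hk : k ∈ RL) : ((rt k hk).1 : GolayPt → ℤ) = vecB (mvB k) := rfl

theorem rt_surj (x : Rt) : ∃ k, ∃ hk : k ∈ RL, x = rt k hk := by
  obtain ⟨k, hk, e⟩ := root_code scan_ok (x.1 : GolayPt → ℤ) x.1.2 x.2
  exact ⟨k, hk, Subtype.ext (Subtype.ext e)⟩

theorem BR_rt (a b : ℕ) (ha : a ∈ RL) (hb : b ∈ RL) : BR (rt a ha) (rt b hb) = zb (b1 a b) :=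
  Bf_spec (rl_spec rl_ok ha).2.2.1 (rl_spec rl_ok hb).2.2.1 (pair_spec pair_ok ha hb).1

theorem bk_mem (i : ℕ) (hi : i < 6) : bk i ∈ RL :=
  (memL_iff _ _).mp ((allB_iff _ _).mp bk_ok i hi)

/-- the basis roots -/
noncomputable def bR (i : Fin 3 ⊕ Fin 3) : Rt := rt (bk (CzStmt.enc i)) (bk_mem _ (enc_lt i))

theorem BR_bR (i : Fin 3 ⊕ Fin 3) (a : ℕ) (ha : a ∈ RL) :
    BR (bR i) (rt a ha) = zb (b1 (bk (CzStmt.enc i)) a) := BR_rt _ _ _ _

theorem hb : ∀ i j, BR (bR i) (bR j) = Matrix.J (Fin 3) (ZMod 2) i j := by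
  intro i j
  unfold bR
  rw [BR_rt, ← J_gram]
  have h := (allB_iff _ _).mp ((allB_iff _ _).mp gram_ok (CzStmt.enc i) (enc_lt i))
    (CzStmt.enc j) (enc_lt j)
  rw [(beqB_iff _ _).mp h]

theorem hcomp : ∀ x y : Rt, BR x y
    = ∑ i, ∑ j, BR (bR i) x * Matrix.J (Fin 3) (ZMod 2) i j * BR (bR j) y := by
  intro x y
  obtain ⟨a, ha, rfl⟩ := rt_surj x
  obtain ⟨c, hc, rfl⟩ := rt_surj y
  rw [J_sum (fun i => BR (bR i) (rt a ha)) (fun j => BR (bR j) (rt c hc))]
  simp only [BR_bR]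
  rw [BR_rt, (pair_spec pair_ok ha hc).2.1]
  unfold hcompV
  simp only [zb_xor, zb_and]
  rfl

/-! ### The ten automorphisms -/

/-- An automorphism passing the tests is an element of the centraliser whose matrix on the basis
roots has the given code. -/
theorem gen_img {N : ℕ × ℕ} (cN : matChk N.1 N.2 = true) {P : ℕ × ℕ}
    (cP : matChk P.1 P.2 = true) (pa : prodOK N nT P = true) (pb : prodOK nT N P = true)
    (fu : appOK N.1 N.2 (spreadS UP) UP = true) (G : ℕ → ℕ) (gc : ℕ)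
    (go : genOK N G gc = true) :
    ∃ g : Ct, ∀ i j : Fin 3 ⊕ Fin 3, BR (bR i.swap) (g • bR j)
      = if Nat.testBit gc (6 * CzStmt.enc i + CzStmt.enc j) = true then 1 else 0 := by
  have hU : elt N cN • Cfsg.Spor.leechU = Cfsg.Spor.leechU :=
    elt_fix cN validUP fu Cfsg.Spor.leechU U_eq
  have hc : elt N cN * t0 = t0 * elt N cN := by
    rw [t0_eq]
    exact (elt_mul cN cT cP pa).trans (elt_mul cT cN cP pb).symm
  refine ⟨mkC (elt N cN) hU hc, fun i j => ?_⟩
  obtain ⟨hG, happ, hbit⟩ := gen_spec go (enc_lt i) (enc_lt j)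
  have e : mkC (elt N cN) hU hc • bR j = rt (G (CzStmt.enc j)) hG := by
    apply Subtype.ext
    apply Subtype.ext
    rw [smul_val, iota_mkC]
    exact elt_app cN (rl_spec rl_ok (bk_mem _ (enc_lt j))).2.2.1 (rl_spec rl_ok hG).2.2.1 happ
      (bR j).1 rfl
  rw [e, BR_bR, enc_swap, hbit]
  rfl

/-! ### Monomial automorphisms fixing the octad pointwise -/

theorem mono_congr' {σ σ' : Equiv.Perm GolayPt} {c c' : Finset GolayPt}
    (hσ : σ ∈ Cfsg.M24) (hσ' : σ' ∈ Cfsg.M24)
    (hc : IsCW c) (hc' : IsCW c') (h1 : σ = σ') (h2 : c = c') :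
    mono σ hσ c hc = mono σ' hσ' c' hc' := by
  subst h1
  subst h2
  rfl

/-- the points of the octad -/
def FL : List GolayPt := [none, some 0, some 1, some 2, some 3, some 5, some 14, some 17]

theorem FL_O : ∀ q : GolayPt, q ∈ FL ↔ q ∈ CzStmt.Oset := by decide +kernel

/-- A monomial automorphism fixing the octad pointwise, with signs outside the octad, fixes the
vectors that vanish outside the octad. -/
theorem mono_fix {σ : Equiv.Perm GolayPt} (hσ : σ ∈ Cfsg.M24)
    {c : Finset GolayPt} (hc : IsCW c) (hfix : ∀ p ∈ CzStmt.Oset, σ p = p)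
    (hsub : c ⊆ CzStmt.Dset) (v : leechLattice)
    (hv : ∀ p ∈ CzStmt.Dset, (v : GolayPt → ℤ) p = 0) : mono σ hσ c hc • v = v := by
  apply Subtype.ext
  rw [mono_val]
  apply signedPerm_fix σ c FL
  · intro i hi
    exact hfix i ((FL_O i).mp hi)
  · intro i hi hic
    exact D_not_O i (hsub hic) ((FL_O i).mp hi)
  · intro i hi
    apply hv
    apply O_or_D
    intro hO
    exact hi ((FL_O i).mpr hO)

theorem smul_D {σ : Equiv.Perm GolayPt} (hfix : ∀ p ∈ CzStmt.Oset, σ p = p) :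
    σ • CzStmt.Dset = CzStmt.Dset := by
  ext q
  rw [← Finset.inv_smul_mem_iff]
  have hq : σ⁻¹ • q = σ.symm q := rfl
  rw [hq]
  constructor
  · intro h
    apply O_or_D
    intro hO
    have e : σ.symm q = q := by
      rw [Equiv.symm_apply_eq]
      exact (hfix q hO).symm
    rw [e] at h
    exact D_not_O q h hO
  · intro h
    apply O_or_D
    intro hO
    have e : σ (σ.symm q) = σ.symm q := hfix _ hO
    rw [Equiv.apply_symm_apply] at e
    rw [← e] at hO
    exact D_not_O q h hO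

/-- A monomial automorphism fixing the octad pointwise, with signs outside the octad, commutes
with the sign change. -/
theorem mono_comm {σ : Equiv.Perm GolayPt} (hσ : σ ∈ Cfsg.M24)
    {c : Finset GolayPt} (hc : IsCW c) (hfix : ∀ p ∈ CzStmt.Oset, σ p = p) :
    mono σ hσ c hc * t0 = t0 * mono σ hσ c hc := by
  unfold t0 eps
  rw [mono_mul, mono_mul]
  apply mono_congr'
  · rw [mul_one, one_mul]
  · rw [smul_D hfix, one_smul, symmDiff_comm]

/-! ### The kernel -/

theorem elat_fix (h : Co0) {i X Y : ℕ} (hi : i < 24) (x y : leechLattice)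
    (hx : (x : GolayPt → ℤ) = vecB X) (hy : (y : GolayPt → ℤ) = vecB Y) (hfx : h • x = x)
    (hfy : h • y = y) (hok : eOK i X Y = true) :
    h • Cfsg.Agent.S5546.elat (pt i) = Cfsg.Agent.S5546.elat (pt i) := by
  have e : Cfsg.Agent.S5546.elat (pt i) = x + y := by
    apply Subtype.ext
    funext q
    show Cfsg.Agent.S5546.evec (pt i) q = ((x + y : leechLattice) : GolayPt → ℤ) q
    rw [AddSubgroup.coe_add, Pi.add_apply, hx, hy, e_spec hi hok q]
    rfl
  rw [e, smul_add_l, hfx, hfy]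

/-- An automorphism fixing the fixed vector and every root fixes eight times each coordinate
vector of the octad. -/
theorem elat_fix_all (h : Co0) (hU : h • Cfsg.Spor.leechU = Cfsg.Spor.leechU)
    (hr : ∀ v : leechLattice, IsRt (v : GolayPt → ℤ) → h • v = v) (p : GolayPt)
    (hp : p ∈ CzStmt.Oset) : h • Cfsg.Agent.S5546.elat p = Cfsg.Agent.S5546.elat p := by
  have hrt : ∀ k (hk : k ∈ RL), h • (rt k hk).1 = (rt k hk).1 := fun k hk => hr _ (rt k hk).2
  rw [CzStmt.mem_Oset, CzChk.idx_eq] at hp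
  have hcase := O_list (idx p) (idx_lt p) hp
  have hpp := pt_idx p
  have six : ∀ i ∈ [1, 2, 3, 5, 14, 17], i < 24 →
      h • Cfsg.Agent.S5546.elat (pt i) = Cfsg.Agent.S5546.elat (pt i) := by
    intro i hi hi24
    have h1 := List.all_eq_true.mp e_ok i hi
    rw [Bool.and_eq_true, Bool.and_eq_true] at h1
    obtain ⟨⟨ha, hb⟩, hok⟩ := h1
    exact elat_fix h hi24 (rt (ea i) ((memL_iff _ _).mp ha)).1 (rt (eb i) ((memL_iff _ _).mp hb)).1
      rfl rfl (hrt _ _) (hrt _ _) hok
  rw [← hpp]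
  rcases hcase with e | e | e | e | e | e | e | e <;> rw [e]
  · have h1 := e_inf
    rw [Bool.and_eq_true] at h1
    exact elat_fix h (by norm_num) Cfsg.Spor.leechU (rt kr ((memL_iff _ _).mp h1.1)).1 U_eq rfl hU
      (hrt _ _) h1.2
  · have h1 := e_zero
    rw [Bool.and_eq_true] at h1
    exact elat_fix h (by norm_num) Cfsg.Spor.leechU (rt krn ((memL_iff _ _).mp h1.1)).1 U_eq rfl hU
      (hrt _ _) h1.2
  · exact six 1 (by simp) (by norm_num)
  · exact six 2 (by simp) (by norm_num)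
  · exact six 3 (by simp) (by norm_num)
  · exact six 5 (by simp) (by norm_num)
  · exact six 14 (by simp) (by norm_num)
  · exact six 17 (by simp) (by norm_num)

theorem c0_eq : Cfsg.Agent.Lib.Helper92.ActQ.c0
    = Cfsg.Agent.Lib.Helper92.Conway.cls ((Cfsg.Agent.S5546.elat none : leechLattice) : GolayPt → ℤ) := by
  unfold Cfsg.Agent.Lib.Helper92.ActQ.c0
  congr 1
  funext q
  show Cfsg.Agent.Lib.Helper92.ActQ.e8 q = Cfsg.Agent.S5546.evec none q
  unfold Cfsg.Agent.Lib.Helper92.ActQ.e8 Cfsg.Agent.S5546.evec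
  rw [Pi.single_apply]

/-- An automorphism fixing eight times each coordinate vector of the octad is a monomial
automorphism fixing the octad pointwise, with signs outside the octad. -/
theorem mono_of_fix (h : Co0)
    (hf : ∀ p ∈ CzStmt.Oset, h • Cfsg.Agent.S5546.elat p = Cfsg.Agent.S5546.elat p) :
    ∃ σ, ∃ hσ : σ ∈ Cfsg.M24, ∃ c, ∃ hc : IsCW c,
      (∀ p ∈ CzStmt.Oset, σ p = p) ∧ c ⊆ CzStmt.Dset ∧ h = mono σ hσ c hc := by
  have hnone : (none : GolayPt) ∈ CzStmt.Oset := by decide +kernel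
  have hc0 : h • Cfsg.Agent.Lib.Helper92.ActQ.c0 = Cfsg.Agent.Lib.Helper92.ActQ.c0 := by
    rw [c0_eq, Cfsg.Agent.Lib.Helper92.ActQ.smul_cls, hf none hnone]
  obtain ⟨σ, hσ, c, hc, rfl⟩ := stab_eq_mono h hc0
  have key : ∀ p ∈ CzStmt.Oset, σ p = p ∧ p ∉ c := by
    intro p hp
    have e := congrFun (congrArg Subtype.val (hf p hp)) (σ p)
    rw [mono_val] at e
    have e' : (if σ p ∈ c then -Cfsg.Agent.S5546.evec p (σ.symm (σ p))
        else Cfsg.Agent.S5546.evec p (σ.symm (σ p))) = Cfsg.Agent.S5546.evec p (σ p) := e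
    rw [Equiv.symm_apply_apply] at e'
    unfold Cfsg.Agent.S5546.evec at e'
    rw [if_pos rfl] at e'
    by_cases hsp : σ p = p
    · refine ⟨hsp, fun hpc => ?_⟩
      rw [hsp] at e'
      rw [if_pos hpc, if_pos rfl] at e'
      norm_num at e'
    · exfalso
      rw [if_neg hsp] at e'
      split_ifs at e' <;> norm_num at e'
  refine ⟨σ, hσ, c, hc, fun p hp => (key p hp).1, fun q hq => ?_, rfl⟩
  apply O_or_D
  intro hO
  exact (key q hO).2 hq

/-! ### The theorem -/

theorem main (hSp : CzStmt.SpHom) (hGen : CzStmt.GenSp) (hO2 : CzStmt.O2Sp) (hAsm : CzStmt.Asm)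
    (hStr : CzStmt.K1Str) (hXS : CzStmt.K1XS) :
    ∃ t : ↥Cfsg.Spor.Co2, orderOf t = 2 ∧
      Cfsg.IsExtraspecial 2 (Cfsg.pCore 2 ↥(Subgroup.centralizer ({t} : Set ↥Cfsg.Spor.Co2))) ∧
      Nat.card (Cfsg.pCore 2 ↥(Subgroup.centralizer ({t} : Set ↥Cfsg.Spor.Co2))) = 2 ^ 9 ∧
      Nonempty (↥(Subgroup.centralizer ({t} : Set ↥Cfsg.Spor.Co2)) ⧸
        Cfsg.pCore 2 ↥(Subgroup.centralizer ({t} : Set ↥Cfsg.Spor.Co2)) ≃*
          Matrix.symplecticGroup (Fin 3) (ZMod 2)) := by
  obtain ⟨K, hK, hKcard, hKx⟩ := hXS hStr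
  obtain ⟨φ, hφ1, hφ2, hφ3⟩ := hSp Ct Rt BR bR BR_inv hb hcomp
  -- surjectivity
  have hsurj : Function.Surjective φ := by
    rw [← MonoidHom.range_eq_top]
    apply hGen
    intro m hm
    have key : ∀ (gc : ℕ), (∃ g : Ct, ∀ i j : Fin 3 ⊕ Fin 3, BR (bR i.swap) (g • bR j)
        = if Nat.testBit gc (6 * CzStmt.enc i + CzStmt.enc j) = true then 1 else 0) →
        CzStmt.gcode m = gc → ∃ h ∈ φ.range,
          (h : Matrix (Fin 3 ⊕ Fin 3) (Fin 3 ⊕ Fin 3) (ZMod 2)) = CzStmt.gmat m := by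
      rintro gc ⟨g, hg⟩ hgc
      refine ⟨φ g, ⟨g, rfl⟩, ?_⟩
      ext i j
      rw [hφ1, hg]
      unfold CzStmt.gmat
      rw [hgc]
      rfl
    interval_cases m
    · exact key _ (gen_img cG0 cP0 pa0 pb0 fu0 img0 _ go0) rfl
    · exact key _ (gen_img cG1 cP1 pa1 pb1 fu1 img1 _ go1) rfl
    · exact key _ (gen_img cG2 cP2 pa2 pb2 fu2 img2 _ go2) rfl
    · exact key _ (gen_img cG3 cP3 pa3 pb3 fu3 img3 _ go3) rfl
    · exact key _ (gen_img cG4 cP4 pa4 pb4 fu4 img4 _ go4) rfl
    · exact key _ (gen_img cG5 cP5 pa5 pb5 fu5 img5 _ go5) rfl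
    · exact key _ (gen_img cG6 cP6 pa6 pb6 fu6 img6 _ go6) rfl
    · exact key _ (gen_img cG7 cP7 pa7 pb7 fu7 img7 _ go7) rfl
    · exact key _ (gen_img cG8 cP8 pa8 pb8 fu8 img8 _ go8) rfl
    · exact key _ (gen_img cG9 cP9 pa9 pb9 fu9 img9 _ go9) rfl
  -- the kernel: squares lie in K
  have hsq : ∀ g : Ct, φ g = 1 → iota (g * g) ∈ K := by
    intro g hg
    have hpm : ∀ x : Rt, (g • x).1 = x.1 ∨ (g • x).1 = -x.1 := by
      intro x
      obtain ⟨a, ha, rfl⟩ := rt_surj x
      obtain ⟨c, hc, e⟩ := rt_surj (g • rt a ha)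
      have hval : ∀ j < 6, b1 (bk j) c = b1 (bk j) a := by
        intro j hj
        obtain ⟨i, rfl⟩ := enc_surj j hj
        have h1 := hφ2 g hg (rt a ha) i
        rw [e, BR_bR, BR_bR] at h1
        exact zb_inj h1
      rw [e]
      rcases (pair_spec pair_ok hc ha).2.2 hval with h1 | h1
      · left
        subst h1
        rfl
      · right
        apply Subtype.ext
        rw [AddSubgroup.coe_neg]
        exact h1
    have hroot : ∀ v : leechLattice, IsRt (v : GolayPt → ℤ) → (iota g * iota g) • v = v := by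
      intro v hv
      rw [mul_smul]
      rcases hpm ⟨v, hv⟩ with h1 | h1
      · have h2 : iota g • v = v := h1
        rw [h2, h2]
      · have h2 : iota g • v = -v := h1
        rw [h2, smul_neg_l, h2, neg_neg]
    have hU : (iota g * iota g) • Cfsg.Spor.leechU = Cfsg.Spor.leechU := by
      rw [mul_smul, iota_U, iota_U]
    rw [map_mul, hK]
    exact mono_of_fix _ (elat_fix_all _ hU hroot)
  -- K lies in the kernel
  have hin : ∀ k ∈ K, ∃ g : Ct, iota g = k ∧ φ g = 1 := by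
    intro k hk
    obtain ⟨σ, hσ, c, hc, hfix, hsub, rfl⟩ := (hK k).mp hk
    refine ⟨mkC (mono σ hσ c hc) (mono_fix hσ hc hfix hsub _ D_U) (mono_comm hσ hc hfix), rfl, ?_⟩
    apply hφ3
    intro j
    apply Subtype.ext
    rw [smul_val, iota_mkC]
    exact mono_fix hσ hc hfix hsub _ (bR j).2.2.1
  exact ⟨tC, order_tC, hAsm Ct Co0 φ iota K hsurj iota_inj hKx hKcard hsq hin card_Ct hO2⟩

end Cfsg.Agent.Lib.Helper27.CzMain
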