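import Mathlib
import Cfsg.Prelude.Def_Sporadic_a
import Cfsg.Agent.Lib.Helper27.SlpLib
import Cfsg.Agent.Lib.Helper27.Chunk
import Cfsg.Agent.Lib.Helper27.CertBase
import Cfsg.Agent.Lib.Helper27.Co1Chk
import Cfsg.Agent.Lib.Helper27.CzChk
import Cfsg.Agent.Lib.Helper27.OzDat0

/-!
Kernel tests for the centraliser of an involution of the first Conway group, with their
meaning: the test that a code is the code of a root (a shortest vector that vanishes outside the
octad), the tests on pairs of roots, on the images of the eight basis roots under an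
automorphism, and the test that a code is the code of a shortest vector that vanishes on the
octad.
-/

set_option autoImplicit false
set_option maxRecDepth 100000

namespace Cfsg.Agent.Lib.Helper27.OzChk

open Cfsg Cfsg.Agent.Lib.Helper27.Bits Cfsg.Agent.Lib.Helper27.Pk
open Cfsg.Agent.Lib.Helper27.MinTab Cfsg.Agent.Lib.Helper27.MinEnum Cfsg.Agent.Lib.Helper27.MinFast
open Cfsg.Agent.Lib.Helper27.MinAll Cfsg.Agent.Lib.Helper27.LDot Cfsg.Agent.Lib.Helper27.LMat
open Cfsg.Agent.Lib.Helper27.Spread Cfsg.Agent.Lib.Helper27.Co0Act Cfsg.Agent.Lib.Helper27.LApp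
open Cfsg.Agent.Lib.Helper27.OrbCert Cfsg.Agent.Lib.Helper27.Chunk Cfsg.Agent.Lib.Helper27.CoGlue
open Cfsg.Agent.Lib.Helper27.Invol Cfsg.Agent.Lib.Helper27.SlpLib Cfsg.Agent.Lib.Helper27.CertBase
open Cfsg.Agent.Lib.Helper27.CzChk Cfsg.Agent.Lib.Helper27.OzDat0

/-! ### Roots -/

/-- the root conditions on an integer vector: sum of squares 32, zero outside the octad -/
def IsRt8 (v : GolayPt → ℤ) : Prop :=
  sqNorm v = 32 ∧ ∀ p ∈ CzStmt.Dset, v p = 0

/-- the test that a packed vector vanishes on the points of a mask -/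
noncomputable def zeroB (M X : ℕ) : Bool :=
  allB 24 (fun i => !(Nat.testBit M i) || Nat.beq (lanesB X i) 8)

theorem zeroB_D (X : ℕ) : zeroB CzStmt.DM X = true ↔ ∀ p ∈ CzStmt.Dset, vecB X p = 0 := by
  unfold zeroB
  rw [allB_iff]
  constructor
  · intro h1 p hp
    have h := h1 (idx p) (idx_lt p)
    rw [CzStmt.mem_Dset, CzChk.idx_eq] at hp
    rw [hp] at h
    have h' : lanesB X (idx p) = 8 := Nat.eq_of_beq_eq_true (by simpa using h)
    rw [vecB_apply, h']
    norm_num
  · intro h1 i hi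
    by_cases hb : Nat.testBit CzStmt.DM i = true
    · have hp : pt i ∈ CzStmt.Dset := by
        rw [CzStmt.mem_Dset, CzChk.idx_eq, idx_pt i hi]
        exact hb
      have h := h1 (pt i) hp
      rw [vecB_apply, idx_pt i hi] at h
      have h' : lanesB X i = 8 := by omega
      rw [hb, h']
      rfl
    · rw [Bool.not_eq_true] at hb
      rw [hb]
      rfl

theorem zeroB_O (X : ℕ) (h1 : zeroB CzStmt.OM X = true) : ∀ p ∈ CzStmt.Oset, vecB X p = 0 := by
  unfold zeroB at h1
  rw [allB_iff] at h1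
  intro p hp
  have h := h1 (idx p) (idx_lt p)
  rw [CzStmt.mem_Oset, CzChk.idx_eq] at hp
  rw [hp] at h
  have h' : lanesB X (idx p) = 8 := Nat.eq_of_beq_eq_true (by simpa using h)
  rw [vecB_apply, h']
  norm_num

/-- the test of code `k` in the search for the roots -/
noncomputable def scanRow8 (k : ℕ) : Bool :=
  !(validKF k) || !(zeroB CzStmt.DM (mvB k)) || memL RL8 k

/-- the test of a listed code -/
noncomputable def rlRow8 (k : ℕ) : Bool :=
  Nat.blt k KTOT && validKF k && validB (mvB k) && zeroB CzStmt.DM (mvB k)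

/-- Every root has a listed code. -/
theorem root_code8 (hscan : allB KTOT scanRow8 = true) (v : GolayPt → ℤ) (hv : v ∈ leechLattice)
    (hr : IsRt8 v) : ∃ k ∈ RL8, v = vecB (mvB k) := by
  obtain ⟨k, hk, hvk, rfl⟩ := mv_complete hv hr.1
  have e : vecB (mvB k) = vecL (laneRef k) := vecB_mv rfl hk hvk
  have h1 : zeroB CzStmt.DM (mvB k) = true := by
    rw [zeroB_D, e]
    exact hr.2
  have h := (allB_iff _ _).mp hscan k hk
  unfold scanRow8 at h
  rw [validKF_eq, hvk, h1] at h
  exact ⟨k, (memL_iff RL8 k).mp (by simpa using h), e.symm⟩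

/-- A listed code is the code of a root. -/
theorem rl_spec8 (hrl : RL8.all rlRow8 = true) {k : ℕ} (hk : k ∈ RL8) :
    k < KTOT ∧ validK k = true ∧ validB (mvB k) = true ∧ vecB (mvB k) ∈ leechLattice ∧
      IsRt8 (vecB (mvB k)) := by
  have h := List.all_eq_true.mp hrl k hk
  unfold rlRow8 at h
  rw [Bool.and_eq_true, Bool.and_eq_true, Bool.and_eq_true] at h
  obtain ⟨⟨⟨h1, h2⟩, h3⟩, h4⟩ := h
  have hk' : k < KTOT := Nat.blt_eq.mp h1
  have hv : validK k = true := by
    rw [← validKF_eq]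
    exact h2
  have e : vecB (mvB k) = vecL (laneRef k) := vecB_mv rfl hk' hv
  have hs := mv_sound hk' hv
  refine ⟨hk', hv, h3, ?_, ?_, (zeroB_D _).mp h4⟩
  · rw [e]
    exact hs.1
  · rw [e]
    exact hs.2

/-! ### Shortest vectors that vanish on the octad -/

/-- the test of a code of a shortest vector that vanishes on the octad -/
noncomputable def dlRow (k : ℕ) : Bool :=
  Nat.blt k KTOT && validKF k && zeroB CzStmt.OM (mvB k)

theorem dl_spec {k : ℕ} (h : dlRow k = true) :
    k < KTOT ∧ validK k = true ∧ vecL (laneRef k) ∈ leechLattice ∧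
      sqNorm (vecL (laneRef k)) = 32 ∧ ∀ p ∈ CzStmt.Oset, vecL (laneRef k) p = 0 := by
  unfold dlRow at h
  rw [Bool.and_eq_true, Bool.and_eq_true] at h
  obtain ⟨⟨h1, h2⟩, h4⟩ := h
  have hk' : k < KTOT := Nat.blt_eq.mp h1
  have hv : validK k = true := by
    rw [← validKF_eq]
    exact h2
  have e : vecB (mvB k) = vecL (laneRef k) := vecB_mv rfl hk' hv
  have hs := mv_sound hk' hv
  refine ⟨hk', hv, hs.1, hs.2, ?_⟩
  rw [← e]
  exact zeroB_O _ h4

/-! ### Pairs of roots -/

/-- the value of the form on two codes from the values on the basis roots -/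
noncomputable def hcompV8 (a b : ℕ) : Bool :=
  xor (xor (xor (b1 (bk8 0) a && b1 (bk8 4) b) (b1 (bk8 4) a && b1 (bk8 0) b))
      (xor (b1 (bk8 1) a && b1 (bk8 5) b) (b1 (bk8 5) a && b1 (bk8 1) b)))
    (xor (xor (b1 (bk8 2) a && b1 (bk8 6) b) (b1 (bk8 6) a && b1 (bk8 2) b))
      (xor (b1 (bk8 3) a && b1 (bk8 7) b) (b1 (bk8 7) a && b1 (bk8 3) b)))

/-- the value of the quadratic form on a code from the values on the basis roots -/
noncomputable def qrV (a : ℕ) : Bool :=
  xor (xor (xor (xor (b1 (bk8 4) a) (b1 (bk8 5) a)) (xor (b1 (bk8 6) a) (b1 (bk8 7) a)))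
      (xor (xor (b1 (bk8 0) a) (b1 (bk8 1) a)) (xor (b1 (bk8 2) a) (b1 (bk8 3) a))))
    (xor (xor (b1 (bk8 4) a && b1 (bk8 0) a) (b1 (bk8 5) a && b1 (bk8 1) a))
      (xor (b1 (bk8 6) a && b1 (bk8 2) a) (b1 (bk8 7) a && b1 (bk8 3) a)))

/-- the test of a pair of root codes: the inner product is a multiple of 16 between `-32` and
`32`, the form is given by the values on the basis roots, and two roots with the same values on
the basis roots are equal or opposite -/
noncomputable def pairOK8 (a b : ℕ) : Bool :=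
  (b1 a b || b0 a b) && beqB (b1 a b) (hcompV8 a b) &&
    (!(allB 8 (fun i => beqB (b1 (bk8 i) a) (b1 (bk8 i) b))) || Nat.beq a b || Co1Chk.negK a b)

/-- the test of all root codes and all pairs of root codes -/
noncomputable def pairAll8 : Bool := RL8.all (fun a => qrV a && RL8.all (fun b => pairOK8 a b))

theorem pair_spec8 (hp : pairAll8 = true) {a b : ℕ} (ha : a ∈ RL8) (hb : b ∈ RL8) :
    (b1 a b || b0 a b) = true ∧ b1 a b = hcompV8 a b ∧
      ((∀ i < 8, b1 (bk8 i) a = b1 (bk8 i) b) → a = b ∨ vecB (mvB a) = -vecB (mvB b)) := by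
  have h0 := List.all_eq_true.mp hp a ha
  rw [Bool.and_eq_true] at h0
  have h := List.all_eq_true.mp h0.2 b hb
  unfold pairOK8 at h
  rw [Bool.and_eq_true, Bool.and_eq_true] at h
  obtain ⟨⟨h1, h2⟩, h3⟩ := h
  refine ⟨h1, (beqB_iff _ _).mp h2, fun hi => ?_⟩
  rw [Bool.or_eq_true, Bool.or_eq_true] at h3
  rcases h3 with (h3 | h3) | h3
  · exfalso
    have : allB 8 (fun i => beqB (b1 (bk8 i) a) (b1 (bk8 i) b)) = true := by
      rw [allB_iff]
      intro i hi'
      exact (beqB_iff _ _).mpr (hi i hi')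
    rw [this] at h3
    exact absurd h3 (by decide)
  · exact Or.inl (Nat.eq_of_beq_eq_true h3)
  · exact Or.inr (Cfsg.Agent.Lib.Helper27.SimpMcL.vecB_neg h3)

theorem qr_spec8 (hp : pairAll8 = true) {a : ℕ} (ha : a ∈ RL8) : qrV a = true := by
  have h0 := List.all_eq_true.mp hp a ha
  rw [Bool.and_eq_true] at h0
  exact h0.1

/-! ### Images of the basis roots -/

/-- the test of an automorphism given by a packed matrix: the images of the eight basis roots
are the roots of the codes `G j`, and the matrix of the action has code `gc` -/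
noncomputable def genOK8 (N : ℕ × ℕ) (G : ℕ → ℕ) (gc : ℕ) : Bool :=
  allB 8 (fun j => memL RL8 (G j) && appOK N.1 N.2 (spreadS (mvB (bk8 j))) (mvB (G j)) &&
    allB 8 (fun i => beqB (b1 (bk8 ((i + 4) % 8)) (G j)) (Nat.testBit gc (8 * i + j))))

theorem gen_spec8 {N : ℕ × ℕ} {G : ℕ → ℕ} {gc : ℕ} (h : genOK8 N G gc = true) {i j : ℕ}
    (hi : i < 8) (hj : j < 8) :
    G j ∈ RL8 ∧ appOK N.1 N.2 (spreadS (mvB (bk8 j))) (mvB (G j)) = true ∧
      b1 (bk8 ((i + 4) % 8)) (G j) = Nat.testBit gc (8 * i + j) := by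
  have h1 := (allB_iff _ _).mp h j hj
  rw [Bool.and_eq_true, Bool.and_eq_true] at h1
  obtain ⟨⟨h2, h3⟩, h4⟩ := h1
  have h5 := (allB_iff _ _).mp h4 i hi
  exact ⟨(memL_iff _ _).mp h2, h3, (beqB_iff _ _).mp h5⟩

end Cfsg.Agent.Lib.Helper27.OzChk
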