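import Mathlib
import Cfsg.Prelude.Def_Sporadic_a
import Cfsg.Agent.Lib.Helper27.SlpLib
import Cfsg.Agent.Lib.Helper27.Chunk
import Cfsg.Agent.Lib.Helper27.CertBase
import Cfsg.Agent.Lib.Helper27.Co1Chk
import Cfsg.Agent.Lib.Helper27.CzChk
import Cfsg.Agent.Lib.Helper27.OzChk
import Cfsg.Agent.Lib.Helper27.McDat0

/-!
Kernel tests for the centraliser of an involution of the McLaughlin group, with their meaning:
the search for the shortest vectors with inner product 16 with a fixed vector that are
orthogonal to their image under the sign change, the test of a listed vector with its two roots,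
the test that the square of an automorphism is the sign change on the octad, and the test that
an automorphism fixes the two fixed vectors.
-/

set_option autoImplicit false
set_option maxRecDepth 100000

namespace Cfsg.Agent.Lib.Helper27.McChk

open Cfsg Cfsg.Agent.Lib.Helper27.Bits Cfsg.Agent.Lib.Helper27.Pk
open Cfsg.Agent.Lib.Helper27.MinTab Cfsg.Agent.Lib.Helper27.MinEnum Cfsg.Agent.Lib.Helper27.MinFast
open Cfsg.Agent.Lib.Helper27.MinAll Cfsg.Agent.Lib.Helper27.LDot Cfsg.Agent.Lib.Helper27.LMat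
open Cfsg.Agent.Lib.Helper27.Spread Cfsg.Agent.Lib.Helper27.Co0Act Cfsg.Agent.Lib.Helper27.LApp
open Cfsg.Agent.Lib.Helper27.OrbCert Cfsg.Agent.Lib.Helper27.Chunk Cfsg.Agent.Lib.Helper27.CoGlue
open Cfsg.Agent.Lib.Helper27.Invol Cfsg.Agent.Lib.Helper27.SlpLib Cfsg.Agent.Lib.Helper27.CertBase
open Cfsg.Agent.Lib.Helper27.CzChk Cfsg.Agent.Lib.Helper27.OzDat0 Cfsg.Agent.Lib.Helper27.OzChk
open Cfsg.Agent.Lib.Helper27.McDat0

/-- the code of the first fixed vector -/
def ka : ℕ := 408

/-- the code of the second fixed vector -/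
def kb : ℕ := 48769

/-- the lanes of the points of the octad -/
def MASKO : ℕ := 0xffff00000000000000000000ffff00000000ffff00000000000000000000000000000000ffff0000ffffffffffffffff

/-- the lanes of the points outside the octad -/
def MASKD : ℕ := 0xffffffffffffffffffff0000ffffffff0000ffffffffffffffffffffffffffffffff0000ffff0000000000000000

/-- sixteen in each lane outside the octad -/
def C16D : ℕ := 0x100010001000100010000000100010000000100010001000100010001000100010000000100000000000000000

/-- the packed vector with the signs outside the octad changed -/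
def flipP (X : ℕ) : ℕ := Nat.add (Nat.land X MASKO) (Nat.sub C16D (Nat.land X MASKD))

/-- the condition: inner product 16 with the first fixed vector -/
def condsA : List (ℕ × ℕ × ℕ) := [(mvB ka, 16, 0)]

/-- a code is the first entry of a listed triple -/
noncomputable def memT (k : ℕ) : Bool := XT.any (fun t => Nat.beq t.1 k)

theorem memT_spec {k : ℕ} (h : memT k = true) : ∃ t ∈ XT, t.1 = k := by
  unfold memT at h
  rw [List.any_eq_true] at h
  obtain ⟨t, ht, e⟩ := h
  exact ⟨t, ht, Nat.eq_of_beq_eq_true e⟩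

/-- the test of code `k` in the search -/
noncomputable def scanRowX (k : ℕ) : Bool :=
  !(inOm condsA k) || (validB (mvB k) && validB (flipP (mvB k)) &&
    flipOK (mvB k) (flipP (mvB k)) && (!(condOK (mvB k) 0 0 (flipP (mvB k))) || memT k))

theorem condOK_of_dot {b X : ℕ} (tp tn : ℕ) (hb : validB b = true) (hX : validB X = true)
    (h : dotInt (vecB b) (vecB X) = (tp : ℤ) - tn) : condOK b tp tn X = true := by
  obtain ⟨hX1, hX2⟩ := validB_spec hX
  have h2 := (condOK_spec tp tn hb hX2).mpr h
  rw [← hX1] at h2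
  exact h2

/-- Every shortest vector with inner product 16 with the first fixed vector and orthogonal to
its image under the sign change has a listed code. -/
theorem x_code (hscan : allB KTOT scanRowX = true) (hcA : validConds condsA = true)
    (x : GolayPt → ℤ) (hx : x ∈ leechLattice) (hn : sqNorm x = 32)
    (hd : dotInt (vecB (mvB ka)) x = 16)
    (hs : dotInt x (signedPerm 1 CzStmt.Dset x) = 0) :
    ∃ t ∈ XT, x = vecB (mvB t.1) := by
  have hom : x ∈ Om condsA := by
    refine ⟨hx, hn, ?_⟩
    intro c hc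
    have hc' : c = (mvB ka, 16, 0) := by
      simpa [condsA] using hc
    subst hc'
    rw [hd]
    norm_num
  obtain ⟨k, hk, hin, rfl⟩ := om_code hcA hom
  have hv := (inOm_valid hin).1
  have e : vecB (mvB k) = vecL (laneRef k) := vecB_mv rfl hk hv
  have h := (allB_iff _ _).mp hscan k hk
  unfold scanRowX at h
  rw [hin] at h
  simp only [Bool.not_true, Bool.false_or, Bool.and_eq_true] at h
  obtain ⟨⟨⟨h1, h2⟩, h3⟩, h4⟩ := h
  have hf := flip_spec h3
  have hc : condOK (mvB k) 0 0 (flipP (mvB k)) = true := by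
    apply condOK_of_dot 0 0 h1 h2
    rw [← hf, e, hs]
    norm_num
  rw [hc] at h4
  simp only [Bool.not_true, Bool.false_or] at h4
  obtain ⟨t, ht, htk⟩ := memT_spec h4
  exact ⟨t, ht, by rw [htk, e]⟩

/-! ### The listed triples -/

/-- the sum of the two packed roots is the packed vector plus its image under the sign change -/
noncomputable def sumOK (X R1 R2 : ℕ) : Bool :=
  allB 24 (fun j => Nat.beq (Nat.add (lanesB R1 j) (lanesB R2 j))
    (cond (Nat.testBit CzStmt.DM j) 16 (Nat.mul 2 (lanesB X j))))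

theorem sum_spec {X R1 R2 : ℕ} (h : sumOK X R1 R2 = true) (q : GolayPt) :
    vecB R1 q + vecB R2 q = vecB X q + signedPerm 1 CzStmt.Dset (vecB X) q := by
  have hq := (allB_iff _ _).mp h (idx q) (idx_lt q)
  have e : lanesB R1 (idx q) + lanesB R2 (idx q)
      = cond (Nat.testBit CzStmt.DM (idx q)) 16 (2 * lanesB X (idx q)) :=
    Nat.eq_of_beq_eq_true hq
  show vecB R1 q + vecB R2 q = vecB X q + (if q ∈ CzStmt.Dset then -vecB X q else vecB X q)
  by_cases hm : q ∈ CzStmt.Dset
  · rw [if_pos hm]
    rw [CzStmt.mem_Dset, CzChk.idx_eq] at hm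
    rw [hm] at e
    simp only [cond_true] at e
    rw [vecB_apply, vecB_apply, vecB_apply]
    have e' := congrArg (Nat.cast : ℕ → ℤ) e
    push_cast at e'
    linarith
  · rw [if_neg hm]
    rw [CzStmt.mem_Dset, CzChk.idx_eq, Bool.not_eq_true] at hm
    rw [hm] at e
    simp only [cond_false] at e
    rw [vecB_apply, vecB_apply, vecB_apply]
    have e' := congrArg (Nat.cast : ℕ → ℤ) e
    push_cast at e'
    linarith

/-- the sum of the coordinates of two roots has the bits of `m` -/
noncomputable def maskOK (r1 r2 m : ℕ) : Bool :=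
  allB 8 (fun i => beqB (xor (b1 (bk8 ((i + 4) % 8)) r1) (b1 (bk8 ((i + 4) % 8)) r2))
    (Nat.testBit m i))

theorem mask_spec {r1 r2 m : ℕ} (h : maskOK r1 r2 m = true) {i : ℕ} (hi : i < 8) :
    xor (b1 (bk8 ((i + 4) % 8)) r1) (b1 (bk8 ((i + 4) % 8)) r2) = Nat.testBit m i :=
  (beqB_iff _ _).mp ((allB_iff _ _).mp h i hi)

/-- the codes of the fifteen non-zero vectors of the subspace, in the coordinates of the basis
roots -/
def WR : List ℕ := [6, 24, 30, 98, 100, 122, 124, 137, 143, 145, 151, 235, 237, 243, 245]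

/-- the test of a listed triple -/
noncomputable def tripOK (t : ℕ × ℕ × ℕ) : Bool :=
  memL RL8 t.2.1 && memL RL8 t.2.2 && sumOK (mvB t.1) (mvB t.2.1) (mvB t.2.2) &&
    WR.any (fun m => maskOK t.2.1 t.2.2 m)

theorem trip_spec (htr : XT.all tripOK = true) {t : ℕ × ℕ × ℕ} (ht : t ∈ XT) :
    t.2.1 ∈ RL8 ∧ t.2.2 ∈ RL8 ∧
      (∀ q, vecB (mvB t.2.1) q + vecB (mvB t.2.2) q
        = vecB (mvB t.1) q + signedPerm 1 CzStmt.Dset (vecB (mvB t.1)) q) ∧
      ∃ m ∈ WR, ∀ i < 8, xor (b1 (bk8 ((i + 4) % 8)) t.2.1) (b1 (bk8 ((i + 4) % 8)) t.2.2)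
        = Nat.testBit m i := by
  have h := List.all_eq_true.mp htr t ht
  unfold tripOK at h
  rw [Bool.and_eq_true, Bool.and_eq_true, Bool.and_eq_true] at h
  obtain ⟨⟨⟨h1, h2⟩, h3⟩, h4⟩ := h
  rw [List.any_eq_true] at h4
  obtain ⟨m, hm, h5⟩ := h4
  exact ⟨(memL_iff _ _).mp h1, (memL_iff _ _).mp h2, sum_spec h3, m, hm,
    fun i hi => mask_spec h5 hi⟩

/-- the test of one of the four chosen triples: it is listed, its vector has inner product 16
with the first fixed vector and is orthogonal to its image under the sign change, and the sum of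
the coordinates of its two roots has the bits of `m` -/
noncomputable def repOK (k m : ℕ) : Bool :=
  XT.any (fun u => Nat.beq u.1 (rep k).1 && Nat.beq u.2.1 (rep k).2.1 &&
      Nat.beq u.2.2 (rep k).2.2) &&
    Nat.blt (rep k).1 KTOT && inOm condsA (rep k).1 && validB (mvB (rep k).1) &&
    validB (flipP (mvB (rep k).1)) && flipOK (mvB (rep k).1) (flipP (mvB (rep k).1)) &&
    condOK (mvB (rep k).1) 0 0 (flipP (mvB (rep k).1)) && maskOK (rep k).2.1 (rep k).2.2 m

theorem rep_spec {k m : ℕ} (h : repOK k m = true) :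
    rep k ∈ XT ∧ (rep k).1 < KTOT ∧ validK (rep k).1 = true ∧
      dotInt (vecB (mvB ka)) (vecB (mvB (rep k).1)) = 16 ∧
      dotInt (vecB (mvB (rep k).1)) (signedPerm 1 CzStmt.Dset (vecB (mvB (rep k).1))) = 0 ∧
      ∀ i < 8, xor (b1 (bk8 ((i + 4) % 8)) (rep k).2.1) (b1 (bk8 ((i + 4) % 8)) (rep k).2.2)
        = Nat.testBit m i := by
  unfold repOK at h
  simp only [Bool.and_eq_true] at h
  obtain ⟨⟨⟨⟨⟨⟨⟨h1, h2⟩, h3⟩, h4⟩, h5⟩, h6⟩, h7⟩, h8⟩ := h
  have hk : (rep k).1 < KTOT := Nat.blt_eq.mp h2
  have hv := (inOm_valid h3).1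
  have hcA : validConds condsA = true := by decide +kernel
  have e : vecB (mvB (rep k).1) = vecL (laneRef (rep k).1) := vecB_mv rfl hk hv
  refine ⟨?_, hk, hv, ?_, ?_, fun i hi => mask_spec h8 hi⟩
  · rw [List.any_eq_true] at h1
    obtain ⟨u, hu, e1⟩ := h1
    simp only [Bool.and_eq_true] at e1
    obtain ⟨⟨e1, e2⟩, e3⟩ := e1
    have : u = rep k := by
      apply Prod.ext
      · exact Nat.eq_of_beq_eq_true e1
      · apply Prod.ext
        · exact Nat.eq_of_beq_eq_true e2
        · exact Nat.eq_of_beq_eq_true e3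
    rw [← this]
    exact hu
  · have hP := (condsOK_mv hcA hk hv).mp (inOm_valid h3).2
    have := hP (mvB ka, 16, 0) (by simp [condsA])
    rw [e, this]
    norm_num
  · rw [flip_spec h6, dot_vecB 0 0 h4 h5 h7]
    norm_num

/-! ### The square of an automorphism -/

/-- the second packed vector is the first with the signs on the octad changed -/
noncomputable def nflipOK (a b : ℕ) : Bool :=
  allB 24 (fun j => cond (Nat.testBit CzStmt.DM j) (Nat.beq (lanesB a j) (lanesB b j))
    (Nat.beq (Nat.add (lanesB a j) (lanesB b j)) 16))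

theorem nflip_spec {a b : ℕ} (h : nflipOK a b = true) :
    vecB b = -(signedPerm 1 CzStmt.Dset (vecB a)) := by
  funext q
  have hq := (allB_iff _ _).mp h (idx q) (idx_lt q)
  show vecB b q = -(if q ∈ CzStmt.Dset then -vecB a q else vecB a q)
  by_cases hm : q ∈ CzStmt.Dset
  · rw [if_pos hm]
    rw [CzStmt.mem_Dset, CzChk.idx_eq] at hm
    rw [hm] at hq
    have e : lanesB a (idx q) = lanesB b (idx q) := Nat.eq_of_beq_eq_true hq
    rw [vecB_apply, vecB_apply, e]
    ring
  · rw [if_neg hm]
    rw [CzStmt.mem_Dset, CzChk.idx_eq, Bool.not_eq_true] at hm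
    rw [hm] at hq
    have e : lanesB a (idx q) + lanesB b (idx q) = 16 := Nat.eq_of_beq_eq_true hq
    rw [vecB_apply, vecB_apply]
    have e' := congrArg (Nat.cast : ℕ → ℤ) e
    push_cast at e'
    linarith

/-- the test, on the 24 vectors of the certificate, that the square of the automorphism of a
packed matrix is the sign change on the octad -/
noncomputable def sqOK (N : ℕ × ℕ) : Bool :=
  allB 24 (fun i => validB (CertSpan2.rZ i) && validB (appY N.1 N.2 (spreadS (CertSpan2.rZ i)))
    && validB (appY N.1 N.2 (spreadS (appY N.1 N.2 (spreadS (CertSpan2.rZ i)))))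
    && appOK N.1 N.2 (spreadS (CertSpan2.rZ i)) (appY N.1 N.2 (spreadS (CertSpan2.rZ i)))
    && appOK N.1 N.2 (spreadS (appY N.1 N.2 (spreadS (CertSpan2.rZ i))))
      (appY N.1 N.2 (spreadS (appY N.1 N.2 (spreadS (CertSpan2.rZ i)))))
    && nflipOK (CertSpan2.rZ i) (appY N.1 N.2 (spreadS (appY N.1 N.2 (spreadS (CertSpan2.rZ i))))))

/-- the test that the automorphism of a packed matrix fixes the two fixed vectors -/
noncomputable def fixOK (N : ℕ × ℕ) : Bool :=
  validB (mvB ka) && appOK N.1 N.2 (spreadS (mvB ka)) (mvB ka) && validB (mvB kb) &&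
    appOK N.1 N.2 (spreadS (mvB kb)) (mvB kb)

end Cfsg.Agent.Lib.Helper27.McChk
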