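import Mathlib
import Cfsg.Prelude.Def_Sporadic_a
import Cfsg.Agent.Lib.Helper27.SlpLib
import Cfsg.Agent.Lib.Helper27.Chunk
import Cfsg.Agent.Lib.Helper27.CertBase
import Cfsg.Agent.Lib.Helper27.CzData
import Cfsg.Agent.Lib.Helper27.OzChk
import Cfsg.Agent.Lib.Helper27.McChk

/-!
The kernel tests for the centraliser of an involution of the McLaughlin group, run on the data:
the two packed matrices are automorphisms commuting with the sign change and fixing the two
fixed vectors, with the given matrices on the basis roots; the square of the first is the sign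
change on the octad; the list of the 480 vectors is complete and each listed triple passes its
test.
-/

set_option autoImplicit false
set_option maxRecDepth 1000000

namespace Cfsg.Agent.Lib.Helper27.McData

open Cfsg Cfsg.Agent.Lib.Helper27.Bits Cfsg.Agent.Lib.Helper27.Pk
open Cfsg.Agent.Lib.Helper27.MinTab Cfsg.Agent.Lib.Helper27.MinEnum Cfsg.Agent.Lib.Helper27.MinFast
open Cfsg.Agent.Lib.Helper27.MinAll Cfsg.Agent.Lib.Helper27.LDot Cfsg.Agent.Lib.Helper27.LMat
open Cfsg.Agent.Lib.Helper27.Spread Cfsg.Agent.Lib.Helper27.Co0Act Cfsg.Agent.Lib.Helper27.LApp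
open Cfsg.Agent.Lib.Helper27.OrbCert Cfsg.Agent.Lib.Helper27.Chunk Cfsg.Agent.Lib.Helper27.CoGlue
open Cfsg.Agent.Lib.Helper27.Invol Cfsg.Agent.Lib.Helper27.SlpLib Cfsg.Agent.Lib.Helper27.CertBase
open Cfsg.Agent.Lib.Helper27.CzDat0 Cfsg.Agent.Lib.Helper27.CzChk
open Cfsg.Agent.Lib.Helper27.OzDat0 Cfsg.Agent.Lib.Helper27.OzChk
open Cfsg.Agent.Lib.Helper27.McDat0 Cfsg.Agent.Lib.Helper27.McChk

theorem cY : matChk nY.1 nY.2 = true := by decide +kernel

theorem cPY : matChk nPY.1 nPY.2 = true := by decide +kernel

theorem paY : prodOK nY nT nPY = true := by decide +kernel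

theorem pbY : prodOK nT nY nPY = true := by decide +kernel

theorem goY : genOK8 nY imY 7012795147747203750 = true := by decide +kernel

theorem fixY : fixOK nY = true := by decide +kernel

theorem sqY : sqOK nY = true := by decide +kernel

theorem cW : matChk nW.1 nW.2 = true := by decide +kernel

theorem cPW : matChk nPW.1 nPW.2 = true := by decide +kernel

theorem paW : prodOK nW nT nPW = true := by decide +kernel

theorem pbW : prodOK nT nW nPW = true := by decide +kernel

theorem goW : genOK8 nW imW 3144667398722658642 = true := by decide +kernel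

theorem fixW : fixOK nW = true := by decide +kernel

theorem a_ok : dlRow ka = true := by decide +kernel

theorem b_ok : dlRow kb = true := by decide +kernel

theorem ab_ok : (validB (mvB ka) && validB (mvB kb) && condOK (mvB ka) 0 8 (mvB kb)) = true := by
  decide +kernel

theorem condsA_ok : validConds condsA = true := by decide +kernel

theorem rep_ok : (repOK 0 124 && repOK 1 245 && repOK 2 143 && repOK 3 145) = true := by
  decide +kernel

theorem trip_ok : XT.all tripOK = true := by decide +kernel

theorem scanX_ok : allB KTOT scanRowX = true := by decide +kernel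

end Cfsg.Agent.Lib.Helper27.McData
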