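import Mathlib
import Cfsg.Prelude.Def_Sporadic_a
import Cfsg.Agent.Lib.Helper27.SlpLib
import Cfsg.Agent.Lib.Helper27.Chunk
import Cfsg.Agent.Lib.Helper27.CertBase
import Cfsg.Agent.Lib.Helper27.CzData
import Cfsg.Agent.Lib.Helper27.OzChk

/-!
The kernel tests for the centraliser of an involution of the first Conway group, run on the
data: the list of root codes is complete, the pairs of roots pass their test, the fourth packed
matrix is an automorphism commuting with the sign change, the matrices of the four automorphisms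
on the basis roots are the four given ones, and the 241 listed codes are codes of shortest
vectors that vanish on the octad.
-/

set_option autoImplicit false
set_option maxRecDepth 1000000

namespace Cfsg.Agent.Lib.Helper27.OzData

open Cfsg Cfsg.Agent.Lib.Helper27.Bits Cfsg.Agent.Lib.Helper27.Pk
open Cfsg.Agent.Lib.Helper27.MinTab Cfsg.Agent.Lib.Helper27.MinEnum Cfsg.Agent.Lib.Helper27.MinFast
open Cfsg.Agent.Lib.Helper27.MinAll Cfsg.Agent.Lib.Helper27.LDot Cfsg.Agent.Lib.Helper27.LMat
open Cfsg.Agent.Lib.Helper27.Spread Cfsg.Agent.Lib.Helper27.Co0Act Cfsg.Agent.Lib.Helper27.LApp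
open Cfsg.Agent.Lib.Helper27.OrbCert Cfsg.Agent.Lib.Helper27.Chunk Cfsg.Agent.Lib.Helper27.CoGlue
open Cfsg.Agent.Lib.Helper27.Invol Cfsg.Agent.Lib.Helper27.SlpLib Cfsg.Agent.Lib.Helper27.CertBase
open Cfsg.Agent.Lib.Helper27.CzDat0 Cfsg.Agent.Lib.Helper27.CzChk
open Cfsg.Agent.Lib.Helper27.OzDat0 Cfsg.Agent.Lib.Helper27.OzChk

theorem rl8_ok : RL8.all rlRow8 = true := by decide +kernel

theorem bk8_ok : allB 8 (fun i => memL RL8 (bk8 i)) = true := by decide +kernel

theorem gram8_ok : allB 8 (fun i => allB 8 (fun j =>
    beqB (b1 (bk8 i) (bk8 j)) (Nat.beq (Nat.add i 4) j || Nat.beq (Nat.add j 4) i))) = true := by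
  decide +kernel

theorem e8_ok : List.all [0, 1, 2, 3, 5, 14, 17, 23] (fun i => memL RL8 (ea8 i) &&
    memL RL8 (eb8 i) && eOK i (mvB (ea8 i)) (mvB (eb8 i))) = true := by decide +kernel

theorem cH : matChk nH.1 nH.2 = true := by decide +kernel

theorem cPH : matChk nPH.1 nPH.2 = true := by decide +kernel

theorem paH : prodOK nH nT nPH = true := by decide +kernel

theorem pbH : prodOK nT nH nPH = true := by decide +kernel

theorem go8_0 : genOK8 nG0 im8_0 3174198372618650881 = true := by decide +kernel

theorem go8_1 : genOK8 nG3 im8_1 11628577697812569120 = true := by decide +kernel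

theorem go8_2 : genOK8 nG9 im8_2 14778282961528320850 = true := by decide +kernel

theorem go8_3 : genOK8 nH im8_3 5674973971324123491 = true := by decide +kernel

theorem dl_ok : allB 241 (fun i => dlRow (DL i)) = true := by decide +kernel

theorem dl_mono : allB 240 (fun i => Nat.blt (DL i) (DL (Nat.succ i))) = true := by decide +kernel

theorem pair8_ok : pairAll8 = true := by decide +kernel

theorem scan8_ok : allB KTOT scanRow8 = true := by decide +kernel

end Cfsg.Agent.Lib.Helper27.OzData
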