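import Mathlib
import Cfsg.Prelude.Def_Spor_Conway
import Cfsg.Prelude.Def_Transfer
import Cfsg.Prelude.Def_Classical
import Cfsg.Prelude.Def_Local
import Cfsg.Agent.Lib.Helper27.CzStmt
import Cfsg.Agent.S0398

/-!
Statements of the parts of the proof that the first Conway group has an involution whose
centraliser has generalized Fitting subgroup extraspecial of order `2 ^ 9`, with quotient the
commutator subgroup of the orthogonal group of plus type in dimension 8 over the field of two
elements, and a conjugate of the involution other than itself inside that subgroup.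

In the automorphism group of the lattice the involution is the sign change on the sixteen
coordinates outside an octad.  Its centraliser acts on the 240 shortest lattice vectors that
vanish outside the octad; modulo sign these are the 120 non-singular vectors of a quadratic
space of dimension 8.
-/

set_option autoImplicit false

namespace Cfsg.Agent.Lib.Helper27.OzStmt

open Cfsg Cfsg.Agent.Lib.Helper92.LeechCore Cfsg.Agent.Lib.Helper92.MinVec
open Cfsg.Agent.Lib.Helper92.MaxMono Cfsg.Agent.Lib.Helper92.NormalMono
open Cfsg.Agent.Lib.Helper7.GolayBase Cfsg.Agent.Lib.Helper7.GolayCode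
open Cfsg.Agent.Lib.Helper7.M24Main Cfsg.Agent.Lib.Helper26.OctadStab
open Cfsg.Agent.Lib.Helper27.CzStmt
open scoped Pointwise

/-- the index set of the space of dimension 8 -/
abbrev I8 : Type := Fin 4 ⊕ Fin 4

/-- vectors -/
abbrev V8 : Type := I8 → ZMod 2

/-- matrices -/
abbrev M8 : Type := Matrix I8 I8 (ZMod 2)

/-- the orthogonal group of plus type in dimension 8 over the field of two elements -/
abbrev O8 : Type := ↥(Cfsg.isometryGroup (ZMod 2) (Cfsg.quadFormPlus 4 (ZMod 2)))

/-- its commutator subgroup -/
abbrev Om8 : Subgroup O8 := Cfsg.Omega (ZMod 2) (Cfsg.quadFormPlus 4 (ZMod 2))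

/-- the number of an index -/
def enc8 : I8 → ℕ
  | Sum.inl a => a.val
  | Sum.inr a => 4 + a.val

/-- the matrix of a code: entry `(i, j)` is bit `8 * enc8 i + enc8 j` -/
def matOf (c : ℕ) : M8 :=
  Matrix.of fun i j => if c.testBit (8 * enc8 i + enc8 j) = true then 1 else 0

/-- the change of basis from the basis of roots to the standard basis of the form -/
def pmat : M8 := matOf 10903322633304995855

/-- its inverse -/
def pinv : M8 := matOf 17426779470398137196

/-- the quadratic form in the coordinates of a basis of eight roots -/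
def qr (c : V8) : ZMod 2 := ∑ i, c i + ∑ a : Fin 4, c (Sum.inl a) * c (Sum.inr a)

/-! ### The homomorphism to the orthogonal group (piece OHOM) -/

/-- A group acting on a set `R` with an invariant form `B` with values in the field of two
elements, for which eight elements of `R` behave like a symplectic basis of a space in which
all of `R` lies and every element of `R` is non-singular for the quadratic form `qr` in the
coordinates of that basis, maps to the orthogonal group; the matrix of the image of `g` is the
matrix of `g` on the basis conjugated by `pmat`. -/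
def OHom : Prop :=
  ∀ (C R : Type) [Group C] [MulAction C R] (B : R → R → ZMod 2) (b : I8 → R),
    (∀ (g : C) (x y : R), B (g • x) (g • y) = B x y) →
    (∀ i j, B (b i) (b j) = Matrix.J (Fin 4) (ZMod 2) i j) →
    (∀ x y, B x y = ∑ i, ∑ j, B (b i) x * Matrix.J (Fin 4) (ZMod 2) i j * B (b j) y) →
    (∀ x : R, qr (fun i => B (b i.swap) x) = 1) →
    ∃ φ : C →* O8,
      (∀ g, ((φ g : Matrix.GeneralLinearGroup I8 (ZMod 2)) : M8)
          = pmat * Matrix.of (fun i j => B (b i.swap) (g • b j)) * pinv) ∧
      (∀ g, φ g = 1 → ∀ x i, B (b i) (g • x) = B (b i) x) ∧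
      (∀ g, (∀ i j, B (b i) (g • b j) = B (b i) (b j)) → φ g = 1)

/-! ### Four matrices generating a large subgroup (piece GENO) -/

/-- codes of four matrices -/
def ocode (m : ℕ) : ℕ :=
  [2630356665462818213, 13234949884122226410, 152003771420498956, 5462707693881489642].getD m 0

/-- four matrices -/
def omat (m : ℕ) : M8 := matOf (ocode m)

/-- A subgroup of the orthogonal group containing the four matrices has at least `174182400`
elements. -/
def GenO : Prop :=
  ∀ H : Subgroup O8,
    (∀ m < 4, ∃ h ∈ H, ((h : Matrix.GeneralLinearGroup I8 (ZMod 2)) : M8) = omat m) →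
    174182400 ≤ Nat.card ↥H

/-! ### Facts about the orthogonal group (piece OFACTS) -/

/-- The orthogonal group has order `348364800`; its commutator subgroup has index two, is
simple and is not commutative. -/
def OFacts : Prop :=
  Nat.card O8 = 348364800 ∧ (Om8).index = 2 ∧ IsSimpleGroup ↥Om8 ∧
    ¬ (∀ a b : ↥Om8, a * b = b * a)

/-! ### The image and the kernel (pieces RANGE and KER) -/

/-- A homomorphism to the orthogonal group with large image, whose kernel is a 2-group of order
at least `2 ^ 10`, from a group of order not divisible by `2 ^ 23`: the image is the commutator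
subgroup and the kernel has order `2 ^ 10`. -/
def Range : Prop :=
  OFacts → ∀ (G : Type) [Group G] [Finite G] (φ : G →* O8),
    174182400 ≤ Nat.card ↥φ.range → IsPGroup 2 ↥φ.ker → 2 ^ 10 ≤ Nat.card ↥φ.ker →
    ¬ 2 ^ 23 ∣ Nat.card G → φ.range = Om8 ∧ Nat.card ↥φ.ker = 2 ^ 10

/-- The centraliser of `t` in a group `A` of order not divisible by `2 ^ 23`, with a homomorphism
to the orthogonal group with large image which kills a subgroup `K` of order `2 ^ 9` and a
central involution `n` outside `K`, and whose kernel has its squares in `K`: the image is the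
commutator subgroup and the kernel is `K ∪ n K`. -/
def Ker : Prop :=
  Range → OFacts → ∀ (A : Type) [Group A] [Finite A] (t n : A) (K : Subgroup A)
    (φ : ↥(Subgroup.centralizer ({t} : Set A)) →* O8),
    Nat.card ↥K = 2 ^ 9 → n ∉ K → n * n = 1 → (∀ x : A, n * x = x * n) →
    (∀ k ∈ K, k * t = t * k) →
    174182400 ≤ Nat.card ↥φ.range →
    (∀ g : ↥(Subgroup.centralizer ({t} : Set A)), φ g = 1 → (g : A) * (g : A) ∈ K) →
    (∀ g : ↥(Subgroup.centralizer ({t} : Set A)), (g : A) ∈ K → φ g = 1) →
    (∀ g : ↥(Subgroup.centralizer ({t} : Set A)), (g : A) = n → φ g = 1) →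
    ¬ 2 ^ 23 ∣ Nat.card A →
    φ.range = Om8 ∧
      ∀ g : ↥(Subgroup.centralizer ({t} : Set A)), φ g = 1 ↔ ((g : A) ∈ K ∨ n * (g : A) ∈ K)

/-! ### The passage to the quotient by the centre (pieces TQ, TISO, TWIT) -/

/-- The situation in a group `A` whose centre is `{1, n}`: an involution `t` not conjugate to
`n * t`, an extraspecial subgroup `K` of order `2 ^ 9` of the centraliser of `t`, normalised by
that centraliser, containing `t` and not `n`, and a homomorphism from the centraliser onto the
commutator subgroup of the orthogonal group with kernel `K ∪ n K`. -/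
structure Ctx (A : Type) [Group A] (t n : A) (K : Subgroup A)
    (φ : ↥(Subgroup.centralizer ({t} : Set A)) →* O8) : Prop where
  center : ∀ x : A, x ∈ Subgroup.center A ↔ x = 1 ∨ x = n
  n_ne : n ≠ 1
  t_sq : t * t = 1
  t_ne : t ≠ 1
  not_conj : ∀ g : A, g * t * g⁻¹ ≠ n * t
  xs : IsExtraspecial 2 ↥K
  card_K : Nat.card ↥K = 2 ^ 9
  t_mem : t ∈ K
  n_not_mem : n ∉ K
  K_comm : ∀ k ∈ K, k * t = t * k
  K_normal : ∀ g : A, g * t = t * g → ∀ k ∈ K, g * k * g⁻¹ ∈ K
  range : φ.range = Om8
  ker : ∀ g : ↥(Subgroup.centralizer ({t} : Set A)), φ g = 1 ↔ ((g : A) ∈ K ∨ n * (g : A) ∈ K)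

/-- the image of the involution in the quotient by the centre -/
def zbar (A : Type) [Group A] (t : A) : A ⧸ Subgroup.center A :=
  QuotientGroup.mk' (Subgroup.center A) t

/-- its centraliser -/
abbrev Cbar (A : Type) [Group A] (t : A) : Subgroup (A ⧸ Subgroup.center A) :=
  Subgroup.centralizer ({zbar A t} : Set (A ⧸ Subgroup.center A))

/-- the image of `K` in the centraliser -/
def Qbar (A : Type) [Group A] (t : A) (K : Subgroup A) : Subgroup ↥(Cbar A t) :=
  (K.map (QuotientGroup.mk' (Subgroup.center A))).subgroupOf (Cbar A t)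

/-- The image of the involution has order two; the image of `K` is a normal extraspecial
subgroup of order `2 ^ 9` of its centraliser. -/
def TQ : Prop :=
  ∀ (A : Type) [Group A] [Finite A] (t n : A) (K : Subgroup A)
    (φ : ↥(Subgroup.centralizer ({t} : Set A)) →* O8), Ctx A t n K φ →
    orderOf (zbar A t) = 2 ∧ (Qbar A t K).Normal ∧ IsExtraspecial 2 ↥(Qbar A t K) ∧
      Nat.card ↥(Qbar A t K) = 2 ^ 9

/-- The quotient of the centraliser by the image of `K` is the commutator subgroup of the
orthogonal group. -/
def TIso : Prop :=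
  ∀ (A : Type) [Group A] [Finite A] (t n : A) (K : Subgroup A)
    (φ : ↥(Subgroup.centralizer ({t} : Set A)) →* O8), Ctx A t n K φ →
    ∀ (_ : (Qbar A t K).Normal), Nonempty (↥(Cbar A t) ⧸ Qbar A t K ≃* ↥Om8)

/-- The two witnesses pass to the quotient: a commutator of an element of the centraliser with
an element of the image of `K` that is not central in the image of `K`, and a conjugate of the
involution inside the image of `K` other than the involution. -/
def TWit : Prop :=
  ∀ (A : Type) [Group A] [Finite A] (t n : A) (K : Subgroup A)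
    (φ : ↥(Subgroup.centralizer ({t} : Set A)) →* O8), Ctx A t n K φ →
    (∃ g : A, g * t = t * g ∧ ∃ k ∈ K, ∃ k' ∈ K,
      (g * k * g⁻¹ * k⁻¹) * k' ≠ k' * (g * k * g⁻¹ * k⁻¹)) →
    (∃ a : A, n * (a * t * a⁻¹) ∈ K ∧ a * t * a⁻¹ ≠ t) →
    (∃ g : ↥(Cbar A t), ∃ k ∈ Qbar A t K, ∃ k' ∈ Qbar A t K,
      (g * k * g⁻¹ * k⁻¹) * k' ≠ k' * (g * k * g⁻¹ * k⁻¹)) ∧
    (∃ g : A ⧸ Subgroup.center A,
      (∃ hq : g * zbar A t * g⁻¹ ∈ Cbar A t,
        (⟨g * zbar A t * g⁻¹, hq⟩ : ↥(Cbar A t)) ∈ Qbar A t K) ∧
      g * zbar A t * g⁻¹ ≠ zbar A t)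

/-! ### The generalized Fitting subgroup (piece FSTAR) -/

/-- A finite group with a normal extraspecial 2-subgroup `Q`, with quotient the commutator
subgroup of the orthogonal group, in which some commutator of an element of the group with an
element of `Q` is not central in `Q`, has generalized Fitting subgroup `Q`. -/
def FStar : Prop :=
  OFacts → ∀ (C : Type) [Group C] [Finite C] (Q : Subgroup C) [Q.Normal],
    IsExtraspecial 2 ↥Q → Nonempty (C ⧸ Q ≃* ↥Om8) →
    (∃ g : C, ∃ k ∈ Q, ∃ k' ∈ Q, (g * k * g⁻¹ * k⁻¹) * k' ≠ k' * (g * k * g⁻¹ * k⁻¹)) →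
    Cfsg.generalizedFittingSubgroup C = Q

/-! ### The two witnesses in the automorphism group of the lattice (pieces NONCEN, WCONJ) -/

/-- Some monomial automorphism commuting with the sign change has a commutator with an element
of the extraspecial group that is not central in it. -/
def NonCen : Prop :=
  K1Str → ∀ K : Subgroup ↥Co0,
    (∀ g : ↥Co0, g ∈ K ↔ ∃ σ, ∃ hσ : σ ∈ M24, ∃ c, ∃ hc : IsCW c,
        (∀ p ∈ Oset, σ p = p) ∧ c ⊆ Dset ∧ g = mono σ hσ c hc) →
    ∃ g : ↥Co0, g * eps Dset hD = eps Dset hD * g ∧ ∃ k ∈ K, ∃ k' ∈ K,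
      (g * k * g⁻¹ * k⁻¹) * k' ≠ k' * (g * k * g⁻¹ * k⁻¹)

/-- Some conjugate of the sign change, other than the sign change, is the negative of the sign
change on a code word inside the complement of the octad. -/
def WConj : Prop :=
  ∃ a : ↥Co0,
    (∃ c, ∃ hc : IsCW c, c ⊆ Dset ∧
      Cfsg.Agent.S0398.negC * (a * eps Dset hD * a⁻¹) = eps c hc) ∧
    a * eps Dset hD * a⁻¹ ≠ eps Dset hD

end Cfsg.Agent.Lib.Helper27.OzStmt
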