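import Mathlib
import Cfsg.Prelude.Def_Spor_Conway
import Cfsg.Prelude.Def_Transfer
import Cfsg.Prelude.Def_CaseTheorems
import Cfsg.Agent.Lib.Helper27.OzData
import Cfsg.Agent.Lib.Helper27.OzStmt
import Cfsg.Agent.Lib.Helper27.CzMain
import Cfsg.Agent.Lib.Helper27.SimpCo1
import Cfsg.Agent.S0397

/-!
The centraliser of an involution of the first Conway group: from the parts stated in `OzStmt`
(and two of `CzStmt`), its generalized Fitting subgroup is extraspecial of order `2 ^ 9`, the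
quotient is the commutator subgroup of the orthogonal group of plus type in dimension 8 over the
field of two elements, and a conjugate of the involution other than itself lies in the
extraspecial subgroup.

In the automorphism group of the lattice the involution is the sign change outside an octad.
Its centraliser permutes the 240 roots; the form modulo 2 on them gives the homomorphism to the
orthogonal group, four explicit automorphisms give a large image, and an element of the kernel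
maps each root to itself or its opposite, so its square is a monomial automorphism fixing the
octad pointwise.  The sign change is not conjugate to its negative, because the first fixes 240
shortest vectors and the second more.
-/

set_option autoImplicit false
set_option maxRecDepth 100000

namespace Cfsg.Agent.Lib.Helper27.OzMain

open Cfsg Cfsg.Agent.Lib.Helper27.Bits Cfsg.Agent.Lib.Helper27.Pk
open Cfsg.Agent.Lib.Helper27.MinTab Cfsg.Agent.Lib.Helper27.MinEnum Cfsg.Agent.Lib.Helper27.MinFast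
open Cfsg.Agent.Lib.Helper27.MinAll Cfsg.Agent.Lib.Helper27.LDot Cfsg.Agent.Lib.Helper27.LMat
open Cfsg.Agent.Lib.Helper27.Spread Cfsg.Agent.Lib.Helper27.Co0Act Cfsg.Agent.Lib.Helper27.LApp
open Cfsg.Agent.Lib.Helper27.OrbCert Cfsg.Agent.Lib.Helper27.Chunk Cfsg.Agent.Lib.Helper27.CoGlue
open Cfsg.Agent.Lib.Helper27.Invol Cfsg.Agent.Lib.Helper27.SlpLib Cfsg.Agent.Lib.Helper27.CertBase
open Cfsg.Agent.Lib.Helper27.CzDat0 Cfsg.Agent.Lib.Helper27.CzChk Cfsg.Agent.Lib.Helper27.CzData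
open Cfsg.Agent.Lib.Helper27.OzDat0 Cfsg.Agent.Lib.Helper27.OzChk Cfsg.Agent.Lib.Helper27.OzData
open Cfsg.Agent.Lib.Helper27.CzMain
open Cfsg.Agent.Lib.Helper92.MaxMono Cfsg.Agent.Lib.Helper92.NormalMono
open Cfsg.Agent.Lib.Helper92.MinVec
open MulAction
open scoped Pointwise

/-! ### Small facts about indices -/

theorem J_sum8 (u w : Fin 4 ⊕ Fin 4 → ZMod 2) :
    ∑ i, ∑ j, u i * Matrix.J (Fin 4) (ZMod 2) i j * w j =
      ((u (Sum.inl 0) * w (Sum.inr 0) + u (Sum.inr 0) * w (Sum.inl 0)) +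
        (u (Sum.inl 1) * w (Sum.inr 1) + u (Sum.inr 1) * w (Sum.inl 1))) +
      ((u (Sum.inl 2) * w (Sum.inr 2) + u (Sum.inr 2) * w (Sum.inl 2)) +
        (u (Sum.inl 3) * w (Sum.inr 3) + u (Sum.inr 3) * w (Sum.inl 3))) := by
  have hneg : (-1 : ZMod 2) = 1 := by decide
  simp only [Fintype.sum_sum_type, Fin.sum_univ_four, Matrix.J, Matrix.fromBlocks_apply₁₁,
    Matrix.fromBlocks_apply₁₂, Matrix.fromBlocks_apply₂₁, Matrix.fromBlocks_apply₂₂,
    Matrix.zero_apply, Matrix.neg_apply, Matrix.one_apply]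
  simp [hneg]
  ring

theorem J_gram8 (i j : Fin 4 ⊕ Fin 4) :
    zb (Nat.beq (Nat.add (OzStmt.enc8 i) 4) (OzStmt.enc8 j) ||
      Nat.beq (Nat.add (OzStmt.enc8 j) 4) (OzStmt.enc8 i)) = Matrix.J (Fin 4) (ZMod 2) i j := by
  have hneg : (-1 : ZMod 2) = 1 := by decide
  rcases i with a | a <;> rcases j with b | b <;> fin_cases a <;> fin_cases b <;>
    simp [Matrix.J, OzStmt.enc8, zb, hneg]

theorem qr_sum8 (c : Fin 4 ⊕ Fin 4 → ZMod 2) :
    OzStmt.qr c =
      (((c (Sum.inl 0) + c (Sum.inl 1)) + (c (Sum.inl 2) + c (Sum.inl 3))) +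
        ((c (Sum.inr 0) + c (Sum.inr 1)) + (c (Sum.inr 2) + c (Sum.inr 3)))) +
      ((c (Sum.inl 0) * c (Sum.inr 0) + c (Sum.inl 1) * c (Sum.inr 1)) +
        (c (Sum.inl 2) * c (Sum.inr 2) + c (Sum.inl 3) * c (Sum.inr 3))) := by
  unfold OzStmt.qr
  simp only [Fintype.sum_sum_type, Fin.sum_univ_four]
  ring

theorem enc8_surj : ∀ j < 8, ∃ i : Fin 4 ⊕ Fin 4, OzStmt.enc8 i = j := by decide

theorem enc8_swap (i : Fin 4 ⊕ Fin 4) : OzStmt.enc8 i.swap = (OzStmt.enc8 i + 4) % 8 := by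
  revert i
  decide

theorem enc8_lt (i : Fin 4 ⊕ Fin 4) : OzStmt.enc8 i < 8 := by
  revert i
  decide

/-! ### The centraliser -/

/-- the centraliser of the sign change in the automorphism group of the lattice -/
abbrev Gt : Type := ↥(Subgroup.centralizer ({t0} : Set ↥Co0))

theorem Gt_comm (g : Gt) : (g : Co0) * t0 = t0 * (g : Co0) :=
  (Subgroup.mem_centralizer_iff.mp g.2 t0 rfl).symm

/-- an automorphism commuting with the sign change, as an element of the centraliser -/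
def mkG (k : Co0) (hc : k * t0 = t0 * k) : Gt :=
  ⟨k, Subgroup.mem_centralizer_iff.mpr (by
    intro h hh
    rw [Set.mem_singleton_iff] at hh
    subst hh
    exact hc.symm)⟩

theorem mkG_val (k : Co0) (hc : k * t0 = t0 * k) : ((mkG k hc : Gt) : Co0) = k := rfl

/-! ### The roots -/

/-- An automorphism commuting with the sign change permutes the roots. -/
theorem isRt8_smul (g : Co0) (hc : g * t0 = t0 * g) (v : leechLattice)
    (hv : IsRt8 (v : GolayPt → ℤ)) : IsRt8 ((g • v : leechLattice) : GolayPt → ℤ) := by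
  refine ⟨?_, ?_⟩
  · rw [smul_norm]
    exact hv.1
  · apply supp_of_fix
    rw [← mul_smul, ← hc, mul_smul, t0_fix v hv.2]

/-- the roots -/
def Rt8 : Type := {v : leechLattice // IsRt8 (v : GolayPt → ℤ)}

noncomputable instance actRt8 : MulAction Gt Rt8 where
  smul g x := ⟨(g : Co0) • x.1, isRt8_smul (g : Co0) (Gt_comm g) x.1 x.2⟩
  one_smul x := Subtype.ext (by
    show ((1 : Gt) : Co0) • x.1 = x.1
    rw [Subgroup.coe_one, one_smul])
  mul_smul g h x := Subtype.ext (by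
    show ((g * h : Gt) : Co0) • x.1 = (g : Co0) • ((h : Co0) • x.1)
    rw [Subgroup.coe_mul, mul_smul])

theorem smul_val8 (g : Gt) (x : Rt8) : (g • x).1 = (g : Co0) • x.1 := rfl

/-- the form modulo 2 on the roots -/
noncomputable def BR8 (x y : Rt8) : ZMod 2 := Bf (x.1 : GolayPt → ℤ) (y.1 : GolayPt → ℤ)

theorem BR8_inv (g : Gt) (x y : Rt8) : BR8 (g • x) (g • y) = BR8 x y := by
  unfold BR8 Bf
  rw [smul_val8, smul_val8, smul_dot]

/-- the root of a listed code -/
noncomputable def rt8 (k : ℕ) (hk : k ∈ RL8) : Rt8 :=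
  ⟨⟨vecB (mvB k), (rl_spec8 rl8_ok hk).2.2.2.1⟩, (rl_spec8 rl8_ok hk).2.2.2.2⟩

theorem rt8_val (k : ℕ) (hk : k ∈ RL8) : ((rt8 k hk).1 : GolayPt → ℤ) = vecB (mvB k) := rfl

theorem rt8_surj (x : Rt8) : ∃ k, ∃ hk : k ∈ RL8, x = rt8 k hk := by
  obtain ⟨k, hk, e⟩ := root_code8 scan8_ok (x.1 : GolayPt → ℤ) x.1.2 x.2
  exact ⟨k, hk, Subtype.ext (Subtype.ext e)⟩

theorem BR8_rt (a b : ℕ) (ha : a ∈ RL8) (hb : b ∈ RL8) :
    BR8 (rt8 a ha) (rt8 b hb) = zb (b1 a b) :=
  Bf_spec (rl_spec8 rl8_ok ha).2.2.1 (rl_spec8 rl8_ok hb).2.2.1 (pair_spec8 pair8_ok ha hb).1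

theorem bk8_mem (i : ℕ) (hi : i < 8) : bk8 i ∈ RL8 :=
  (memL_iff _ _).mp ((allB_iff _ _).mp bk8_ok i hi)

/-- the basis roots -/
noncomputable def bR8 (i : Fin 4 ⊕ Fin 4) : Rt8 :=
  rt8 (bk8 (OzStmt.enc8 i)) (bk8_mem _ (enc8_lt i))

theorem BR8_bR (i : Fin 4 ⊕ Fin 4) (a : ℕ) (ha : a ∈ RL8) :
    BR8 (bR8 i) (rt8 a ha) = zb (b1 (bk8 (OzStmt.enc8 i)) a) := BR8_rt _ _ _ _

theorem hb8 : ∀ i j, BR8 (bR8 i) (bR8 j) = Matrix.J (Fin 4) (ZMod 2) i j := by
  intro i j
  unfold bR8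
  rw [BR8_rt, ← J_gram8]
  have h := (allB_iff _ _).mp ((allB_iff _ _).mp gram8_ok (OzStmt.enc8 i) (enc8_lt i))
    (OzStmt.enc8 j) (enc8_lt j)
  rw [(beqB_iff _ _).mp h]

theorem hcomp8 : ∀ x y : Rt8, BR8 x y
    = ∑ i, ∑ j, BR8 (bR8 i) x * Matrix.J (Fin 4) (ZMod 2) i j * BR8 (bR8 j) y := by
  intro x y
  obtain ⟨a, ha, rfl⟩ := rt8_surj x
  obtain ⟨c, hc, rfl⟩ := rt8_surj y
  rw [J_sum8 (fun i => BR8 (bR8 i) (rt8 a ha)) (fun j => BR8 (bR8 j) (rt8 c hc))]
  simp only [BR8_bR]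
  rw [BR8_rt, (pair_spec8 pair8_ok ha hc).2.1]
  unfold hcompV8
  simp only [zb_xor, zb_and]
  rfl

theorem hqr8 : ∀ x : Rt8, OzStmt.qr (fun i => BR8 (bR8 i.swap) x) = 1 := by
  intro x
  obtain ⟨a, ha, rfl⟩ := rt8_surj x
  rw [qr_sum8]
  simp only [Sum.swap_inl, Sum.swap_inr, BR8_bR]
  have h := qr_spec8 pair8_ok ha
  have h2 : zb (qrV a) = 1 := by
    rw [h]
    rfl
  unfold qrV at h2
  simp only [zb_xor, zb_and] at h2
  exact h2

/-- The form does not change when a root is replaced by its opposite. -/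
theorem Bf_neg_of (a b : ℕ) (ha : a ∈ RL8) (hb : b ∈ RL8) :
    Bf (vecB (mvB a)) (-vecB (mvB b)) = Bf (vecB (mvB a)) (vecB (mvB b)) := by
  have hd : dotInt (vecB (mvB a)) (-vecB (mvB b)) = -dotInt (vecB (mvB a)) (vecB (mvB b)) := by
    unfold dotInt
    simp [Finset.sum_neg_distrib]
  unfold Bf
  rw [hd]
  have h := (pair_spec8 pair8_ok ha hb).1
  have va := (rl_spec8 rl8_ok ha).2.2.1
  have vb := (rl_spec8 rl8_ok hb).2.2.1
  unfold b1 b0 at h
  simp only [Bool.or_eq_true] at h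
  rcases h with (h | h) | ((h | h) | h)
  · rw [dot_vecB 16 0 va vb h]
    decide
  · rw [dot_vecB 0 16 va vb h]
    decide
  · rw [dot_vecB 0 0 va vb h]
    decide
  · rw [dot_vecB 32 0 va vb h]
    decide
  · rw [dot_vecB 0 32 va vb h]
    decide

/-! ### The four automorphisms -/

/-- An automorphism passing the tests is an element of the centraliser whose matrix on the basis
roots has the given code. -/
theorem gen_img8 {N : ℕ × ℕ} (cN : matChk N.1 N.2 = true) {P : ℕ × ℕ}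
    (cP : matChk P.1 P.2 = true) (pa : prodOK N nT P = true) (pb : prodOK nT N P = true)
    (G : ℕ → ℕ) (gc : ℕ) (go : genOK8 N G gc = true) :
    ∃ g : Gt, ∀ i j : Fin 4 ⊕ Fin 4, BR8 (bR8 i.swap) (g • bR8 j)
      = if Nat.testBit gc (8 * OzStmt.enc8 i + OzStmt.enc8 j) = true then 1 else 0 := by
  have hc : elt N cN * t0 = t0 * elt N cN := by
    rw [t0_eq]
    exact (elt_mul cN cT cP pa).trans (elt_mul cT cN cP pb).symm
  refine ⟨mkG (elt N cN) hc, fun i j => ?_⟩
  obtain ⟨hG, happ, hbit⟩ := gen_spec8 go (enc8_lt i) (enc8_lt j)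
  have e : mkG (elt N cN) hc • bR8 j = rt8 (G (OzStmt.enc8 j)) hG := by
    apply Subtype.ext
    apply Subtype.ext
    rw [smul_val8, mkG_val]
    exact elt_app cN (rl_spec8 rl8_ok (bk8_mem _ (enc8_lt j))).2.2.1 (rl_spec8 rl8_ok hG).2.2.1
      happ (bR8 j).1 rfl
  rw [e, BR8_bR, enc8_swap, hbit]
  rfl

theorem om0 : OzStmt.pmat * OzStmt.matOf (rcode 0) * OzStmt.pinv = OzStmt.omat 0 := by
  decide +kernel

theorem om1 : OzStmt.pmat * OzStmt.matOf (rcode 1) * OzStmt.pinv = OzStmt.omat 1 := by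
  decide +kernel

theorem om2 : OzStmt.pmat * OzStmt.matOf (rcode 2) * OzStmt.pinv = OzStmt.omat 2 := by
  decide +kernel

theorem om3 : OzStmt.pmat * OzStmt.matOf (rcode 3) * OzStmt.pinv = OzStmt.omat 3 := by
  decide +kernel

/-! ### The kernel -/

/-- An automorphism fixing every root fixes eight times each coordinate vector of the octad. -/
theorem elat_fix_all8 (h : Co0)
    (hr : ∀ v : leechLattice, IsRt8 (v : GolayPt → ℤ) → h • v = v) (p : GolayPt)
    (hp : p ∈ CzStmt.Oset) : h • Cfsg.Agent.S5546.elat p = Cfsg.Agent.S5546.elat p := by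
  have hrt : ∀ k (hk : k ∈ RL8), h • (rt8 k hk).1 = (rt8 k hk).1 := fun k hk => hr _ (rt8 k hk).2
  rw [CzStmt.mem_Oset, CzChk.idx_eq] at hp
  have hcase := O_list (idx p) (idx_lt p) hp
  have hpp := pt_idx p
  have all : ∀ i ∈ [0, 1, 2, 3, 5, 14, 17, 23], i < 24 →
      h • Cfsg.Agent.S5546.elat (pt i) = Cfsg.Agent.S5546.elat (pt i) := by
    intro i hi hi24
    have h1 := List.all_eq_true.mp e8_ok i hi
    rw [Bool.and_eq_true, Bool.and_eq_true] at h1
    obtain ⟨⟨ha, hb⟩, hok⟩ := h1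
    exact elat_fix h hi24 (rt8 (ea8 i) ((memL_iff _ _).mp ha)).1
      (rt8 (eb8 i) ((memL_iff _ _).mp hb)).1 rfl rfl (hrt _ _) (hrt _ _) hok
  rw [← hpp]
  rcases hcase with e | e | e | e | e | e | e | e <;> rw [e]
  · exact all 23 (by simp) (by norm_num)
  · exact all 0 (by simp) (by norm_num)
  · exact all 1 (by simp) (by norm_num)
  · exact all 2 (by simp) (by norm_num)
  · exact all 3 (by simp) (by norm_num)
  · exact all 5 (by simp) (by norm_num)
  · exact all 14 (by simp) (by norm_num)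
  · exact all 17 (by simp) (by norm_num)

/-- Eight times a coordinate vector of the octad vanishes outside the octad. -/
theorem elat_D (p : GolayPt) (hp : p ∈ CzStmt.Oset) :
    ∀ q ∈ CzStmt.Dset, ((Cfsg.Agent.S5546.elat p : leechLattice) : GolayPt → ℤ) q = 0 := by
  intro q hq
  show Cfsg.Agent.S5546.evec p q = 0
  unfold Cfsg.Agent.S5546.evec
  rw [if_neg]
  intro e
  rw [e] at hq
  exact D_not_O p hq hp

/-! ### The sign change is not conjugate to its negative -/

theorem DL_spec (i : ℕ) (hi : i < 241) :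
    DL i < KTOT ∧ validK (DL i) = true ∧ vecL (laneRef (DL i)) ∈ leechLattice ∧
      sqNorm (vecL (laneRef (DL i))) = 32 ∧ ∀ p ∈ CzStmt.Oset, vecL (laneRef (DL i)) p = 0 :=
  dl_spec ((allB_iff _ _).mp dl_ok i hi)

theorem DL_lt {a b : ℕ} (hb : b < 241) (hab : a < b) : DL a < DL b := by
  have hstep : ∀ s, s + 1 < 241 → DL s < DL (s + 1) := by
    intro s hs
    exact Nat.blt_eq.mp ((allB_iff _ _).mp dl_mono s (by omega))
  exact lt_of_step hstep b hb a hab

/-- the listed shortest vectors that vanish on the octad -/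
noncomputable def dv (i : Fin 241) : leechLattice :=
  ⟨vecL (laneRef (DL i.val)), (DL_spec i.val i.isLt).2.2.1⟩

theorem dv_inj : Function.Injective dv := by
  intro i j h
  have h1 : vecL (laneRef (DL i.val)) = vecL (laneRef (DL j.val)) := congrArg Subtype.val h
  have h2 := mv_inj (DL_spec i.val i.isLt).1 (DL_spec i.val i.isLt).2.1
    (DL_spec j.val j.isLt).1 (DL_spec j.val j.isLt).2.1 h1
  apply Fin.ext
  rcases Nat.lt_trichotomy i.val j.val with h3 | h3 | h3
  · exact absurd h2 (Nat.ne_of_lt (DL_lt j.isLt h3))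
  · exact h3
  · exact absurd h2.symm (Nat.ne_of_lt (DL_lt i.isLt h3))

theorem RL8_card : RL8.toFinset.card ≤ 240 := by
  refine le_trans (List.toFinset_card_le _) ?_
  decide

/-- The sign change is not conjugate to its negative. -/
theorem not_conj (g : Co0) : g * t0 * g⁻¹ ≠ Cfsg.Agent.S0398.negC * t0 := by
  intro h
  have hcomm : t0 * g = Cfsg.Agent.S0398.negC * (g * t0) := by
    have h1 : g * t0 = Cfsg.Agent.S0398.negC * t0 * g := by
      rw [← h]
      group
    have hc := Subgroup.mem_center_iff.mp Cfsg.Agent.S0398.negC_central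
    have hnn : Cfsg.Agent.S0398.negC * Cfsg.Agent.S0398.negC = 1 := by
      apply Subtype.ext
      apply Equiv.ext
      intro x
      show Cfsg.Agent.S0398.negC • (Cfsg.Agent.S0398.negC • x) = x
      rw [SimpCo1.negC_smul, SimpCo1.negC_smul, neg_neg]
    rw [h1, ← mul_assoc, ← mul_assoc, hnn, one_mul]
  -- the images of the listed vectors are roots
  have hroot : ∀ i : Fin 241, IsRt8 ((g • dv i : leechLattice) : GolayPt → ℤ) := by
    intro i
    refine ⟨?_, ?_⟩
    · rw [smul_norm]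
      exact (DL_spec i.val i.isLt).2.2.2.1
    · apply supp_of_fix
      have hneg : t0 • dv i = -dv i := by
        apply Subtype.ext
        rw [t0_val, AddSubgroup.coe_neg]
        funext q
        show (if q ∈ CzStmt.Dset then -(dv i : GolayPt → ℤ) q else (dv i : GolayPt → ℤ) q)
          = -(dv i : GolayPt → ℤ) q
        by_cases hq : q ∈ CzStmt.Dset
        · rw [if_pos hq]
        · rw [if_neg hq]
          have hO : q ∈ CzStmt.Oset := by
            by_contra hO
            exact hq (O_or_D q hO)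
          have h0 : (dv i : GolayPt → ℤ) q = 0 := (DL_spec i.val i.isLt).2.2.2.2 q hO
          rw [h0]
          rfl
      rw [← mul_smul, hcomm, mul_smul, mul_smul, hneg, smul_neg_l, SimpCo1.negC_smul, neg_neg]
  choose f hf using fun i : Fin 241 => rt8_surj ⟨g • dv i, hroot i⟩
  choose hfm hfe using hf
  have hinj : Function.Injective f := by
    intro i j hij
    apply dv_inj
    have e1 : g • dv i = (rt8 (f i) (hfm i)).1 := congrArg Subtype.val (hfe i)
    have e2 : g • dv j = (rt8 (f j) (hfm j)).1 := congrArg Subtype.val (hfe j)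
    have e3 : g • dv i = g • dv j := by
      rw [e1, e2]
      apply Subtype.ext
      show vecB (mvB (f i)) = vecB (mvB (f j))
      rw [hij]
    exact MulAction.injective g e3
  have hcard : (Finset.univ : Finset (Fin 241)).card ≤ RL8.toFinset.card := by
    apply Finset.card_le_card_of_injOn f
    · intro i _
      exact List.mem_toFinset.mpr (hfm i)
    · intro i _ j _ hij
      exact hinj hij
  rw [Finset.card_univ, Fintype.card_fin] at hcard
  have := RL8_card
  omega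

/-! ### The theorem -/

theorem main (hOH : OzStmt.OHom) (hGen : OzStmt.GenO) (hF : OzStmt.OFacts)
    (hRange : OzStmt.Range) (hKer : OzStmt.Ker) (hTQ : OzStmt.TQ) (hTIso : OzStmt.TIso)
    (hTWit : OzStmt.TWit) (hFS : OzStmt.FStar) (hNC : OzStmt.NonCen) (hWC : OzStmt.WConj)
    (hStr : CzStmt.K1Str) (hXS : CzStmt.K1XS) :
    ∃ z : Cfsg.Spor.Co1, orderOf z = 2 ∧
      ∃ (Q : Subgroup (Subgroup.centralizer ({z} : Set Cfsg.Spor.Co1))) (_ : Q.Normal),
        Cfsg.generalizedFittingSubgroup (Subgroup.centralizer ({z} : Set Cfsg.Spor.Co1)) = Q ∧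
        Cfsg.IsExtraspecial 2 Q ∧ Nat.card Q = 2 ^ 9 ∧
        Nonempty ((Subgroup.centralizer ({z} : Set Cfsg.Spor.Co1)) ⧸ Q ≃*
          Cfsg.Omega (ZMod 2) (Cfsg.quadFormPlus 4 (ZMod 2))) ∧
        ∃ g : Cfsg.Spor.Co1,
          (∃ hq : g * z * g⁻¹ ∈ Subgroup.centralizer ({z} : Set Cfsg.Spor.Co1),
            (⟨g * z * g⁻¹, hq⟩ : Subgroup.centralizer ({z} : Set Cfsg.Spor.Co1)) ∈ Q) ∧
          g * z * g⁻¹ ≠ z := by
  obtain ⟨K, hK, hKcard, hKx⟩ := hXS hStr
  obtain ⟨φ, hφ1, hφ2, hφ3⟩ := hOH Gt Rt8 BR8 bR8 BR8_inv hb8 hcomp8 hqr8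
  -- a large image
  have hlarge : 174182400 ≤ Nat.card ↥φ.range := by
    apply hGen
    intro m hm
    have key : ∀ (gc : ℕ), (∃ g : Gt, ∀ i j : Fin 4 ⊕ Fin 4, BR8 (bR8 i.swap) (g • bR8 j)
        = if Nat.testBit gc (8 * OzStmt.enc8 i + OzStmt.enc8 j) = true then 1 else 0) →
        OzStmt.pmat * OzStmt.matOf gc * OzStmt.pinv = OzStmt.omat m → ∃ h ∈ φ.range,
          ((h : Matrix.GeneralLinearGroup (Fin 4 ⊕ Fin 4) (ZMod 2)) :
            Matrix (Fin 4 ⊕ Fin 4) (Fin 4 ⊕ Fin 4) (ZMod 2)) = OzStmt.omat m := by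
      rintro gc ⟨g, hg⟩ hgc
      refine ⟨φ g, ⟨g, rfl⟩, ?_⟩
      rw [hφ1, ← hgc]
      have e : (Matrix.of fun i j => BR8 (bR8 i.swap) (g • bR8 j)) = OzStmt.matOf gc := by
        ext i j
        rw [Matrix.of_apply, hg]
        rfl
      rw [e]
    interval_cases m
    · exact key _ (gen_img8 cG0 cP0 pa0 pb0 im8_0 _ go8_0) om0
    · exact key _ (gen_img8 cG3 cP3 pa3 pb3 im8_1 _ go8_1) om1
    · exact key _ (gen_img8 cG9 cP9 pa9 pb9 im8_2 _ go8_2) om2
    · exact key _ (gen_img8 cH cPH paH pbH im8_3 _ go8_3) om3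
  -- the kernel: squares lie in K
  have hsq : ∀ g : Gt, φ g = 1 → (g : Co0) * (g : Co0) ∈ K := by
    intro g hg
    have hpm : ∀ x : Rt8, (g • x).1 = x.1 ∨ (g • x).1 = -x.1 := by
      intro x
      obtain ⟨a, ha, rfl⟩ := rt8_surj x
      obtain ⟨c, hc, e⟩ := rt8_surj (g • rt8 a ha)
      have hval : ∀ j < 8, b1 (bk8 j) c = b1 (bk8 j) a := by
        intro j hj
        obtain ⟨i, rfl⟩ := enc8_surj j hj
        have h1 := hφ2 g hg (rt8 a ha) i
        rw [e, BR8_bR, BR8_bR] at h1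
        exact zb_inj h1
      rw [e]
      rcases (pair_spec8 pair8_ok hc ha).2.2 hval with h1 | h1
      · left
        subst h1
        rfl
      · right
        apply Subtype.ext
        rw [AddSubgroup.coe_neg]
        exact h1
    have hroot : ∀ v : leechLattice, IsRt8 (v : GolayPt → ℤ) →
        ((g : Co0) * (g : Co0)) • v = v := by
      intro v hv
      rw [mul_smul]
      rcases hpm ⟨v, hv⟩ with h1 | h1
      · have h2 : (g : Co0) • v = v := h1
        rw [h2, h2]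
      · have h2 : (g : Co0) • v = -v := h1
        rw [h2, smul_neg_l, h2, neg_neg]
    rw [hK]
    exact mono_of_fix _ (elat_fix_all8 _ hroot)
  -- K commutes with the sign change and lies in the kernel
  have hKcomm : ∀ k ∈ K, k * t0 = t0 * k := by
    intro k hk
    obtain ⟨σ, hσ, c, hc, hfix, hsub, rfl⟩ := (hK k).mp hk
    exact mono_comm hσ hc hfix
  have hin : ∀ g : Gt, (g : Co0) ∈ K → φ g = 1 := by
    intro g hg
    obtain ⟨σ, hσ, c, hc, hfix, hsub, e⟩ := (hK (g : Co0)).mp hg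
    apply hφ3
    intro i j
    have e2 : g • bR8 j = bR8 j := by
      apply Subtype.ext
      rw [smul_val8, e]
      exact mono_fix hσ hc hfix hsub _ (bR8 j).2.2
    rw [e2]
  -- the central involution
  have hnegφ : ∀ g : Gt, (g : Co0) = Cfsg.Agent.S0398.negC → φ g = 1 := by
    intro g hg
    apply hφ3
    intro i j
    have e : (g • bR8 j).1 = -(bR8 j).1 := by
      rw [smul_val8, hg]
      exact SimpCo1.negC_smul _
    show Bf ((bR8 i).1 : GolayPt → ℤ) (((g • bR8 j).1 : leechLattice) : GolayPt → ℤ)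
      = Bf ((bR8 i).1 : GolayPt → ℤ) ((bR8 j).1 : GolayPt → ℤ)
    rw [e, AddSubgroup.coe_neg]
    exact Bf_neg_of _ _ (bk8_mem _ (enc8_lt i)) (bk8_mem _ (enc8_lt j))
  have hcen := Subgroup.mem_center_iff.mp Cfsg.Agent.S0398.negC_central
  have hnn : Cfsg.Agent.S0398.negC * Cfsg.Agent.S0398.negC = 1 := by
    apply Subtype.ext
    apply Equiv.ext
    intro x
    show Cfsg.Agent.S0398.negC • (Cfsg.Agent.S0398.negC • x) = x
    rw [SimpCo1.negC_smul, SimpCo1.negC_smul, neg_neg]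
  have hnK : Cfsg.Agent.S0398.negC ∉ K := by
    intro hmem
    obtain ⟨σ, hσ, c, hc, hfix, hsub, e⟩ := (hK _).mp hmem
    have h1 := mono_fix hσ hc hfix hsub Cfsg.Spor.leechU D_U
    rw [← e, SimpCo1.negC_smul] at h1
    have h2 := congrFun (congrArg Subtype.val h1) none
    rw [AddSubgroup.coe_neg, Pi.neg_apply] at h2
    have h3 : (Cfsg.Spor.leechU : GolayPt → ℤ) none = 4 := by
      show Cfsg.Spor.vecU none = 4
      decide
    rw [h3] at h2
    omega
  have h23 : ¬ 2 ^ 23 ∣ Nat.card ↥Co0 := by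
    rw [Cfsg.Agent.S0397.result]
    norm_num
  obtain ⟨hrange, hker⟩ := hKer hRange hF ↥Co0 t0 Cfsg.Agent.S0398.negC K φ hKcard hnK hnn
    (fun x => (hcen x).symm) hKcomm hlarge hsq hin hnegφ h23
  -- the situation
  have ht0K : t0 ∈ K := by
    rw [hK]
    refine ⟨1, Subgroup.one_mem _, CzStmt.Dset, CzStmt.hD, fun p _ => rfl, subset_rfl, rfl⟩
  have hKnorm : ∀ g : ↥Co0, g * t0 = t0 * g → ∀ k ∈ K, g * k * g⁻¹ ∈ K := by
    intro g hg k hk
    obtain ⟨σ, hσ, c, hc, hfix, hsub, rfl⟩ := (hK k).mp hk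
    rw [hK]
    apply mono_of_fix
    intro p hp
    have hginv : g⁻¹ * t0 = t0 * g⁻¹ := by
      have : g⁻¹ * (g * t0) * g⁻¹ = g⁻¹ * (t0 * g) * g⁻¹ := by rw [hg]
      simpa [mul_assoc] using this.symm
    have h1 : ∀ q ∈ CzStmt.Dset,
        ((g⁻¹ • Cfsg.Agent.S5546.elat p : leechLattice) : GolayPt → ℤ) q = 0 := by
      apply supp_of_fix
      rw [← mul_smul, ← hginv, mul_smul, t0_fix _ (elat_D p hp)]
    rw [mul_smul, mul_smul, mono_fix hσ hc hfix hsub _ h1, ← mul_smul, mul_inv_cancel, one_smul]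
  have ctx : OzStmt.Ctx ↥Co0 t0 Cfsg.Agent.S0398.negC K φ :=
    { center := fun x => ⟨SimpCo1.center_cases x, fun h => by
        rcases h with rfl | rfl
        · exact Subgroup.one_mem _
        · exact Cfsg.Agent.S0398.negC_central⟩
      n_ne := fun h => Cfsg.Agent.S0398.negC_ne_one h.symm
      t_sq := t0_sq
      t_ne := t0_ne
      not_conj := not_conj
      xs := hKx
      card_K := hKcard
      t_mem := ht0K
      n_not_mem := hnK
      K_comm := hKcomm
      K_normal := hKnorm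
      range := hrange
      ker := hker }
  -- the witnesses
  have hnc := hNC hStr K hK
  have hwc : ∃ a : ↥Co0, Cfsg.Agent.S0398.negC * (a * t0 * a⁻¹) ∈ K ∧ a * t0 * a⁻¹ ≠ t0 := by
    obtain ⟨a, ⟨c, hc, hsub, e⟩, hne⟩ := hWC
    refine ⟨a, ?_, hne⟩
    have e' : Cfsg.Agent.S0398.negC * (a * t0 * a⁻¹) = eps c hc := e
    rw [e', hK]
    exact ⟨1, Subgroup.one_mem _, c, hc, fun p _ => rfl, hsub, rfl⟩
  obtain ⟨hz, hQn, hQx, hQc⟩ := hTQ ↥Co0 t0 Cfsg.Agent.S0398.negC K φ ctx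
  obtain ⟨hw1, hw2⟩ := hTWit ↥Co0 t0 Cfsg.Agent.S0398.negC K φ ctx hnc hwc
  have hiso := hTIso ↥Co0 t0 Cfsg.Agent.S0398.negC K φ ctx hQn
  have hfs := hFS hF ↥(OzStmt.Cbar ↥Co0 t0) (OzStmt.Qbar ↥Co0 t0 K) hQx hiso hw1
  exact ⟨OzStmt.zbar ↥Co0 t0, hz, OzStmt.Qbar ↥Co0 t0 K, hQn, hfs, hQx, hQc, hiso, hw2⟩

end Cfsg.Agent.Lib.Helper27.OzMain
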