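import Mathlib
import Cfsg.Prelude.Def_Spor_Conway
import Cfsg.Prelude.Def_SporadicB
import Cfsg.Agent.Lib.Helper27.OzMain
import Cfsg.Agent.Lib.Helper27.McData
import Cfsg.Agent.Lib.Helper27.McStmt
import Cfsg.Agent.S0404

/-!
The centraliser of an involution of the McLaughlin group: from the parts stated in `McStmt` (and
those of `OzStmt` and `CzStmt`), the joint stabiliser of two shortest lattice vectors with inner
product `-8` that vanish on an octad has an involution, the sign change on the octad, whose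
centraliser is a non-split double cover of the alternating group of degree 8.

The centraliser of the sign change in the automorphism group of the lattice maps to the
orthogonal group of plus type in dimension 8 by its action on the 240 roots modulo 2, with a
kernel of order `2 ^ 10`.  The shortest vectors with inner product 16 with the first fixed
vector that are orthogonal to their image under the sign change give, by their parts on the
octad, the fifteen non-zero vectors of a totally singular subspace of dimension 4, which is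
therefore stabilised by the centraliser of the sign change in the stabiliser.
-/

set_option autoImplicit false
set_option maxRecDepth 100000

namespace Cfsg.Agent.Lib.Helper27.McMain

open Cfsg Cfsg.Agent.Lib.Helper27.Bits Cfsg.Agent.Lib.Helper27.Pk
open Cfsg.Agent.Lib.Helper27.MinTab Cfsg.Agent.Lib.Helper27.MinEnum Cfsg.Agent.Lib.Helper27.MinFast
open Cfsg.Agent.Lib.Helper27.MinAll Cfsg.Agent.Lib.Helper27.LDot Cfsg.Agent.Lib.Helper27.LMat
open Cfsg.Agent.Lib.Helper27.Spread Cfsg.Agent.Lib.Helper27.Co0Act Cfsg.Agent.Lib.Helper27.LApp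
open Cfsg.Agent.Lib.Helper27.OrbCert Cfsg.Agent.Lib.Helper27.Chunk Cfsg.Agent.Lib.Helper27.CoGlue
open Cfsg.Agent.Lib.Helper27.Invol Cfsg.Agent.Lib.Helper27.SlpLib Cfsg.Agent.Lib.Helper27.CertBase
open Cfsg.Agent.Lib.Helper27.CzDat0 Cfsg.Agent.Lib.Helper27.CzChk Cfsg.Agent.Lib.Helper27.CzData
open Cfsg.Agent.Lib.Helper27.OzDat0 Cfsg.Agent.Lib.Helper27.OzChk Cfsg.Agent.Lib.Helper27.OzData
open Cfsg.Agent.Lib.Helper27.CzMain Cfsg.Agent.Lib.Helper27.OzMain
open Cfsg.Agent.Lib.Helper27.McDat0 Cfsg.Agent.Lib.Helper27.McChk Cfsg.Agent.Lib.Helper27.McData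
open Cfsg.Agent.Lib.Helper92.MaxMono Cfsg.Agent.Lib.Helper92.NormalMono
open Cfsg.Agent.Lib.Helper92.MinVec
open MulAction
open scoped Pointwise Matrix

/-! ### The homomorphism to the orthogonal group -/

/-- The centraliser of the sign change maps to the orthogonal group, the matrix of the image of
`g` being the matrix of `g` on the basis roots conjugated by `pmat`, with kernel the union of a
subgroup `K` of order `2 ^ 9` and its product with the central involution. -/
theorem phi_exists (hOH : OzStmt.OHom) (hGen : OzStmt.GenO) (hF : OzStmt.OFacts)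
    (hRange : OzStmt.Range) (hKer : OzStmt.Ker) (hStr : CzStmt.K1Str) (hXS : CzStmt.K1XS) :
    ∃ (K : Subgroup ↥Co0) (φ : Gt →* OzStmt.O8), Nat.card ↥K = 2 ^ 9 ∧
      (∀ g : Gt, ((φ g : Matrix.GeneralLinearGroup OzStmt.I8 (ZMod 2)) : OzStmt.M8)
          = OzStmt.pmat * Matrix.of (fun i j => BR8 (bR8 i.swap) (g • bR8 j)) * OzStmt.pinv) ∧
      (∀ g : Gt, φ g = 1 ↔
        ((g : Co0) ∈ K ∨ Cfsg.Agent.S0398.negC * (g : Co0) ∈ K)) := by
  obtain ⟨K, hK, hKcard, hKx⟩ := hXS hStr
  obtain ⟨φ, hφ1, hφ2, hφ3⟩ := hOH Gt Rt8 BR8 bR8 BR8_inv hb8 hcomp8 hqr8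
  -- a large image
  have hlarge : 174182400 ≤ Nat.card ↥φ.range := by
    apply hGen
    intro m hm
    have key : ∀ (gc : ℕ), (∃ g : Gt, ∀ i j : Fin 4 ⊕ Fin 4, BR8 (bR8 i.swap) (g • bR8 j)
        = if Nat.testBit gc (8 * OzStmt.enc8 i + OzStmt.enc8 j) = true then 1 else 0) →
        OzStmt.pmat * OzStmt.matOf gc * OzStmt.pinv = OzStmt.omat m → ∃ h ∈ φ.range,
          ((h : Matrix.GeneralLinearGroup (Fin 4 ⊕ Fin 4) (ZMod 2)) :
            Matrix (Fin 4 ⊕ Fin 4) (Fin 4 ⊕ Fin 4) (ZMod 2)) = OzStmt.omat m := by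
      rintro gc ⟨g, hg⟩ hgc
      refine ⟨φ g, ⟨g, rfl⟩, ?_⟩
      rw [hφ1, ← hgc]
      have e : (Matrix.of fun i j => BR8 (bR8 i.swap) (g • bR8 j)) = OzStmt.matOf gc := by
        ext i j
        rw [Matrix.of_apply, hg]
        rfl
      rw [e]
    interval_cases m
    · exact key _ (gen_img8 cG0 cP0 pa0 pb0 im8_0 _ go8_0) om0
    · exact key _ (gen_img8 cG3 cP3 pa3 pb3 im8_1 _ go8_1) om1
    · exact key _ (gen_img8 cG9 cP9 pa9 pb9 im8_2 _ go8_2) om2
    · exact key _ (gen_img8 cH cPH paH pbH im8_3 _ go8_3) om3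
  -- the kernel: squares lie in K
  have hsq : ∀ g : Gt, φ g = 1 → (g : Co0) * (g : Co0) ∈ K := by
    intro g hg
    have hpm : ∀ x : Rt8, (g • x).1 = x.1 ∨ (g • x).1 = -x.1 := by
      intro x
      obtain ⟨a, ha, rfl⟩ := rt8_surj x
      obtain ⟨c, hc, e⟩ := rt8_surj (g • rt8 a ha)
      have hval : ∀ j < 8, b1 (bk8 j) c = b1 (bk8 j) a := by
        intro j hj
        obtain ⟨i, rfl⟩ := enc8_surj j hj
        have h1 := hφ2 g hg (rt8 a ha) i
        rw [e, BR8_bR, BR8_bR] at h1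
        exact zb_inj h1
      rw [e]
      rcases (pair_spec8 pair8_ok hc ha).2.2 hval with h1 | h1
      · left
        subst h1
        rfl
      · right
        apply Subtype.ext
        rw [AddSubgroup.coe_neg]
        exact h1
    have hroot : ∀ v : leechLattice, IsRt8 (v : GolayPt → ℤ) →
        ((g : Co0) * (g : Co0)) • v = v := by
      intro v hv
      rw [mul_smul]
      rcases hpm ⟨v, hv⟩ with h1 | h1
      · have h2 : (g : Co0) • v = v := h1
        rw [h2, h2]
      · have h2 : (g : Co0) • v = -v := h1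
        rw [h2, smul_neg_l, h2, neg_neg]
    rw [hK]
    exact mono_of_fix _ (elat_fix_all8 _ hroot)
  -- K commutes with the sign change and lies in the kernel
  have hKcomm : ∀ k ∈ K, k * t0 = t0 * k := by
    intro k hk
    obtain ⟨σ, hσ, c, hc, hfix, hsub, rfl⟩ := (hK k).mp hk
    exact mono_comm hσ hc hfix
  have hin : ∀ g : Gt, (g : Co0) ∈ K → φ g = 1 := by
    intro g hg
    obtain ⟨σ, hσ, c, hc, hfix, hsub, e⟩ := (hK (g : Co0)).mp hg
    apply hφ3
    intro i j
    have e2 : g • bR8 j = bR8 j := by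
      apply Subtype.ext
      rw [smul_val8, e]
      exact mono_fix hσ hc hfix hsub _ (bR8 j).2.2
    rw [e2]
  -- the central involution
  have hnegφ : ∀ g : Gt, (g : Co0) = Cfsg.Agent.S0398.negC → φ g = 1 := by
    intro g hg
    apply hφ3
    intro i j
    have e : (g • bR8 j).1 = -(bR8 j).1 := by
      rw [smul_val8, hg]
      exact SimpCo1.negC_smul _
    show Bf ((bR8 i).1 : GolayPt → ℤ) (((g • bR8 j).1 : leechLattice) : GolayPt → ℤ)
      = Bf ((bR8 i).1 : GolayPt → ℤ) ((bR8 j).1 : GolayPt → ℤ)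
    rw [e, AddSubgroup.coe_neg]
    exact Bf_neg_of _ _ (bk8_mem _ (enc8_lt i)) (bk8_mem _ (enc8_lt j))
  have hcen := Subgroup.mem_center_iff.mp Cfsg.Agent.S0398.negC_central
  have hnn : Cfsg.Agent.S0398.negC * Cfsg.Agent.S0398.negC = 1 := by
    apply Subtype.ext
    apply Equiv.ext
    intro x
    show Cfsg.Agent.S0398.negC • (Cfsg.Agent.S0398.negC • x) = x
    rw [SimpCo1.negC_smul, SimpCo1.negC_smul, neg_neg]
  have hnK : Cfsg.Agent.S0398.negC ∉ K := by
    intro hmem
    obtain ⟨σ, hσ, c, hc, hfix, hsub, e⟩ := (hK _).mp hmem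
    have h1 := mono_fix hσ hc hfix hsub Cfsg.Spor.leechU D_U
    rw [← e, SimpCo1.negC_smul] at h1
    have h2 := congrFun (congrArg Subtype.val h1) none
    rw [AddSubgroup.coe_neg, Pi.neg_apply] at h2
    have h3 : (Cfsg.Spor.leechU : GolayPt → ℤ) none = 4 := by
      show Cfsg.Spor.vecU none = 4
      decide
    rw [h3] at h2
    omega
  have h23 : ¬ 2 ^ 23 ∣ Nat.card ↥Co0 := by
    rw [Cfsg.Agent.S0397.result]
    norm_num
  obtain ⟨hrange, hker⟩ := hKer hRange hF ↥Co0 t0 Cfsg.Agent.S0398.negC K φ hKcard hnK hnn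
    (fun x => (hcen x).symm) hKcomm hlarge hsq hin hnegφ h23
  exact ⟨K, φ, hKcard, hφ1, hker⟩

/-! ### The two fixed vectors and the sign change on the octad -/

/-- the first fixed vector -/
noncomputable def va : leechLattice := ⟨vecL (laneRef ka), (dl_spec a_ok).2.2.1⟩

/-- the second fixed vector -/
noncomputable def vb : leechLattice := ⟨vecL (laneRef kb), (dl_spec b_ok).2.2.1⟩

theorem va_val : (va : GolayPt → ℤ) = vecB (mvB ka) :=
  (vecB_mv rfl (dl_spec a_ok).1 (dl_spec a_ok).2.1).symm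

theorem vb_val : (vb : GolayPt → ℤ) = vecB (mvB kb) :=
  (vecB_mv rfl (dl_spec b_ok).1 (dl_spec b_ok).2.1).symm

theorem va_norm : sqNorm (va : GolayPt → ℤ) = 32 := (dl_spec a_ok).2.2.2.1

theorem vb_norm : sqNorm (vb : GolayPt → ℤ) = 32 := (dl_spec b_ok).2.2.2.1

theorem va_O : ∀ p ∈ CzStmt.Oset, (va : GolayPt → ℤ) p = 0 := (dl_spec a_ok).2.2.2.2

theorem vb_O : ∀ p ∈ CzStmt.Oset, (vb : GolayPt → ℤ) p = 0 := (dl_spec b_ok).2.2.2.2

theorem dot_ab : dotInt (va : GolayPt → ℤ) (vb : GolayPt → ℤ) = -8 := by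
  rw [va_val, vb_val]
  have h := ab_ok
  simp only [Bool.and_eq_true] at h
  rw [dot_vecB 0 8 h.1.1 h.1.2 h.2]
  norm_num

/-- The sign change outside the octad maps a vector that vanishes on the octad to its
opposite. -/
theorem t0_neg (v : leechLattice) (hv : ∀ p ∈ CzStmt.Oset, (v : GolayPt → ℤ) p = 0) :
    t0 • v = -v := by
  apply Subtype.ext
  rw [t0_val, AddSubgroup.coe_neg]
  funext q
  show (if q ∈ CzStmt.Dset then -(v : GolayPt → ℤ) q else (v : GolayPt → ℤ) q)
    = -(v : GolayPt → ℤ) q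
  by_cases hq : q ∈ CzStmt.Dset
  · rw [if_pos hq]
  · rw [if_neg hq]
    have hO : q ∈ CzStmt.Oset := by
      by_contra h
      exact hq (O_or_D q h)
    rw [hv q hO]
    rfl

/-- the sign change on the octad -/
noncomputable def s0 : Co0 := Cfsg.Agent.S0398.negC * t0

theorem s0_fix (v : leechLattice) (hv : ∀ p ∈ CzStmt.Oset, (v : GolayPt → ℤ) p = 0) :
    s0 • v = v := by
  unfold s0
  rw [mul_smul, t0_neg v hv, SimpCo1.negC_smul, neg_neg]

theorem negC_sq : Cfsg.Agent.S0398.negC * Cfsg.Agent.S0398.negC = 1 := by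
  apply Subtype.ext
  apply Equiv.ext
  intro x
  show Cfsg.Agent.S0398.negC • (Cfsg.Agent.S0398.negC • x) = x
  rw [SimpCo1.negC_smul, SimpCo1.negC_smul, neg_neg]

theorem negC_comm (x : Co0) : Cfsg.Agent.S0398.negC * x = x * Cfsg.Agent.S0398.negC :=
  (Subgroup.mem_center_iff.mp Cfsg.Agent.S0398.negC_central x).symm

theorem s0_sq : s0 * s0 = 1 := by
  unfold s0
  rw [mul_assoc, ← mul_assoc t0, ← negC_comm t0, mul_assoc, t0_sq, mul_one, negC_sq]

theorem s0_ne : s0 ≠ 1 := by
  intro h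
  have h1 : s0 • Cfsg.Spor.leechU = Cfsg.Spor.leechU := by rw [h, one_smul]
  unfold s0 at h1
  rw [mul_smul, t0_fix _ D_U, SimpCo1.negC_smul] at h1
  have h2 := congrFun (congrArg Subtype.val h1) none
  rw [AddSubgroup.coe_neg, Pi.neg_apply] at h2
  have h3 : (Cfsg.Spor.leechU : GolayPt → ℤ) none = 4 := by
    show Cfsg.Spor.vecU none = 4
    decide
  rw [h3] at h2
  omega

/-- An automorphism commutes with the sign change on the octad if and only if it commutes with
the sign change outside the octad. -/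
theorem comm_s0_iff (g : Co0) : g * s0 = s0 * g ↔ g * t0 = t0 * g := by
  unfold s0
  constructor
  · intro h
    have h2 : Cfsg.Agent.S0398.negC * (g * t0) = Cfsg.Agent.S0398.negC * (t0 * g) := by
      rw [← mul_assoc, negC_comm g, mul_assoc, h, mul_assoc]
    exact mul_left_cancel h2
  · intro h
    rw [← mul_assoc, ← negC_comm g, mul_assoc, h, mul_assoc]

/-! ### The two automorphisms -/

/-- An automorphism passing the tests, as an element of the centraliser, has the matrix of the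
given code on the basis roots. -/
theorem gen_mat {N : ℕ × ℕ} (cN : matChk N.1 N.2 = true) (hc : elt N cN * t0 = t0 * elt N cN)
    (G : ℕ → ℕ) (gc : ℕ) (go : genOK8 N G gc = true) (i j : Fin 4 ⊕ Fin 4) :
    BR8 (bR8 i.swap) (mkG (elt N cN) hc • bR8 j)
      = if Nat.testBit gc (8 * OzStmt.enc8 i + OzStmt.enc8 j) = true then 1 else 0 := by
  obtain ⟨hG, happ, hbit⟩ := gen_spec8 go (enc8_lt i) (enc8_lt j)
  have e : mkG (elt N cN) hc • bR8 j = rt8 (G (OzStmt.enc8 j)) hG := by
    apply Subtype.ext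
    apply Subtype.ext
    rw [smul_val8, mkG_val]
    exact elt_app cN (rl_spec8 rl8_ok (bk8_mem _ (enc8_lt j))).2.2.1 (rl_spec8 rl8_ok hG).2.2.1
      happ (bR8 j).1 rfl
  rw [e, BR8_bR, enc8_swap, hbit]
  rfl

theorem hcY : elt nY cY * t0 = t0 * elt nY cY := by
  rw [t0_eq]
  exact (elt_mul cY cT cPY paY).trans (elt_mul cT cY cPY pbY).symm

theorem hcW : elt nW cW * t0 = t0 * elt nW cW := by
  rw [t0_eq]
  exact (elt_mul cW cT cPW paW).trans (elt_mul cT cW cPW pbW).symm

theorem fix_of {N : ℕ × ℕ} (cN : matChk N.1 N.2 = true) (h : fixOK N = true) :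
    elt N cN • va = va ∧ elt N cN • vb = vb := by
  unfold fixOK at h
  simp only [Bool.and_eq_true] at h
  obtain ⟨⟨⟨h1, h2⟩, h3⟩, h4⟩ := h
  exact ⟨elt_fix cN h1 h2 va va_val, elt_fix cN h3 h4 vb vb_val⟩

/-- The square of the first automorphism is the sign change on the octad. -/
theorem y_sq : elt nY cY * elt nY cY = s0 := by
  apply eq_of_agree
  intro i hi hm
  have h := (allB_iff _ _).mp sqY i hi
  simp only [Bool.and_eq_true] at h
  obtain ⟨⟨⟨⟨⟨v0, v1⟩, v2⟩, a1⟩, a2⟩, nf⟩ := h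
  apply Subtype.ext
  rw [mul_smul]
  have e1 := elt_app cY v0 v1 a1 ⟨vecB (CertSpan2.rZ i), hm⟩ rfl
  have e2 := elt_app cY v1 v2 a2 (elt nY cY • ⟨vecB (CertSpan2.rZ i), hm⟩) e1
  rw [e2]
  unfold s0
  rw [mul_smul, SimpCo1.negC_smul, AddSubgroup.coe_neg, t0_val]
  exact nflip_spec nf

/-! ### The form on the roots -/

theorem dot_comm (x y : GolayPt → ℤ) : dotInt x y = dotInt y x := by
  unfold dotInt
  exact Finset.sum_congr rfl (fun p _ => mul_comm _ _)

theorem dot_add_r (u v w : GolayPt → ℤ) : dotInt u (v + w) = dotInt u v + dotInt u w := by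
  unfold dotInt
  rw [← Finset.sum_add_distrib]
  exact Finset.sum_congr rfl (fun p _ => by rw [Pi.add_apply, mul_add])

theorem BR8_symm (x y : Rt8) : BR8 x y = BR8 y x := by
  unfold BR8 Bf
  rw [dot_comm]

/-- The inner product of two roots is a multiple of 16. -/
theorem dot16 (x y : Rt8) :
    ∃ m : ℤ, dotInt (x.1 : GolayPt → ℤ) (y.1 : GolayPt → ℤ) = 16 * m := by
  obtain ⟨a, ha, rfl⟩ := rt8_surj x
  obtain ⟨c, hc, rfl⟩ := rt8_surj y
  have h := (pair_spec8 pair8_ok ha hc).1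
  have va' := (rl_spec8 rl8_ok ha).2.2.1
  have vc := (rl_spec8 rl8_ok hc).2.2.1
  show ∃ m : ℤ, dotInt (vecB (mvB a)) (vecB (mvB c)) = 16 * m
  unfold b1 b0 at h
  simp only [Bool.or_eq_true] at h
  rcases h with (h | h) | ((h | h) | h)
  · exact ⟨1, by rw [dot_vecB 16 0 va' vc h]; norm_num⟩
  · exact ⟨-1, by rw [dot_vecB 0 16 va' vc h]; norm_num⟩
  · exact ⟨0, by rw [dot_vecB 0 0 va' vc h]; norm_num⟩
  · exact ⟨2, by rw [dot_vecB 32 0 va' vc h]; norm_num⟩
  · exact ⟨-2, by rw [dot_vecB 0 32 va' vc h]; norm_num⟩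

theorem Bf_add {u v1 v2 w1 w2 : GolayPt → ℤ} {m1 m2 n1 n2 : ℤ}
    (h1 : dotInt u v1 = 16 * m1) (h2 : dotInt u v2 = 16 * m2) (h3 : dotInt u w1 = 16 * n1)
    (h4 : dotInt u w2 = 16 * n2) (hs : v1 + v2 = w1 + w2) :
    Bf u v1 + Bf u v2 = Bf u w1 + Bf u w2 := by
  have e : dotInt u v1 + dotInt u v2 = dotInt u w1 + dotInt u w2 := by
    rw [← dot_add_r, ← dot_add_r, hs]
  unfold Bf
  rw [h1, h2, h3, h4] at *
  have e2 : m1 + m2 = n1 + n2 := by linarith
  rw [Int.mul_ediv_cancel_left _ (by norm_num : (16 : ℤ) ≠ 0),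
    Int.mul_ediv_cancel_left _ (by norm_num : (16 : ℤ) ≠ 0),
    Int.mul_ediv_cancel_left _ (by norm_num : (16 : ℤ) ≠ 0),
    Int.mul_ediv_cancel_left _ (by norm_num : (16 : ℤ) ≠ 0), ← Int.cast_add, ← Int.cast_add, e2]

/-- the coordinate of a root on a basis root, from the kernel test -/
theorem coord_rt (j : Fin 4 ⊕ Fin 4) (a : ℕ) (ha : a ∈ RL8) :
    BR8 (bR8 j.swap) (rt8 a ha) = zb (b1 (bk8 ((OzStmt.enc8 j + 4) % 8)) a) := by
  rw [BR8_bR, enc8_swap]

theorem zb_bit (b : Bool) : zb b = if b = true then 1 else 0 := rfl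

/-! ### The invariant subspace -/

/-- An element of the centraliser of the sign change that fixes the first fixed vector maps the
vector of code `m` of one of the four chosen triples to one of the fifteen listed vectors. -/
theorem inv_main (hE : McStmt.Eqv) (g : Gt) (hga : (g : Co0) • va = va) (k m : ℕ)
    (hrep : repOK k m = true) :
    ∃ m' ∈ WR, ∀ i : Fin 4 ⊕ Fin 4,
      (∑ j : Fin 4 ⊕ Fin 4, BR8 (bR8 i.swap) (g • bR8 j) *
          (if Nat.testBit m (OzStmt.enc8 j) = true then (1 : ZMod 2) else 0))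
        = if Nat.testBit m' (OzStmt.enc8 i) = true then 1 else 0 := by
  obtain ⟨hmem, hk, hv, hd, hs, hmask⟩ := rep_spec hrep
  obtain ⟨hr1, hr2, hsum, -⟩ := trip_spec trip_ok hmem
  have ex : vecB (mvB (rep k).1) = vecL (laneRef (rep k).1) := vecB_mv rfl hk hv
  have hxl : vecB (mvB (rep k).1) ∈ leechLattice := by
    rw [ex]
    exact (mv_sound hk hv).1
  have hxn : sqNorm (vecB (mvB (rep k).1)) = 32 := by
    rw [ex]
    exact (mv_sound hk hv).2
  -- the image of the vector
  have hn' : sqNorm (((g : Co0) • (⟨vecB (mvB (rep k).1), hxl⟩ : leechLattice) : leechLattice) :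
      GolayPt → ℤ) = 32 := by
    rw [smul_norm]
    exact hxn
  have hd' : dotInt (vecB (mvB ka))
      (((g : Co0) • (⟨vecB (mvB (rep k).1), hxl⟩ : leechLattice) : leechLattice) : GolayPt → ℤ)
      = 16 := by
    have h1 := smul_dot (g : Co0) va ⟨vecB (mvB (rep k).1), hxl⟩
    rw [hga, va_val] at h1
    rw [h1]
    exact hd
  have hcomm : t0 • ((g : Co0) • (⟨vecB (mvB (rep k).1), hxl⟩ : leechLattice))
      = (g : Co0) • (t0 • (⟨vecB (mvB (rep k).1), hxl⟩ : leechLattice)) := by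
    rw [← mul_smul, ← Gt_comm g, mul_smul]
  have hs' : dotInt
      (((g : Co0) • (⟨vecB (mvB (rep k).1), hxl⟩ : leechLattice) : leechLattice) : GolayPt → ℤ)
      (signedPerm 1 CzStmt.Dset
        (((g : Co0) • (⟨vecB (mvB (rep k).1), hxl⟩ : leechLattice) : leechLattice) :
          GolayPt → ℤ)) = 0 := by
    rw [← t0_val, hcomm, smul_dot, t0_val]
    exact hs
  obtain ⟨t', ht', ex'⟩ := x_code scanX_ok condsA_ok _ (SetLike.coe_mem _) hn' hd' hs'
  obtain ⟨hr1', hr2', hsum', m', hm', hmask'⟩ := trip_spec trip_ok ht'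
  refine ⟨m', hm', fun i => ?_⟩
  -- the sums of the two roots
  have e1 : (rt8 (rep k).2.1 hr1).1 + (rt8 (rep k).2.2 hr2).1
      = (⟨vecB (mvB (rep k).1), hxl⟩ : leechLattice)
        + t0 • (⟨vecB (mvB (rep k).1), hxl⟩ : leechLattice) := by
    apply Subtype.ext
    funext q
    rw [AddSubgroup.coe_add, AddSubgroup.coe_add, Pi.add_apply, Pi.add_apply, t0_val]
    exact hsum q
  have e2 : (rt8 t'.2.1 hr1').1 + (rt8 t'.2.2 hr2').1
      = (g : Co0) • (⟨vecB (mvB (rep k).1), hxl⟩ : leechLattice)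
        + t0 • ((g : Co0) • (⟨vecB (mvB (rep k).1), hxl⟩ : leechLattice)) := by
    apply Subtype.ext
    funext q
    rw [AddSubgroup.coe_add, AddSubgroup.coe_add, Pi.add_apply, Pi.add_apply, t0_val, ex']
    exact hsum' q
  have key : (g • rt8 (rep k).2.1 hr1).1 + (g • rt8 (rep k).2.2 hr2).1
      = (rt8 t'.2.1 hr1').1 + (rt8 t'.2.2 hr2').1 := by
    rw [smul_val8, smul_val8, ← smul_add_l, e1, smul_add_l, e2, hcomm]
  have keyf : ((g • rt8 (rep k).2.1 hr1).1 : GolayPt → ℤ) + ((g • rt8 (rep k).2.2 hr2).1 : GolayPt → ℤ)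
      = ((rt8 t'.2.1 hr1').1 : GolayPt → ℤ) + ((rt8 t'.2.2 hr2').1 : GolayPt → ℤ) := by
    rw [← AddSubgroup.coe_add, ← AddSubgroup.coe_add, key]
  -- the coordinates
  have hEq := hE Gt Rt8 BR8 bR8 BR8_inv BR8_symm hcomp8
  have hbit : ∀ j : Fin 4 ⊕ Fin 4,
      (if Nat.testBit m (OzStmt.enc8 j) = true then (1 : ZMod 2) else 0)
        = BR8 (bR8 j.swap) (rt8 (rep k).2.1 hr1) + BR8 (bR8 j.swap) (rt8 (rep k).2.2 hr2) := by
    intro j
    rw [coord_rt, coord_rt, ← zb_xor, hmask _ (enc8_lt j)]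
    rfl
  have hbit' : (if Nat.testBit m' (OzStmt.enc8 i) = true then (1 : ZMod 2) else 0)
        = BR8 (bR8 i.swap) (rt8 t'.2.1 hr1') + BR8 (bR8 i.swap) (rt8 t'.2.2 hr2') := by
    rw [coord_rt, coord_rt, ← zb_xor, hmask' _ (enc8_lt i)]
    rfl
  rw [hbit']
  simp only [hbit, mul_add, Finset.sum_add_distrib]
  rw [← hEq g (rt8 (rep k).2.1 hr1) i, ← hEq g (rt8 (rep k).2.2 hr2) i]
  obtain ⟨m1, d1⟩ := dot16 (bR8 i.swap) (g • rt8 (rep k).2.1 hr1)
  obtain ⟨m2, d2⟩ := dot16 (bR8 i.swap) (g • rt8 (rep k).2.2 hr2)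
  obtain ⟨n1, d3⟩ := dot16 (bR8 i.swap) (rt8 t'.2.1 hr1')
  obtain ⟨n2, d4⟩ := dot16 (bR8 i.swap) (rt8 t'.2.2 hr2')
  exact Bf_add d1 d2 d3 d4 keyf

theorem enc_eq (j : Fin 4 ⊕ Fin 4) : McStmt.enc j = OzStmt.enc8 j := by
  cases j <;> rfl

/-- The matrix on the basis roots of an element of the centraliser of the sign change that fixes
the first fixed vector maps the four chosen vectors into the set of the fifteen listed ones. -/
theorem inv_mat (hE : McStmt.Eqv) (g : Gt) (hga : (g : Co0) • va = va) (k : Fin 4) :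
    ∃ m ∈ ([6, 24, 30, 98, 100, 122, 124, 137, 143, 145, 151, 235, 237, 243, 245] : List ℕ),
      (Matrix.of (fun i j => BR8 (bR8 i.swap) (g • bR8 j)) : McStmt.M8) *ᵥ
          McStmt.vecOf (([124, 245, 143, 145] : List ℕ).getD k.val 0) = McStmt.vecOf m := by
  have hr := rep_ok
  simp only [Bool.and_eq_true] at hr
  obtain ⟨⟨⟨r0, r1⟩, r2⟩, r3⟩ := hr
  have main : ∀ (kk mm : ℕ), repOK kk mm = true →
      ∃ m ∈ ([6, 24, 30, 98, 100, 122, 124, 137, 143, 145, 151, 235, 237, 243, 245] : List ℕ),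
      (Matrix.of (fun i j => BR8 (bR8 i.swap) (g • bR8 j)) : McStmt.M8) *ᵥ McStmt.vecOf mm
        = McStmt.vecOf m := by
    intro kk mm hrep
    obtain ⟨m', hm', h⟩ := inv_main hE g hga kk mm hrep
    refine ⟨m', hm', ?_⟩
    funext i
    have h' := h i
    unfold McStmt.vecOf
    rw [enc_eq]
    rw [← h']
    unfold Matrix.mulVec dotProduct
    apply Finset.sum_congr rfl
    intro j _
    show BR8 (bR8 i.swap) (g • bR8 j) * (if Nat.testBit mm (McStmt.enc j) = true then 1 else 0) = _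
    rw [enc_eq]
  fin_cases k
  · exact main 0 124 r0
  · exact main 1 245 r1
  · exact main 2 143 r2
  · exact main 3 145 r3

/-! ### The stabiliser of the two fixed vectors -/

/-- the joint stabiliser of the two fixed vectors -/
noncomputable abbrev Mab : Subgroup ↥Co0 := stabilizer Co0 va ⊓ stabilizer Co0 vb

theorem s0_mem : s0 ∈ Mab :=
  ⟨mem_stabilizer_iff.mpr (s0_fix va va_O), mem_stabilizer_iff.mpr (s0_fix vb vb_O)⟩

/-- the sign change on the octad as an element of the stabiliser -/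
noncomputable def sM : ↥Mab := ⟨s0, s0_mem⟩

/-- the centraliser of the sign change in the stabiliser -/
noncomputable abbrev CM : Subgroup ↥Mab := Subgroup.centralizer ({sM} : Set ↥Mab)

theorem cm_comm (g : ↥CM) : ((g : ↥Mab) : Co0) * t0 = t0 * ((g : ↥Mab) : Co0) := by
  have h := Subgroup.mem_centralizer_iff.mp g.2 sM rfl
  have h2 : s0 * ((g : ↥Mab) : Co0) = ((g : ↥Mab) : Co0) * s0 := congrArg Subtype.val h
  exact (comm_s0_iff _).mp h2.symm

/-- the inclusion of the centraliser in the stabiliser into the centraliser in the automorphism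
group -/
noncomputable def iota : ↥CM →* Gt where
  toFun g := mkG ((g : ↥Mab) : Co0) (cm_comm g)
  map_one' := rfl
  map_mul' _ _ := rfl

theorem iota_val (g : ↥CM) : ((iota g : Gt) : Co0) = ((g : ↥Mab) : Co0) := rfl

theorem cm_fix (g : ↥CM) : ((iota g : Gt) : Co0) • va = va :=
  mem_stabilizer_iff.mp (g : ↥Mab).2.1

/-- an automorphism fixing the two vectors and commuting with the sign change outside the
octad, as an element of the centraliser in the stabiliser -/
noncomputable def mkC (k : Co0) (h1 : k • va = va ∧ k • vb = vb) (hc : k * t0 = t0 * k) : ↥CM :=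
  ⟨⟨k, ⟨mem_stabilizer_iff.mpr h1.1, mem_stabilizer_iff.mpr h1.2⟩⟩,
    Subgroup.mem_centralizer_iff.mpr (by
      intro h hh
      rw [Set.mem_singleton_iff] at hh
      subst hh
      apply Subtype.ext
      show s0 * k = k * s0
      exact ((comm_s0_iff k).mpr hc).symm)⟩

theorem pmat_eq : McStmt.pmat = OzStmt.pmat := by
  funext i j
  cases i <;> cases j <;> rfl

theorem pinv_eq : McStmt.pinv = OzStmt.pinv := by
  funext i j
  cases i <;> cases j <;> rfl

theorem psiY : McStmt.Ew * (OzStmt.pmat * OzStmt.matOf 7012795147747203750 * OzStmt.pinv)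
    * McStmt.Pw = McStmt.mat4 39633 := by decide +kernel

theorem psiW : McStmt.Ew * (OzStmt.pmat * OzStmt.matOf 3144667398722658642 * OzStmt.pinv)
    * McStmt.Pw = McStmt.mat4 5092 := by decide +kernel

theorem card_Mab : Nat.card ↥Mab = 898128000 :=
  (Cfsg.Agent.S0404.result va vb va_norm vb_norm dot_ab).2

/-! ### The theorem -/

/-- The stabiliser of the two fixed vectors has an involution whose centraliser is a non-split
double cover of the alternating group of degree 8. -/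
theorem main (hOH : OzStmt.OHom) (hGen : OzStmt.GenO) (hF : OzStmt.OFacts)
    (hRange : OzStmt.Range) (hKer : OzStmt.Ker) (hStr : CzStmt.K1Str) (hXS : CzStmt.K1XS)
    (hPsi : McStmt.Psi) (hG4 : McStmt.Gen4) (hN : McStmt.Nsdc) (hE : McStmt.Eqv)
    (hB : McStmt.Bridge) :
    ∃ t : ↥Mab, orderOf t = 2 ∧
      Cfsg.IsNonsplitDoubleCover ↥(Subgroup.centralizer ({t} : Set ↥Mab))
        ↥(alternatingGroup (Fin 8)) := by
  obtain ⟨K, φ, hKcard, hφ1, hker⟩ := phi_exists hOH hGen hF hRange hKer hStr hXS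
  -- the action on the subspace
  have hinv : ∀ (g : ↥CM) (k : Fin 4), ∃ c : Fin 4 → ZMod 2,
      (((φ.comp iota) g : Matrix.GeneralLinearGroup McStmt.I8 (ZMod 2)) : McStmt.M8)
        *ᵥ (fun i => McStmt.Pw i k) = McStmt.Pw *ᵥ c := by
    intro g k
    have e : (((φ.comp iota) g : Matrix.GeneralLinearGroup McStmt.I8 (ZMod 2)) : McStmt.M8)
        = McStmt.pmat * Matrix.of (fun i j => BR8 (bR8 i.swap) (iota g • bR8 j))
          * McStmt.pinv := by
      rw [pmat_eq, pinv_eq]
      exact hφ1 (iota g)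
    rw [e]
    exact hB _ (fun k' => inv_mat hE (iota g) (cm_fix g) k') k
  obtain ⟨ψ, hψ1, hψ2⟩ := hPsi ↥CM (φ.comp iota) hinv
  -- the two elements
  have matY : (Matrix.of fun i j => BR8 (bR8 i.swap)
      (iota (mkC (elt nY cY) (fix_of cY fixY) hcY) • bR8 j))
      = OzStmt.matOf 7012795147747203750 := by
    ext i j
    rw [Matrix.of_apply]
    exact gen_mat cY hcY imY _ goY i j
  have matW : (Matrix.of fun i j => BR8 (bR8 i.swap)
      (iota (mkC (elt nW cW) (fix_of cW fixW) hcW) • bR8 j))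
      = OzStmt.matOf 3144667398722658642 := by
    ext i j
    rw [Matrix.of_apply]
    exact gen_mat cW hcW imW _ goW i j
  have hsurj : Function.Surjective ψ := by
    rw [← MonoidHom.range_eq_top]
    apply hG4
    · refine ⟨ψ (mkC (elt nY cY) (fix_of cY fixY) hcY), ⟨_, rfl⟩, ?_⟩
      rw [hψ1]
      have e := hφ1 (iota (mkC (elt nY cY) (fix_of cY fixY) hcY))
      rw [matY] at e
      rw [← psiY, ← e]
      rfl
    · refine ⟨ψ (mkC (elt nW cW) (fix_of cW fixW) hcW), ⟨_, rfl⟩, ?_⟩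
      rw [hψ1]
      have e := hφ1 (iota (mkC (elt nW cW) (fix_of cW fixW) hcW))
      rw [matW] at e
      rw [← psiW, ← e]
      rfl
  -- the kernel consists of 2-elements
  have hker2 : ∀ g : ↥CM, ψ g = 1 → ∃ k : ℕ, g ^ (2 ^ k) = 1 := by
    intro g hg
    refine ⟨10, ?_⟩
    have h1 : φ (iota (g * g)) = 1 := by
      have := hψ2 g hg
      rw [← map_mul] at this
      exact this
    have hc : (((g : ↥Mab) : Co0) * ((g : ↥Mab) : Co0)) ^ (2 ^ 9) = 1 := by
      have hpow : ∀ c : Co0, c ∈ K → c ^ (2 ^ 9) = 1 := by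
        intro c hc
        have h2 : (⟨c, hc⟩ : ↥K) ^ Nat.card ↥K = 1 := pow_card_eq_one'
        rw [hKcard] at h2
        exact congrArg Subtype.val h2
      rcases (hker (iota (g * g))).mp h1 with h2 | h2
      · exact hpow _ h2
      · have h3 := hpow _ h2
        have hcm : Commute Cfsg.Agent.S0398.negC ((iota (g * g) : Gt) : Co0) := negC_comm _
        rw [hcm.mul_pow] at h3
        have h4 : Cfsg.Agent.S0398.negC ^ (2 ^ 9) = 1 := by
          have : (2 : ℕ) ^ 9 = 2 * 2 ^ 8 := by norm_num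
          rw [this, pow_mul, pow_two, negC_sq, one_pow]
        rw [h4, one_mul] at h3
        exact h3
    apply Subtype.ext
    apply Subtype.ext
    show ((g : ↥Mab) : Co0) ^ (2 ^ 10) = 1
    have : (2 : ℕ) ^ 10 = 2 * 2 ^ 9 := by norm_num
    rw [this, pow_mul, pow_two]
    exact hc
  -- the square root of the sign change
  have hy : ∃ y : ↥CM, (y : ↥Mab) * (y : ↥Mab) = sM :=
    ⟨mkC (elt nY cY) (fix_of cY fixY) hcY, Subtype.ext y_sq⟩
  haveI : Finite ↥Mab := Nat.finite_of_card_ne_zero (by rw [card_Mab]; norm_num)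
  have h8 : ¬ 2 ^ 8 ∣ Nat.card ↥Mab := by
    rw [card_Mab]
    norm_num
  have hs1 : sM ≠ 1 := fun h => s0_ne (congrArg Subtype.val h)
  have hss : sM * sM = 1 := Subtype.ext s0_sq
  obtain ⟨ho, hns⟩ := hN ↥Mab sM h8 hs1 hss ψ hsurj hker2 hy
  exact ⟨sM, ho, hns⟩

end Cfsg.Agent.Lib.Helper27.McMain
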