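import Mathlib
import Cfsg.Prelude.Def_Spor_Conway
import Cfsg.Agent.Lib.Helper27.McMain
import Cfsg.Agent.Lib.Helper26.McLIso

/-!
The joint stabiliser of the two fixed vectors of `McMain` is isomorphic to the McLaughlin group:
it is conjugate, in the automorphism group of the lattice, to the joint stabiliser of the two
standard shortest vectors with inner product `-8`, which is isomorphic to the McLaughlin group.
-/

set_option autoImplicit false

namespace Cfsg.Agent.Lib.Helper27.McIso

open Cfsg Cfsg.Agent.Lib.Helper27.CoGlue Cfsg.Agent.Lib.Helper27.CoStd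
open Cfsg.Agent.Lib.Helper27.SimpGlue Cfsg.Agent.Lib.Helper27.SimpleCrit
open Cfsg.Agent.Lib.Helper27.SimpMcL
open Cfsg.Agent.Lib.Helper27.McMain
open MulAction

theorem iso_mcl : Nonempty (↥Mab ≃* ↥Cfsg.Spor.McL) := by
  obtain ⟨g1, h1, h2⟩ := std_min va vb va_norm vb_norm dot_ab
  obtain ⟨e2⟩ := Cfsg.Agent.Lib.Helper26.McLIso.mcl_iso
  have e1 : ↥Mab ≃* ↥Cfsg.Agent.Lib.Helper26.McLIso.MG :=
    conjEquiv Mab Cfsg.Agent.Lib.Helper26.McLIso.MG g1 (by
      intro x
      rw [Subgroup.mem_inf, Subgroup.mem_inf, mem_stabilizer_iff, mem_stabilizer_iff,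
        mem_stabilizer_iff, mem_stabilizer_iff, conj_fix g1 x h1, conj_fix g1 x h2])
  exact ⟨e1.trans e2.symm⟩

end Cfsg.Agent.Lib.Helper27.McIso
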